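import Cfsg.Agent.Fischer.LX
import Cfsg.Agent.Fischer.JF

/-!
Recognition of `U₆(2)` from the local structure.
-/

set_option autoImplicit false

namespace Cfsg.Agent.LF

open Subgroup Module Cfsg.Agent.Comp Cfsg.Agent.Herm Cfsg.Agent.Fischer.U6 Cfsg.Agent.Fischer

section
variable {V : Type*} [AddCommGroup V] [Module K4 V] [FiniteDimensional K4 V] {B : V →ₛₗ[s4] V →ₗ[K4] K4}
  (S : Sp B)

theorem five6 {u v : V} (hu : B u u = 0) (hv : B v v = 0) (h : B u v = 0) :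
    tp S.hB u * tp S.hB v * tp S.hB (v + (1 : K4) • u) * tp S.hB (v + w4 • u) *
      tp S.hB (v + (w4 + 1) • u) = 1 := by
  have hB := S.hB
  have h3 := hB.zero_symm h
  have is : ∀ c : K4, B (v + c • u) (v + c • u) = 0 := fun c => by simp [hu, hv, h, h3]
  simp only [tp, ← QuotientGroup.mk_mul]
  rw [← QuotientGroup.mk_one]
  refine congrArg _ (sug_ext fun x => ?_)
  have e1 : (1 : K4) + 1 = 0 := k2 1
  have e2 : w4 * w4 = w4 + 1 := by decide
  have e3 : s4 w4 = w4 + 1 := by rw [← cj4_eq]; decide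
  simp only [sug_mul_apply, ts_apply hB c4 hu, ts_apply hB c4 hv, ts_apply hB c4 (is _), map_add, map_smul,
    LinearMap.add_apply, b_smul_left, hu, hv, h, h3, e3, map_one, smul_eq_mul,
    mul_zero, add_zero, one_mul, zero_smul]
  show _ = x
  match_scalars <;> grind

include S in
theorem part6 {G : Type*} [Group G] {D : Set G} {p : V → G} (U : UC B D p) (ht : closure D = ⊤)
    (hn : D.ncard = 693) (five : ∀ {u v}, B u u = 0 → B v v = 0 → B u v = 0 →
      p u * p v * p (v + (1 : K4) • u) * p (v + w4 • u) * p (v + (w4 + 1) • u) = 1)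
    (hp : ∃ u v, Is B u ∧ Is B v ∧ B u v = 0 ∧ ∀ c : K4, v ≠ c • u) : Part D D := by
  obtain rfl : {y | ∃ u, Is B u ∧ p u = y} = D := Set.ext fun y => ⟨fun ⟨u, hu, e⟩ => e ▸ U.mem u hu, U.surj y⟩
  set D := {y | ∃ u, Is B u ∧ p u = y}
  have C := U.cl
  have cj : ∀ g : G, ∀ {x}, x ∈ D → g * x * g⁻¹ ∈ D := fun g _ hx => C.conj_mem (ht ▸ mem_top g) hx
  have np : ∀ {u v}, Is B u → Is B v → p u ≠ p v → ∀ a : K4, v ≠ a • u :=
    fun hu hv e a e' => e (U.eq_of_smul hu hv e').symm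
  have n12 : ∀ a ∈ D, ∀ b ∈ D, a ≠ b → Commute a b → a * b ∉ D :=
    fun a ha b hb h1 h2 h3 => tt_ne_one C.tt hb (by
      simpa using U.eq_of_perp S h3 ha fun s hs c => (C.comm_mul ha hb hs h1 h2 c).1)
  have ln : ∀ {u v w}, Is B u → Is B v → Is B w → B u v = 0 → (∀ s ∈ D,
      Commute s (p u) → Commute s (p v) → Commute s (p w)) →
      ∃ x y : K4, w = x • u + y • v := fun hu hv hw c H => lin S hu hv hw c fun s hs h1 h2 =>
    (U.comm hs hw S).1 (H _ (U.mem s hs) ((U.comm hs hu S).2 h1) ((U.comm hs hv S).2 h2))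
  have cl : ∀ {u v s}, Is B s → Is B u → Is B v → ∀ {c : K4}, Is B (v + c • u) →
      Commute (p s) (p u) → Commute (p s) (p v) →
      Commute (p s) (p (v + c • u)) := fun hs hu hv c hw h1 h2 =>
    (U.comm hs hw S).2 (by rw [map_add, map_smul, (U.comm hs hu S).1 h1, (U.comm hs hv S).1 h2]; simp)
  refine ⟨fun g _ => cj g, fun x hx y hy => (U.trans S hx hy).imp fun _ h => h.2, C, le_rfl,
    fun _ _ _ h _ => h, fun _ _ _ _ => ht ▸ mem_top _, fun x hx y hy => U.trans S hx hy,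
    fun u _ hu => ?_, ?_, ?_, n12, ?_, ?_⟩
  · have : Finite D := (U.ncard_le S).1
    have := Fintype.ofFinite D
    have : Fact (Nat.Prime 2) := ⟨Nat.prime_two⟩
    let f : D → D := fun x => ⟨_, cj u x.2⟩
    have hf : Function.Involutive f := fun x => Subtype.ext (by
      simp [f, inv_of_mul_self hu, mul_assoc, cancel_of_mul_self hu, hu])
    obtain ⟨a, ha⟩ := Equiv.Perm.exists_fixed_point_of_prime (p := 2) (n := 1) (σ := hf.toPerm)
      (by rw [← Nat.card_eq_fintype_card, Nat.card_coe_set_eq, hn]; decide) (Equiv.ext hf)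
    exact ⟨a, a.2, mul_inv_eq_iff_eq_mul.1 (congrArg Subtype.val ha)⟩
  · obtain ⟨u, v, i1, i2, h1, h2⟩ := hp
    exact ⟨_, U.mem _ i1, _, U.mem _ i2, fun e => (U.inj _ _ i1 i2 e).elim h2, (U.comm i1 i2 S).2 h1⟩
  · rintro _ ⟨u, hu, rfl⟩ _ ⟨v, hv, rfl⟩ _ ⟨w, hw, rfl⟩ _ ⟨x, hx, rfl⟩ h1 h2 h3 h4
    have c := (U.comm hu hv S).1 h2
    have ne : p w ≠ p x := fun e => h1 (by
      rw [e, C.sq (U.mem x hx)] at h4; rw [← C.inv (U.mem v hv)]; exact eq_inv_of_mul_eq_one_left h4)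
    have k := fun s hs (c1 : Commute s (p u)) (c2 : Commute s (p v)) =>
      C.comm_mul (U.mem w hw) (U.mem x hx) hs ne h3 (h4 ▸ c1.mul_right c2)
    obtain ⟨α, β, e1⟩ := ln hu hv hw c fun s hs c1 c2 => (k s hs c1 c2).1
    obtain ⟨α', β', e2⟩ := ln hu hv hx c fun s hs c1 c2 => (k s hs c1 c2).2
    by_cases b0 : β = 0
    · exact Or.inl (U.eq_of_smul hu hw (by simpa [b0] using e1))
    by_cases b1 : β' = 0
    · rw [U.eq_of_smul hu hx (c := α') (by simpa [b1] using e2), h2.eq, mul_left_inj] at h4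
      exact Or.inr h4.symm
    obtain ⟨y, hy, k1, k2⟩ := S.hB.exists_hyp_partner (Submodule.span K4 {u}) (fun e => by
      obtain ⟨a, e⟩ := Submodule.mem_span_singleton.1 e
      exact np hu hv h1 a e.symm) hv.2 fun w hw => by
        obtain ⟨a, rfl⟩ := Submodule.mem_span_singleton.1 hw
        simp [S.hB.zero_symm c]
    have iy : Is B y := ⟨fun e => by simp [e] at k1, k2⟩
    have y1 : B y u = 0 := hy u (Submodule.mem_span_singleton_self u)
    have y2 : B y v = 1 := S.hB.one_symm k1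
    have m := U.mem y iy
    have n1 : ¬ Commute (p y) (p w) := by rw [U.comm iy hw S, e1]; simp [y1, y2, b0]
    have n2 : ¬ Commute (p y) (p x) := by rw [U.comm iy hx S, e2]; simp [y1, y2, b1]
    have := s4l (C.sq (U.mem w hw)) (C.braid m (U.mem w hw) n1).symm (C.braid m (U.mem x hx) n2).symm h3
    have c1 := (U.comm iy hu S).2 y1
    refine absurd ((C.comm_iff m _).2 ?_) (C.not_comm_op m (U.mem v hv)
      (by rw [U.comm iy hv S, y2]; exact one_ne_zero))
    have e3 : ∀ a b c : G, a * (b * c * b) * a = a * b * c * (b * a) := fun _ _ _ => by group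
    have e4 : p v * p u * p y * (p u * p v) = p v * p y * p v := by
      rw [mul_assoc (p v), ← c1.eq]; simp only [mul_assoc, C.cancel (U.mem u hu)]
    rw [e3 (p w), ← h3.eq, ← h4] at this
    rwa [← e4, ← h2.eq]
  · rintro _ ⟨u, hu, rfl⟩ _ ⟨v, hv, rfl⟩ h1 h2
    have c := (U.comm hu hv S).1 h2
    have i := fun k => hu.add S hv c k (np hu hv h1)
    have k1 := fun k => cl hu hu hv (i k) rfl h2
    have k2 := fun k => cl hv hu hv (i k) h2.symm rfl
    have k3 := fun k l => cl (i k) hu hv (i l) (k1 k).symm (k2 k).symm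
    refine ⟨[p u, p v, p (v + (1 : K4) • u), p (v + w4 • u), p (v + (w4 + 1) • u)], ⟨2, rfl⟩,
      by simpa only [List.prod_cons, List.prod_nil, mul_one, mul_assoc] using five hu.2 hv.2 c, ?_⟩
    simp [-one_smul, U.mem _ (i _), U.mem u hu, U.mem v hv, h2, h2.symm, k1, k2, k3, (k1 _).symm, (k2 _).symm]
  · rintro _ ⟨u, hu, rfl⟩ _ ⟨v, hv, rfl⟩ _ ⟨w, hw, rfl⟩ h1 h2 h3 c1 c2 c3
    have c := (U.comm hu hv S).1 c1
    have i := fun k => hu.add S hv c k (np hu hv h1)
    have k1 := fun k => cl hu hu hv (i k) rfl c1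
    have k2 := fun k => cl hv hu hv (i k) c1.symm rfl
    have k3 := fun k => cl hw hu hv (i k) c2.symm c3.symm
    have k4 := fun k => ((k1 k).symm.mul_right (k2 k).symm).mul_right (k3 k).symm
    have nn : ∀ g, g * p u * g⁻¹ ≠ g * p v * g⁻¹ := fun g => by simpa using h1
    have m1 := fun g => cj g (U.mem u hu)
    have m2 := fun g => cj g (U.mem v hv)
    have cc := fun g => (commute_conj_iff g ..).2 c1
    by_cases hl : ∃ x y : K4, w = x • u + y • v
    · obtain ⟨x, y, e⟩ := hl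
      have y0 : y ≠ 0 := by rintro rfl; exact np hu hw h2 x (by simpa using e)
      have x0 : x ≠ 0 := by rintro rfl; exact np hv hw h3 y (by simpa using e)
      have z0 := mul_ne_zero (inv_ne_zero y0) x0
      have := five (hu.smul z0).2 hv.2 (by simp [c])
      rw [U.smul u _ hu z0, smul_smul, smul_smul, smul_smul, ← U.smul _ y (i _) y0, smul_add, smul_smul, one_mul,
        mul_inv_cancel_left₀ y0, add_comm, ← e, mul_eq_one_iff_eq_inv, C.inv (U.mem _ (i _))] at this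
      refine ⟨_, U.mem _ (i (w4 * (y⁻¹ * x))), k4 _, fun g _ e' => n12 _ (m1 g) _ (m2 g) (nn g) (cc g) ?_⟩
      rw [conj_mul, e', this]; exact U.mem _ (i _)
    refine ⟨_, U.mem _ (i 1), k4 _, fun g _ e' => hl (ln hu hv hw c ?_)⟩
    have := five hu.2 hv.2 c
    rw [mul_assoc, mul_eq_one_iff_eq_inv, mul_inv_rev, C.inv (U.mem _ (i _)), C.inv (U.mem _ (i _))] at this
    have c4 : Commute (p w) (g * (p u * p v) * g⁻¹) :=
      e' ▸ ((c2.symm.mul_right c3.symm).mul_right rfl).mul_right (k3 1)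
    rw [mul_assoc _ (p w), (k3 1).eq, ← mul_assoc _ _ (p w), this, ← mul_inv_eq_iff_eq_mul,
      C.inv (U.mem w hw), ← conj_mul] at e'
    rw [← conj_mul] at c4
    obtain ⟨c5, c6⟩ := C.comm_mul (m1 g) (m2 g) (U.mem w hw) (nn g) (cc g) c4
    have n3 : p (v + (w4 + 1) • u) * p (v + w4 • u) ∉ D :=
      n12 _ (U.mem _ (i _)) _ (U.mem _ (i _)) (fun e => by
        obtain ⟨k, e⟩ := U.inj _ _ (i _) (i _) e
        by_cases k1 : k = 1
        · rw [k1, one_smul, add_right_inj] at e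
          exact absurd (smul_left_injective K4 hu.1 e) (by decide)
        · refine np hu hv h1 ((1 - k)⁻¹ * (k * (w4 + 1) - w4)) ?_
          rw [mul_smul, eq_inv_smul_iff₀ (sub_ne_zero.2 (Ne.symm k1))]
          linear_combination (norm := module) e) (cl (i _) hu hv (i _) (k1 _).symm (k2 _).symm)
    rintro _ ⟨s, hs, rfl⟩ d1 d2
    refine ((S0437.result C.tt (m1 g) (m2 g) (U.mem w hw) (U.mem s hs) (nn g) (fun e => n3 ?_) (fun e => n3 ?_)
      (cc g) c5.symm c6.symm).1 (e' ▸ (cl hs hu hv (i _) d1 d2).mul_right (cl hs hu hv (i _) d1 d2))).2.2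
    · rw [← e', ← e, (cc g).eq, mul_assoc, C.sq (m1 g), mul_one]; exact m2 g
    · rw [← e', ← e, mul_assoc, C.sq (m2 g), mul_one]; exact m1 g

end

set_option maxHeartbeats 1600000 in
theorem HS.iso {G : Type*} [Group G] [Finite G] {d : G} {S : C4 → ZMod 2 → G} {γ : C4 → G}
    (h : HS (conjugatesOf d) d S γ)
    (cent : ∀ g, Commute g d → ∃ a e, ∃ m ∈ closure (insert d (γ '' {v | I4 v})), g = S a e * m)
    (zc : ∀ z, Commute z d → (∀ g, Commute g d → Commute z g) → z = 1 ∨ z = d) :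
    Nonempty (G ≃* PSU 6 K4 2) := by
  have hc : ∀ g : G, ∀ x ∈ conjugatesOf d, g * x * g⁻¹ ∈ conjugatesOf d := fun g x hx =>
    IsConj.trans hx (isConj_iff.2 ⟨g, rfl⟩)
  obtain ⟨Δ, p, U', h1, h2, h3⟩ := h.uc (fun x hx => by
    obtain ⟨g, rfl⟩ := isConj_iff.1 hx
    exact ⟨_, _, h.conj hc g⟩) hc (IsConj.refl d)
  have U := uc_tp sp6
  obtain ⟨τ, s, b⟩ := FiC.U62.base_tv (F := K4) (by decide) sp6
  have P := part6 sp6 U (closure_TV sp6) b.ncard (five6 sp6) ⟨(1, 0, 0), (0, (1, 0, 0, 0), 0),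
    is6.2 (by decide), is6.2 (by decide), (B6_eq ..).trans (by decide), fun c e => by simp at e⟩
  have : Finite (SUG B6 ⧸ center (SUG B6)) := Nat.finite_of_card_ne_zero (by rw [sp6.card]; norm_num)
  have := sp6.simple
  choose! r r1 r2 using U.surj
  have r3 : ∀ u, Is B6 u → p (r (tp sp6.hB u)) = p u := fun u hu =>
    (U.inj _ _ hu (r1 _ (U.mem u hu)) (r2 _ (U.mem u hu)).symm).elim fun _ e =>
      U'.eq_of_smul hu (r1 _ (U.mem u hu)) e
  have e : FI (TV sp6.hB) Δ fun y => p (r y) := by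
    refine ⟨U.cl, U'.cl, ⟨fun y hy => U'.mem _ (r1 y hy), fun x hx y hy e => ?_, fun y hy => ?_⟩, ?_⟩
    · obtain ⟨c, e⟩ := U'.inj _ _ (r1 x hx) (r1 y hy) e
      rw [← r2 x hx, ← r2 y hy, U.eq_of_smul (r1 x hx) (r1 y hy) e]
    · obtain ⟨u, hu, rfl⟩ := U'.surj y hy
      exact ⟨_, U.mem u hu, r3 u hu⟩
    · rintro _ ⟨u, hu, rfl⟩ _ ⟨v, hv, rfl⟩
      rw [U.op u v hu hv, r3 u hu, r3 v hv, r3 _ (hu.op sp6 hv), U'.op u v hu hv]
  have hz : center (SUG B6 ⧸ center (SUG B6)) = ⊥ := by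
    refine (Normal.eq_bot_or_eq_top inferInstance).resolve_right fun e' => ?_
    obtain ⟨a, ha, b, hb, k1, k2⟩ := P.pair
    refine k1 (U.eq_of_perp sp6 ha hb fun s _ _ => ?_)
    have k3 : b ∈ center (SUG B6 ⧸ center (SUG B6)) := e'.ge (mem_top b)
    exact mem_center_iff.1 k3 s
  have nc : ∀ a ∈ TV sp6.hB, ∃ b ∈ TV sp6.hB, ¬ Commute a b := fun a ha => by
    obtain ⟨b, hb, c, hc, k1, -⟩ := P.pair
    refine Classical.byContradiction fun hn' => ?_
    have hn := fun s hs => Classical.byContradiction fun k => hn' ⟨s, hs, k⟩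
    exact k1 ((U.eq_of_perp sp6 hb ha fun s hs _ => (hn s hs).symm).trans
      (U.eq_of_perp sp6 hc ha fun s hs _ => (hn s hs).symm).symm)
  suffices ce : ∀ g, Commute g d → g ∈ closure (insert d (Fischer.loc (conjugatesOf d) d)) by
    have L := LC.of (orderOf_two_of h.d2 h.d1) (U'.cl.sub (h3 d h2) fun x hx y hy =>
      ⟨h1 (U'.cl.op x (h3 d h2 hx) y (h3 d h2 hy)), fun e => hy.2.1 (by
        rw [← U'.cl.op_op (h3 d h2 hx) y, e, ← hx.2.2.eq, mul_assoc, U'.cl.sq (h3 d h2 hx), mul_one]),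
        (hx.2.2.mul_right hy.2.2).mul_right hx.2.2⟩).fi_id ce zc
    obtain ⟨f, -⟩ := L.iso P (closure_TV sp6) hz nc e h1 h3
    obtain ⟨k, hk⟩ := (hf_sB c4 6).exists_iso sp6.hB (by simp)
    exact ⟨f.symm.trans (Orth.quotCenterEquiv ((toSUG _ 6).trans (sugCongr k hk))).symm⟩
  intro g hg
  obtain ⟨a, e, m, hm, rfl⟩ := cent g hg
  have k1 : ∀ v k, I4 v → PT S γ v k ∈ closure (insert d (Fischer.loc (conjugatesOf d) d)) := fun v k hv =>
    subset_closure (Or.inr (h.mem hv))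
  have k2 : ∀ a e f, S a e ∈ closure (insert d (Fischer.loc (conjugatesOf d) d)) →
      S a f ∈ closure (insert d (Fischer.loc (conjugatesOf d) d)) := fun a e f k => by
    rcases (by decide : ∀ e f : ZMod 2, f = e ∨ f = e + 1) e f with rfl | rfl
    · exact k
    · exact h.dS ▸ mul_mem (subset_closure (Or.inl rfl)) k
  have k3 : ∀ a, b4 a a = 0 → S a 0 ∈ closure (insert d (Fischer.loc (conjugatesOf d) d)) := fun a ha => by
    by_cases a0 : a = 0
    · rw [a0, h.s00]; exact one_mem _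
    · have := (mul_mem_cancel_right (h.p0 ▸ k1 a 0 ⟨a0, ha⟩)).1 (k1 a 1 ⟨a0, ha⟩)
      rw [cj_one, one_smul] at this
      exact k2 _ _ _ this
  refine mul_mem ?_ ((closure_le _).2 (by
    rintro _ (rfl | ⟨v, hv, rfl⟩)
    exacts [subset_closure (Or.inl rfl), h.p0 ▸ k1 v 0 hv]) hm)
  have := mul_mem (k3 (a.1, a.2.1, 0, 0) (by simp [b4, cj_zero])) (k3 (0, 0, a.2.2) (by simp [b4, cj_zero]))
  rw [h.mul] at this
  exact k2 _ _ e (by convert this; simp [Prod.ext_iff])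

section
variable {H G X : Type*} [Group H] [Group G] [Group X]

/-- the conjugates of `z` under the centraliser of the four-group -/
def Ta (ι : H →* G) (z : H) (R : C3 × ZMod 2 → H) (a : H) : Prop :=
  IsConj (ι z) (ι a) ∧ ∀ c : K4, c ≠ 0 → Dl ι z (a * R (c • hcv 0, 0))

/-- the centraliser of the four-group -/
def K0 (R : C3 × ZMod 2 → H) : Subgroup H := centralizer (Set.range fun c : K4 => R (c • hcv 0, 0))

/-- the map to the quotient by the four-group -/
structure QT (ι : H →* G) (z : H) (A : Subgroup H) (R : C3 × ZMod 2 → H) (σ : H → X) : Prop where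
  mul : ∀ a ∈ K0 R, ∀ b ∈ K0 R, σ (a * b) = σ a * σ b
  ker : ∀ a ∈ K0 R, σ a = 1 ↔ ∃ c : K4, a = R (c • hcv 0, 0)
  cen : ∀ y, Commute y (σ z) → ∃ a ∈ K0 R, y = σ a
  cl : ∀ a ∈ K0 R, IsConj (σ z) (σ a) → ∃ b ∈ K0 R, σ a = σ b ∧ Ta ι z R b
  cl' : ∀ a ∈ A, Ta ι z R a → IsConj (σ z) (σ a)

end

end Cfsg.Agent.LF
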