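import Cfsg.Agent.Fischer.LY
import Cfsg.Agent.Fischer.LT
import Cfsg.Agent.S0283

/-! The centraliser of the four-group. -/

set_option autoImplicit false
set_option linter.unusedSectionVars false
set_option linter.unusedVariables false
set_option synthInstance.maxSize 2048

namespace Cfsg.Agent.LF
open Subgroup Module Cfsg.Agent.Comp Cfsg.Agent.FiC Cfsg.Agent.Herm Cfsg.Agent.Fischer.U6
  Cfsg.Agent.Fischer Cfsg.Agent.LocalEven Cfsg.Agent.Golay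

theorem quasi_of_ma {K : Type*} [Group K] (E : Subgroup K) [E.Normal] [IsSimpleGroup (K ⧸ E)]
    (h1 : E ≤ center K) (h2 : E ≤ _root_.commutator K) {z : K} (h3 : z ∈ _root_.commutator K)
    (h4 : z ∉ E) : IsQuasisimple K := by
  have hs := QuotientGroup.mk'_surjective E
  have h5 : (_root_.commutator K).map (QuotientGroup.mk' E) = ⊤ :=
    (Normal.eq_bot_or_eq_top (Normal.map inferInstance _ hs)).resolve_left fun e =>
      h4 ((QuotientGroup.eq_one_iff z).1 (mem_bot.1 (e.le ⟨z, h3, rfl⟩)))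
  have h6 : _root_.commutator K = ⊤ := top_le_iff.1 fun g _ => by
    obtain ⟨k, hk, e⟩ := h5.ge (mem_top (QuotientGroup.mk' E g))
    exact (mul_mem_cancel_left (inv_mem hk)).1 (h2 (QuotientGroup.eq.1 e))
  have h7 : center K = E := le_antisymm (by
    rcases Normal.eq_bot_or_eq_top (Normal.map (inferInstance : (center K).Normal) _ hs) with e | e
    · exact fun g hg => (QuotientGroup.eq_one_iff g).1 (mem_bot.1 (e.le ⟨g, hg, rfl⟩))
    refine (h4 ((show _root_.commutator K ≤ E from commutator_le.2 fun a _ b _ => ?_) h3)).elim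
    obtain ⟨c, hc, e⟩ := e.ge (mem_top (QuotientGroup.mk' E a))
    rw [← QuotientGroup.eq_one_iff, ← QuotientGroup.mk'_apply, map_commutatorElement, ← e,
      ← map_commutatorElement, commutatorElement_eq_one_iff_mul_comm.2 (mem_center_iff.1 hc b).symm,
      map_one]) h1
  exact ⟨⟨h6⟩, (QuotientGroup.quotientMulEquivOfEq h7).isSimpleGroup⟩

theorem inj5_ma {α : Type*} {a b c d e : α} (h : [a, b, c, d, e].Nodup) :
    Function.Injective ![a, b, c, d, e] :=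
  List.nodup_ofFn.1 (by simpa [List.ofFn_succ] using h)

namespace GI
variable {G : Type*} [Group G] [Finite G] {J : Subgroup G} {D : G → Prop} {E : (GolayPt → ZMod 2) → G}
  (k : GI J D E)
include k

theorem shape {c x y : GolayPt} (h1 : c ≠ x) (h2 : c ≠ y) (h3 : x ≠ y) {a : G} (ha : a ∈ J)
    (a0 : ¬ D a) (a1 : a ≠ 1) (a2 : D (a * E (dw c x))) (a3 : D (a * E (dw c y)))
    (a4 : D (a * E (dw x y))) : ∃ s, c ≠ s ∧ x ≠ s ∧ y ≠ s ∧ a = E (dw y s) * E (dw c x) := by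
  obtain ⟨p, q, e0, e1⟩ := (k.du _ (mul_mem ha (k.mem _))).1 a2
  obtain ⟨p', q', -, e2⟩ := (k.du _ (mul_mem ha (k.mem _))).1 a3
  obtain ⟨p'', q'', -, e3⟩ := (k.du _ (mul_mem ha (k.mem _))).1 a4
  have sq : ∀ u, E u * E u = 1 := fun u => by rw [← k.add, add_self₂, k.zero]
  have e4 : a = E (dw p q) * E (dw c x) := by rw [← e1, mul_assoc, sq, mul_one]
  have m1 := dw_meet e0 h3 (k.eq3 (e := p') (f := q') (by
    rw [← e1, ← e2, mul_assoc, ← k.add, dw_comm c x, dw_add]))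
  have m2 := dw_meet e0 h2 (k.eq3 (e := p'') (f := q'') (by
    rw [← e1, ← e3, mul_assoc, ← k.add, dw_add]))
  have key : ∀ s, y ≠ s → a = E (dw y s) * E (dw c x) →
      ∃ s, c ≠ s ∧ x ≠ s ∧ y ≠ s ∧ a = E (dw y s) * E (dw c x) := fun s hs e =>
    ⟨s, fun e' => a0 ((k.du a ha).2 ⟨y, x, h3.symm, by rw [e, ← e', ← k.add, dw_comm y c, dw_add]⟩),
      fun e' => a0 ((k.du a ha).2 ⟨y, c, h2.symm, by
        rw [e, ← e', ← k.add, dw_comm y x, dw_comm c x, dw_add]⟩), hs, e⟩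
  by_cases hp : p = y
  · exact key q (hp ▸ e0) (hp ▸ e4)
  by_cases hq : q = y
  · exact key p (Ne.symm hp) (by rw [e4, hq, dw_comm p y])
  refine (a1 ?_).elim
  rw [e4, (dw_pair h1).2 (Set.pair_eq_pair_iff.2 (by grind)), sq]

theorem tr4 (Θ : normalizer (J : Set G) →* Equiv.Perm GolayPt) (h1 : Θ.range = M24)
    (h2 : ∀ g p q, g.1 * E (dw p q) * g.1⁻¹ = E (dw (Θ g p) (Θ g q))) {t u a b : G}
    (ht : t ∈ J) (hu : u ∈ J) (dt : D t) (du : D u) (dv : D (t * u))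
    (ha : a ∈ J) (a0 : ¬ D a) (a1 : a ≠ 1) (a2 : D (a * t)) (a3 : D (a * u)) (a4 : D (a * (t * u)))
    (hb : b ∈ J) (b0 : ¬ D b) (b1 : b ≠ 1) (b2 : D (b * t)) (b3 : D (b * u)) (b4 : D (b * (t * u))) :
    ∃ n, Commute n t ∧ Commute n u ∧ n * a * n⁻¹ = b := by
  obtain ⟨c, x, y, hx, hy, rfl, rfl⟩ : ∃ c x y, c ≠ x ∧ c ≠ y ∧ t = E (dw c x) ∧ u = E (dw c y) := by
    obtain ⟨p, q, e1, rfl⟩ := (k.du t ht).1 dt
    obtain ⟨p', q', e2, rfl⟩ := (k.du u hu).1 du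
    obtain ⟨e, f, -, e3⟩ := (k.du _ (mul_mem ht hu)).1 dv
    rcases dw_meet e1 e2 (k.eq3 e3) with rfl | rfl | rfl | rfl
    exacts [⟨_, _, _, e1, e2, rfl, rfl⟩, ⟨_, _, _, e1, e2.symm, rfl, congrArg E (dw_comm ..)⟩,
      ⟨_, _, _, e1.symm, e2, congrArg E (dw_comm ..), rfl⟩,
      ⟨_, _, _, e1.symm, e2.symm, congrArg E (dw_comm ..), congrArg E (dw_comm ..)⟩]
  rw [← k.add, dw_add] at dv a4 b4
  have hxy : x ≠ y := by
    rintro rfl
    obtain ⟨e, f, e1, e3⟩ := (k.du _ (k.mem _)).1 dv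
    have := dw_left e1
    rw [← k.eq2 e3, dw_self] at this
    exact zero_ne_one this
  obtain ⟨s, s1, s2, s3, rfl⟩ := k.shape hx hy hxy ha a0 a1 a2 a3 a4
  obtain ⟨s', t1, t2, t3, rfl⟩ := k.shape hx hy hxy hb b0 b1 b2 b3 b4
  by_cases hs : s = s'
  · exact ⟨1, .one_left _, .one_left _, by simp [hs]⟩
  obtain ⟨g, hg, e⟩ := five_trans ⟨![c, x, y, s, s'], inj5_ma (by simp [*])⟩
    ⟨![c, x, y, s', s], inj5_ma (by simp [*, Ne.symm hs])⟩
  obtain ⟨n, rfl⟩ := h1.ge hg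
  have e0 : Θ n c = c := e 0
  have e1 : Θ n x = x := e 1
  have e2 : Θ n y = y := e 2
  have e3 : Θ n s = s' := e 3
  exact ⟨n, Inv.commute_iff_conj.2 (by rw [h2, e0, e1]), Inv.commute_iff_conj.2 (by rw [h2, e0, e2]),
    by rw [← conj_mul, h2, h2, e0, e1, e2, e3]⟩

end GI

section
universe u
variable {H : Type*} [Group H] [Finite H] {Q N M L A : Subgroup H} {z a x : H}
  {V : Type*} [AddCommGroup V] [Module K4 V] [FiniteDimensional K4 V]
  {B : V →ₛₗ[s4] V →ₗ[K4] K4} {χ : H → V} {φ : L →* SUG B} {w : V × V × V}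
  {h : FT Q N M L z B χ φ} {R : C3 × ZMod 2 → H} {G : Type u} [Group G] [Finite G] {ι : H →* G}

namespace RM
variable (r : RM h A w x R)
include r

theorem aK (ha : a ∈ A) : a ∈ K0 R := by
  rintro _ ⟨c, rfl⟩
  exact r.com (r.mA _) ha

theorem ad0 (c d : K4) : R ((c + d) • hcv 0, 0) = R (c • hcv 0, 0) * R (d • hcv 0, 0) :=
  (congrArg R (Prod.ext (add_smul ..) (add_zero _).symm)).trans (r.add ..)

theorem z0 : R ((0 : K4) • hcv 0, 0) = 1 := by rw [zero_smul]; exact r.zero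

theorem cm (D : Subgroup H) (hD : ∀ a ∈ K0 R, ∀ b ∈ K0 R, a * b * a⁻¹ * b⁻¹ ∈ D) :
    z ∈ D ∧ ∀ c : K4, R (c • hcv 0, 0) ∈ D := by
  have k : ∀ i j l s, l.1 = 0 → R (mv3 i j l s + s) ∈ D := fun i j l s hl => by
    obtain ⟨u, rfl⟩ := r.dual l
    obtain ⟨q, hq, rfl⟩ := h.surj u
    obtain ⟨a, ha, hx, e⟩ := r.exists_x r.toXS i j
    have h1 := mul_mem ha (r.mA s)
    have := hD q (by
      rintro _ ⟨c, rfl⟩
      refine (Inv.commute_iff_conj.2 ?_).symm.eq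
      rw [r.cq hq]
      exact congrArg R (Prod.ext rfl ((by decide +kernel : ∀ (c : K4) (l : C3), l.1 = 0 →
        (0 : ZMod 2) + (bp (c • hcv 0) l).im = 0) c _ hl))) _ (r.aK h1)
    rwa [r.ca ha hx e hq, inv_eq_of_mul_eq_one_right (r.sq _ h1), (r.com ha (r.mA _)).eq, mul_assoc,
      ← mul_assoc a, r.sq a ha, one_mul, ← r.add] at this
  have hz := k 0 0 (0, w4, 0) ((0, 1, 0), 0) rfl
  rw [(by decide +kernel : mv3 0 0 (0, w4, 0) ((0, 1, 0), 0) + ((0, 1, 0), 0) = (0, 1))] at hz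
  refine ⟨r.rz ▸ hz, fun c => ?_⟩
  have h1 := mul_mem (mul_mem (k 0 1 (0, c, 0) 0 rfl) (k 0 2 (0, 0, c) 0 rfl)) (k 0 3 (0, c, 0) 0 rfl)
  have h2 := mul_mem h1 hz
  simp only [← r.add] at h1 h2
  rcases (by decide +kernel : ∀ c : K4, (c • hcv 0, (0 : ZMod 2)) = mv3 0 1 (0, c, 0) 0 + 0 +
    (mv3 0 2 (0, 0, c) 0 + 0) + (mv3 0 3 (0, c, 0) 0 + 0) ∨ (c • hcv 0, (0 : ZMod 2)) =
      mv3 0 1 (0, c, 0) 0 + 0 + (mv3 0 2 (0, 0, c) 0 + 0) + (mv3 0 3 (0, c, 0) 0 + 0) + (0, 1)) c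
    with e | e <;> rw [e]
  exacts [h1, h2]

variable (F : FZ h A ι)
include F

theorem zT : Ta ι z R z := ⟨IsConj.refl _, fun c hc => by
  rw [← (h.c _).eq, r.mz, r.dr F]
  exact ⟨smul_ne_zero hc (hcv_ne 0), 0, c, rfl⟩⟩

theorem trT {E : (GolayPt → ZMod 2) → G} (k : GI (A.map ι) (fun g => g ≠ 1 ∧ ¬ IsConj (ι z) g) E)
    (Θ : normalizer (A.map ι : Set G) →* Equiv.Perm GolayPt) (h1 : Θ.range = M24)
    (h2 : ∀ g p q, g.1 * E (dw p q) * g.1⁻¹ = E (dw (Θ g p) (Θ g q))) (ha : a ∈ A) (T : Ta ι z R a) :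
    ∃ n, (∀ c : K4, Commute n (ι (R (c • hcv 0, 0)))) ∧ n * ι z * n⁻¹ = ι a := by
  have hD : ∀ {a}, Dl ι z a → ι a ≠ 1 ∧ ¬ IsConj (ι z) (ι a) := fun e =>
    ⟨mt (map_eq_one_iff ι F.inj).1 e.1, e.2⟩
  have h3 : ∀ c : K4, c ≠ 0 → Dl ι z (R (c • hcv 0, 0)) := fun c hc =>
    (r.dr F _).2 ⟨smul_ne_zero hc (hcv_ne 0), 0, c, rfl⟩
  have h4 : ∀ {a}, Ta ι z R a → ι a ≠ 1 := fun T e =>
    h.l.ne ((map_eq_one_iff ι F.inj).1 (isConj_one_left.1 (e ▸ T.1)))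
  have h5 : ι (R ((1 : K4) • hcv 0, 0)) * ι (R (w4 • hcv 0, 0)) = ι (R ((1 + w4) • hcv 0, 0)) := by
    rw [r.ad0, map_mul]
  have h6 : ∀ {a}, Ta ι z R a → ∀ c : K4, c ≠ 0 → ι a * ι (R (c • hcv 0, 0)) ≠ 1 ∧
      ¬ IsConj (ι z) (ι a * ι (R (c • hcv 0, 0))) := fun T c hc => by
    rw [← map_mul]; exact hD (T.2 c hc)
  have Z := r.zT F
  obtain ⟨n, n1, n2, n3⟩ := k.tr4 Θ h1 h2 ⟨_, r.mA ((1 : K4) • hcv 0, 0), rfl⟩
    ⟨_, r.mA (w4 • hcv 0, 0), rfl⟩ (hD (h3 _ (by decide))) (hD (h3 _ (by decide)))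
    (by rw [h5]; exact hD (h3 _ (by decide)))
    ⟨_, r.zA, rfl⟩ (fun e => e.2 Z.1) (h4 Z) (h6 Z _ (by decide)) (h6 Z _ (by decide))
    (by rw [h5]; exact h6 Z _ (by decide))
    ⟨_, ha, rfl⟩ (fun e => e.2 T.1) (h4 T) (h6 T _ (by decide)) (h6 T _ (by decide))
    (by rw [h5]; exact h6 T _ (by decide))
  refine ⟨n, fun c => ?_, n3⟩
  rcases (by decide : ∀ c : K4, c = 0 ∨ c = 1 ∨ c = w4 ∨ c = 1 + w4) c with rfl | rfl | rfl | rfl
  · rw [r.z0, map_one]; exact .one_right _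
  exacts [n1, n2, h5 ▸ n1.mul_right n2]

theorem four (hc : ∀ g, Commute g (ι z) → g ∈ ι.range)
    (tr : ∀ a ∈ A, Ta ι z R a → ∃ n, (∀ c : K4, Commute n (ι (R (c • hcv 0, 0)))) ∧ n * ι z * n⁻¹ = ι a)
    (iso : ∀ (X : Type u) [Group X] [Finite X] (σ : H → X), QT ι z A R σ → Nonempty (X ≃* PSU 6 K4 2)) :
    ∃ E : Subgroup G, E ≤ Q.map ι ∧ IsElementaryAbelian 2 E ∧ Nat.card E = 4 ∧ ι z ∉ E ∧
      (∃ t ∈ E, orderOf t = 2 ∧ ¬ IsConj (ι z) t) ∧ IsQuasisimple ↥(centralizer (E : Set G)) ∧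
      ∃ (_ : (E.subgroupOf (centralizer (E : Set G))).Normal) (K : Type) (_ : Field K) (_ : Fintype K),
        Fintype.card K = 4 ∧ Nonempty (↥(centralizer (E : Set G)) ⧸
          E.subgroupOf (centralizer (E : Set G)) ≃* PSU 6 K 2) := by
  classical
  obtain ⟨E, hE, cE⟩ : ∃ E : Subgroup G, (∀ g, g ∈ E ↔ ∃ c : K4, g = ι (R (c • hcv 0, 0))) ∧
      Nat.card E = 4 := by
    let f : Multiplicative K4 →* G := MonoidHom.mk' (fun c => ι (R (c.toAdd • hcv 0, 0))) fun c d => by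
      rw [toAdd_mul, r.ad0, map_mul]
    have hf : Function.Injective f := (injective_iff_map_eq_one f).2 fun c e =>
      (smul_eq_zero.1 (congrArg Prod.fst (r.eq_zero ((map_eq_one_iff ι F.inj).1 e)))).resolve_right
        (hcv_ne 0)
    refine ⟨f.range, fun g => ⟨fun ⟨c, e⟩ => ⟨c.toAdd, e.symm⟩, fun ⟨c, e⟩ => ⟨.ofAdd c, e.symm⟩⟩, ?_⟩
    rw [← Nat.card_congr (MonoidHom.ofInjective hf).toEquiv, Nat.card_congr Multiplicative.toAdd,
      Nat.card_eq_fintype_card, card_K4]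
  have mE : ∀ c : K4, ι (R (c • hcv 0, 0)) ∈ E := fun c => (hE _).2 ⟨c, rfl⟩
  have hK : ∀ g, (∀ c : K4, Commute g (ι (R (c • hcv 0, 0)))) → g ∈ centralizer (E : Set G) :=
    fun g e a ha => by
      obtain ⟨c, rfl⟩ := (hE a).1 ha
      exact (e c).symm
  have hK0 : ∀ a, a ∈ K0 R ↔ ι a ∈ centralizer (E : Set G) := fun a =>
    ⟨fun e => hK _ fun c => Commute.map (Commute.symm (e _ ⟨c, rfl⟩)) ι, fun e => by
      rintro _ ⟨c, rfl⟩
      exact F.inj (by rw [map_mul, map_mul]; exact e _ (mE c))⟩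
  have cenE : E.subgroupOf (centralizer (E : Set G)) ≤ center _ := fun a ha =>
    mem_center_iff.2 fun g => Subtype.ext (g.2 a ha).symm
  have nE : (E.subgroupOf (centralizer (E : Set G))).Normal :=
    ⟨fun a ha g => by rwa [mem_center_iff.1 (cenE ha) g, mul_inv_cancel_right]⟩
  have Z := r.zT F
  have zK := (hK0 _).1 (r.aK r.zA)
  have zE : ι z ∉ E := fun e => by
    obtain ⟨c, e⟩ := (hE _).1 e
    have := r.eq_zero (s := (c • hcv 0, 0) + (0, 1)) (by rw [r.add, ← F.inj e, r.rz, h.l.zsq])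
    exact absurd (congrArg Prod.snd this) (by decide : (0 : ZMod 2) + 1 ≠ 0)
  obtain ⟨σ, hσ⟩ : ∃ σ : H → centralizer (E : Set G) ⧸ E.subgroupOf (centralizer (E : Set G)),
      ∀ a (ha : ι a ∈ centralizer (E : Set G)), σ a = QuotientGroup.mk ⟨ι a, ha⟩ :=
    ⟨fun a => if ha : ι a ∈ centralizer (E : Set G) then QuotientGroup.mk ⟨ι a, ha⟩ else 1,
      fun a ha => dif_pos ha⟩
  have k1 : ∀ (g : centralizer (E : Set G)) (a : H) (ha : ι a ∈ centralizer (E : Set G)),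
      QuotientGroup.mk g * σ z * (QuotientGroup.mk g)⁻¹ = σ a →
      ∃ c : K4, g.1 * ι z * g.1⁻¹ = ι (a * R (c • hcv 0, 0)) := fun g a ha e => by
    rw [hσ z zK, hσ a ha, ← QuotientGroup.mk_inv, ← QuotientGroup.mk_mul, ← QuotientGroup.mk_mul] at e
    obtain ⟨c, e⟩ := (hE _).1 (mem_subgroupOf.1 (QuotientGroup.eq.1 e.symm))
    exact ⟨c, by rw [map_mul, ← e]; simp⟩
  obtain ⟨e⟩ := iso _ σ ⟨fun a ha b hb => by
      rw [hσ a ((hK0 a).1 ha), hσ b ((hK0 b).1 hb), hσ _ ((hK0 _).1 (mul_mem ha hb)),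
        ← QuotientGroup.mk_mul]
      exact congrArg _ (Subtype.ext (map_mul ..)),
    fun a ha => by
      rw [hσ a ((hK0 a).1 ha), QuotientGroup.eq_one_iff, mem_subgroupOf, hE]
      exact exists_congr fun c => F.inj.eq_iff,
    fun y hy => by
      obtain ⟨g, rfl⟩ := QuotientGroup.mk_surjective y
      obtain ⟨c, e⟩ := k1 g z zK hy.mul_inv_cancel
      by_cases c0 : c = 0
      · rw [c0, r.z0, mul_one] at e
        obtain ⟨a, ha⟩ := hc g.1 (Inv.commute_iff_conj.2 e)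
        have : ι a ∈ centralizer (E : Set G) := ha ▸ g.2
        exact ⟨a, (hK0 a).2 this, by rw [hσ a this]; exact congrArg _ (Subtype.ext ha.symm)⟩
      · exact ((Z.2 c c0).2 (isConj_iff.2 ⟨_, e⟩)).elim,
    fun a ha e => by
      obtain ⟨y, e⟩ := isConj_iff.1 e
      obtain ⟨g, rfl⟩ := QuotientGroup.mk_surjective y
      obtain ⟨c, e⟩ := k1 g a ((hK0 a).1 ha) e
      have hb := mul_mem ha (r.aK (r.mA (c • hcv 0, 0)))
      refine ⟨_, hb, ?_, isConj_iff.2 ⟨_, e⟩, fun d hd => (F.dl (isConj_iff.2 ⟨g.1, ?_⟩)).1 (Z.2 d hd)⟩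
      · rw [hσ a ((hK0 a).1 ha), hσ _ ((hK0 _).1 hb)]
        exact QuotientGroup.eq.2 (mem_subgroupOf.2 (by simpa using mE c))
      · rw [map_mul, map_mul ι _ (R (d • hcv 0, 0)), ← e, ← conj_mul,
          (Commute.symm (g.2 _ (mE d))).mul_inv_cancel],
    fun a ha T => by
      obtain ⟨n, n1, n2⟩ := tr a ha T
      refine isConj_iff.2 ⟨QuotientGroup.mk ⟨n, hK n n1⟩, ?_⟩
      rw [hσ z zK, hσ a ((hK0 a).1 (r.aK ha)), ← QuotientGroup.mk_inv, ← QuotientGroup.mk_mul,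
        ← QuotientGroup.mk_mul]
      exact congrArg _ (Subtype.ext n2)⟩
  have := S0283.result (F := K4) (q := 2) card_K4 6 (by norm_num) (by norm_num)
  have := e.isSimpleGroup
  obtain ⟨c1, c2⟩ := r.cm (((_root_.commutator (centralizer (E : Set G))).map (Subgroup.subtype _)).comap ι)
    fun a ha b hb => ⟨_, commutator_mem_commutator
      (mem_top (⟨ι a, (hK0 a).1 ha⟩ : centralizer (E : Set G))) (mem_top ⟨ι b, (hK0 b).1 hb⟩),
      by simp [commutatorElement_def]⟩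
  have c3 : ∀ g : centralizer (E : Set G), g.1 ∈ (_root_.commutator (centralizer (E : Set G))).map
      (Subgroup.subtype _) → g ∈ _root_.commutator (centralizer (E : Set G)) := fun g ⟨k, hk, e⟩ =>
    (show k = g from Subtype.ext e) ▸ hk
  have d1 := (r.dr F ((1 : K4) • hcv 0, 0)).2 (by decide +kernel)
  have : Fact (Nat.Prime 2) := ⟨Nat.prime_two⟩
  have sq : ∀ s, ι (R s) ^ 2 = 1 := fun s => by rw [pow_two, ← map_mul, r.sq _ (r.mA s), map_one]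
  refine ⟨E, fun g hg => ?_, ⟨⟨⟨fun a b => Subtype.ext ?_⟩⟩, fun g hg => ?_⟩, cE, zE,
    ⟨_, mE 1, orderOf_eq_prime (sq _) (mt (map_eq_one_iff ι F.inj).1 d1.1), d1.2⟩,
    quasi_of_ma _ cenE (fun g hg => c3 g ?_) (c3 ⟨_, zK⟩ c1) zE, nE, K4, _, _, card_K4, ⟨e⟩⟩
  · obtain ⟨c, rfl⟩ := (hE g).1 hg
    exact ⟨_, r.mQ _, rfl⟩
  · obtain ⟨c, e1⟩ := (hE _).1 a.2
    obtain ⟨d, e2⟩ := (hE _).1 b.2
    rw [Subgroup.coe_mul, Subgroup.coe_mul, e1, e2]
    exact (r.com (r.mA _) (r.mA _)).map ι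
  · obtain ⟨c, rfl⟩ := (hE g).1 hg
    exact sq _
  · obtain ⟨c, e1⟩ := (hE _).1 (mem_subgroupOf.1 hg)
    rw [e1]
    exact c2 c

end RM
end

theorem exists_setup_ma {G : Type*} [Group G] [Finite G] {z : G} {Q : Subgroup (centralizer ({z} : Set G))}
    [Q.Normal] (hF : IsOfLargeFischerTypeAt z Q) :
    ∃ (T : Sylow 2 G) (N M L : Subgroup (centralizer ({z} : Set G))) (V : Type) (_ : AddCommGroup V)
      (_ : Module K4 V) (_ : FiniteDimensional K4 V) (B : V →ₛₗ[s4] V →ₗ[K4] K4) (χ : _ → V)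
      (φ : L →* SUG B) (h : FT Q N M L (zz z) B χ φ) (A : Subgroup (centralizer ({z} : Set G)))
      (w : V × V × V), ∃ x R, RM h A w x R ∧ FZ h A (centralizer ({z} : Set G)).subtype ∧ L ≤ M ∧
        thompsonSubgroupOf 2 (T : Subgroup G) = A.map (centralizer ({z} : Set G)).subtype := by
  have : Fact (Nat.Prime 2) := ⟨Nat.prime_two⟩
  obtain ⟨N, M, h⟩ := st_of hF
  obtain ⟨V, _, _, B, χ, L, φ, h⟩ := h.exists_ft
  have := h.S.fd
  obtain ⟨s, R, h1, h2, h3⟩ := exists_rr hF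
  obtain ⟨S⟩ : Nonempty (Sylow 2 (centralizer ({z} : Set G))) := inferInstance
  obtain ⟨A, w, c, h4, h5⟩ := h.exists_as (h.L_le h1 h2) S
  obtain ⟨x, X⟩ := h.exists_xs
  obtain ⟨R, r⟩ := c.exists_rm X
  obtain ⟨l, -⟩ := MT.ls_of_setting hF.1
  have h6 := isSylowIn_map S
  have h7 : Q.map (Subgroup.subtype _) ≤ (S : Subgroup _).map (Subgroup.subtype _) :=
    map_mono ((IsPGroup.of_card h.cQ).le_sylow_of_normal S)
  obtain ⟨T, hg⟩ := (IsSylowIn.of_normalizer (H := ⊤) (h6.mono (le_inf le_top le_normalizer)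
    fun n hn => by
      have h8 : ∀ q ∈ Q.map (Subgroup.subtype _), Commute (n * z * n⁻¹) q := fun q hq =>
        (PLocal.commute_cj_iff ..).2 (mem_centralizer_singleton_iff.1
          (h6.le (inv_conj_mem_of_mem_normalizer hn.2 (h7 hq)))).symm
      exact mem_centralizer_singleton_iff.2 (mul_inv_eq_iff_eq_mul.1 ((l.cent _ (l.cmem _ h8) h8).resolve_left
        fun e => l.ne (conj_eq_one_iff.1 e))))).exists_sylow_top
  obtain ⟨ι, hι'⟩ : ∃ ι, ι = (centralizer ({z} : Set G)).subtype := ⟨_, rfl⟩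
  have hι : Function.Injective ι := hι' ▸ subtype_injective _
  have hc : ∀ a b, IsConj (ι a) (ι b) ↔ IsConj a.1 b.1 := fun a b => by rw [hι']; rfl
  have hJ : thompsonSubgroupOf 2 (T : Subgroup G) = A.map ι := by
    have h8 : A ∈ Transfer.MaxEA 2 (S : Subgroup _) := ⟨h4, elem_of_sq c.sq, fun X e1 e2 =>
      (le_total _ _).elim id fun e' => (h5 X e1 (fun a ha => (pow_two a).symm.trans (e2.2 a ha))
        (c.card.ge.trans e')).symm ▸ le_rfl⟩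
    rw [hg, ← hι', ← Transfer.map_thompsonSubgroupOf_of_injective _ hι]
    exact congrArg _ (le_antisymm (Transfer.thompsonSubgroupOf_le_iff.2 fun X e => (h5 X e.1
      (fun a ha => (pow_two a).symm.trans (e.2.1.2 a ha)) (c.card.ge.trans (e.2.2 A h4 h8.2.1))).le)
      (Transfer.le_thompsonSubgroupOf h8))
  rw [← hι']
  refine ⟨T, N, M, L, V, _, _, this, B, χ, φ, h, A, w, x, R, r, ⟨hι, fun a ha => (hc _ _).trans
    ⟨fun e => ?_, fun e => ?_⟩, fun y hy e => ?_⟩, h.L_le h1 h2, hJ⟩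
  · obtain ⟨k, hk⟩ := isConj_iff.1 e
    exact h.pv_of ha (rr_of hF ha.1 (fun e => ha.2.2.2 (Subtype.ext e)) hk).2.2
  · obtain ⟨m, -, rfl⟩ := h.mconj h1 ha (iff_of_true (h.pv_of h1 h2) e)
    exact h3.trans (isConj_iff.2 ⟨m, rfl⟩)
  · obtain ⟨k, hk⟩ := isConj_iff.1 e
    obtain ⟨m, hm, e⟩ := j_fus T hJ (by
      rintro _ ⟨a, ha, rfl⟩ _ ⟨b, hb, rfl⟩
      exact (c.com ha hb).map ι) ⟨_, c.zA, rfl⟩ k ⟨y, hy, hk.symm⟩
    have h8 : ∀ a ∈ A, ι (Function.invFun ι (m * ι a * m⁻¹)) = m * ι a * m⁻¹ := fun a ha =>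
      Function.invFun_eq ((conj_mem_of_mem_normalizer hm ⟨a, ha, rfl⟩).imp fun _ e => e.2)
    refine ⟨fun a => Function.invFun ι (m * ι a * m⁻¹), fun b hb => ?_, fun a ha b hb => hι ?_,
      hι ((h8 _ c.zA).trans (e.trans hk)), fun a ha => isConj_iff.2 ⟨m, (h8 a ha).symm⟩⟩
    · obtain ⟨a, ha, e⟩ := inv_conj_mem_of_mem_normalizer hm ⟨b, hb, rfl⟩
      exact ⟨a, ha, hι (by rw [h8 a ha, e]; group)⟩
    · rw [map_mul, h8 a ha, h8 b hb, h8 _ (mul_mem ha hb), map_mul, conj_mul]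

theorem s5449_of.{u} {G : Type u} [Group G] [Finite G] (z : G) (Q : Subgroup (centralizer ({z} : Set G)))
    [Q.Normal] (hF : IsOfLargeFischerTypeAt z Q)
    (iso : ∀ (N M L : Subgroup (centralizer ({z} : Set G))) (V : Type) [AddCommGroup V] [Module K4 V]
      [FiniteDimensional K4 V] (B : V →ₛₗ[s4] V →ₗ[K4] K4) (χ : _ → V) (φ : L →* SUG B)
      (h : FT Q N M L (zz z) B χ φ) (A : Subgroup _) (w : V × V × V) x R, RM h A w x R →
      FZ h A (centralizer ({z} : Set G)).subtype → L ≤ M → ∀ (X : Type u) [Group X] [Finite X]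
      (σ : centralizer ({z} : Set G) → X), QT (centralizer ({z} : Set G)).subtype (zz z) A R σ →
        Nonempty (X ≃* PSU 6 K4 2)) :
    ∃ E : Subgroup G, E ≤ (Q.map (Subgroup.centralizer ({z} : Set G)).subtype) ∧
      Cfsg.IsElementaryAbelian 2 E ∧ Nat.card E = 4 ∧ z ∉ E ∧ (∃ t ∈ E, orderOf t = 2 ∧ ¬ IsConj z t) ∧
      Cfsg.IsQuasisimple ↥(Subgroup.centralizer (E : Set G)) ∧
      ∃ (_ : (E.subgroupOf (Subgroup.centralizer (E : Set G))).Normal) (K : Type) (_ : Field K)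
        (_ : Fintype K), Fintype.card K = 4 ∧ Nonempty (↥(Subgroup.centralizer (E : Set G)) ⧸
          E.subgroupOf (Subgroup.centralizer (E : Set G)) ≃* Cfsg.PSU 6 K 2) := by
  obtain ⟨T, N, M, L, V, _, _, _, B, χ, φ, h, A, w, x, R, r, F, hL, hJ⟩ := exists_setup_ma hF
  obtain ⟨-, -, E, k, Θ, h1, h2, -⟩ := exists_m24 hF T hJ.symm
  exact r.four F (fun g e => ⟨⟨g, mem_centralizer_singleton_iff.2 e⟩, rfl⟩)
    (fun a ha T => r.trT F k Θ h1 h2 ha T) (iso N M L V B χ φ h A w x R r F hL)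

end Cfsg.Agent.LF
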