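import Cfsg.Agent.Fischer.LY
import Cfsg.Agent.Fischer.LT

/-! Coordinates in the perpendicular space of a hyperoval vector, and canonical lifts. -/

set_option autoImplicit false
set_option linter.unusedSectionVars false
set_option linter.unusedVariables false
set_option synthInstance.maxSize 2048

namespace Cfsg.Agent.LF
open Subgroup Module Cfsg.Agent.Comp Cfsg.Agent.FiC Cfsg.Agent.Herm Cfsg.Agent.Fischer.U6
  Cfsg.Agent.Fischer

variable {H : Type*} [Group H] [Finite H] {Q N M L A : Subgroup H} {z a b x : H}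
  {V : Type*} [AddCommGroup V] [Module K4 V] [FiniteDimensional K4 V]
  {B : V →ₛₗ[s4] V →ₗ[K4] K4} {χ : H → V} {φ : L →* SUG B} {w : V × V × V} {i j : Fin 6}
  {h : FT Q N M L z B χ φ} {R : C3 × ZMod 2 → H} {jj : C4 →ₗ[K4] V} {q : V → H}

/-- coordinates -/
structure CO (B : V →ₛₗ[s4] V →ₗ[K4] K4) (w : V × V × V) (jj : C4 →ₗ[K4] V) : Prop where
  b : ∀ a a', B (jj a) (jj a') = b4 a a'
  lam : ∀ a, lam3 B w (jj a) = (0, a.2.2)
  jw : ∀ a b, jj (a, b, 0, 0) = L3 w (0, a, b)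
  sp : ∀ v, B w.1 v = 0 → ∃ (c : K4) (a : C4), v = c • w.1 + jj a

theorem AS.exists_co (c : AS h A w) : ∃ jj, CO B w jj := by
  have k0 : ∀ v c', B v (L3 w c') = cj4 (bp c' (lam3 B w v)) := fun v c' => by
    rw [← h.S.hB.symm, b_L3, cj4_eq]
  have k1 : ∀ v v' d d', B (v + L3 w d) (v' + L3 w d') =
      B v v' + cj4 (bp d' (lam3 B w v)) + bp d (lam3 B w v') := fun v v' d d' => by
    rw [b_add_left, map_add, k0, b_L3, map_add, c.iso, add_zero]
  have k2 : ∀ v, cj4 (B v v) = B v v := fun v => (cj4_eq _).trans (h.S.hB.symm v v)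
  obtain ⟨e, he⟩ := c.dual (0, 1, 0)
  obtain ⟨f, hf⟩ := c.dual (0, 0, 1)
  obtain ⟨e, he, ee⟩ : ∃ e, lam3 B w e = (0, 1, 0) ∧ B e e = 0 :=
    ⟨e + L3 w (0, w4 * B e e, 0), by rw [map_add, c.iso, add_zero, he], by
      rw [k1, he]
      exact (by decide : ∀ t : K4, cj4 t = t → t + cj4 (bp (0, w4 * t, 0) (0, 1, 0)) +
        bp (0, w4 * t, 0) (0, 1, 0) = 0) _ (k2 e)⟩
  obtain ⟨f, hf, ef, ff⟩ : ∃ f, lam3 B w f = (0, 0, 1) ∧ B e f = 0 ∧ B f f = 0 :=
    ⟨f + L3 w (0, B e f, w4 * B f f), by rw [map_add, c.iso, add_zero, hf], by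
      rw [map_add, k0, he]
      exact (by decide : ∀ s t : K4, s + cj4 (bp (0, s, t) (0, 1, 0)) = 0) _ _, by
      rw [k1, hf]
      exact (by decide : ∀ s t : K4, cj4 t = t → t + cj4 (bp (0, s, w4 * t) (0, 0, 1)) +
        bp (0, s, w4 * t) (0, 0, 1) = 0) _ _ (k2 f)⟩
  have fe : B f e = 0 := by rw [← h.S.hB.symm, ef, map_zero]
  let jj : C4 →ₗ[K4] V :=
    { toFun := fun a => a.2.2.1 • e + a.2.2.2 • f + L3 w (0, a.1, a.2.1)
      map_add' := fun a b => by simp only [L3_apply, Prod.fst_add, Prod.snd_add]; module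
      map_smul' := fun k a => by
        simp only [L3_apply, Prod.smul_fst, Prod.smul_snd, smul_eq_mul, RingHom.id_apply]; module }
  have hj : ∀ a, jj a = a.2.2.1 • e + a.2.2.2 • f + L3 w (0, a.1, a.2.1) := fun _ => rfl
  have k3 : ∀ s t : K4, lam3 B w (s • e + t • f) = (0, s, t) := fun s t => by
    rw [map_add, map_smul, map_smul, he, hf]; simp
  have k4 : ∀ a, lam3 B w (jj a) = (0, a.2.2) := fun a => by rw [hj, map_add, c.iso, add_zero, k3]
  refine ⟨jj, fun a a' => ?_, k4, fun a b => by simp [hj], fun v hv => ?_⟩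
  · rw [hj, hj, k1, k3, k3]
    simp only [LinearMap.add_apply, map_add, b_smul_left, b_smul_right, ee, ef, fe, ff, bp, b4, cj_add, cj_mul, cj_cj,
      cj_zero]
    ring
  · have e1 : LinearMap.range (L3 w) = LinearMap.ker (lam3 B w) := Submodule.eq_of_le_of_finrank_eq (by
      rintro _ ⟨d, rfl⟩
      exact c.iso d) (by
      have := (lam3 B w).finrank_range_add_finrank_ker
      rw [LinearMap.range_eq_top.2 c.dual, h.S.hn] at this
      rw [LinearMap.finrank_range_of_inj ((injective_iff_map_eq_zero _).2 c.inj)]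
      simp at this ⊢
      omega)
    obtain ⟨d, hd⟩ := e1.ge (show v - jj (0, 0, (lam3 B w v).2) ∈ LinearMap.ker _ from by
      rw [LinearMap.mem_ker, map_sub, k4, sub_eq_zero]
      exact Prod.ext hv rfl)
    refine ⟨d.1, (d.2.1, d.2.2, (lam3 B w v).2), ?_⟩
    generalize (lam3 B w v).2 = l at hd
    rw [← sub_add_cancel v (jj (0, 0, l)), ← hd, hj, hj]
    simp only [L3_apply]
    module

namespace CO
variable (o : CO B w jj)
include o

theorem u (a : C4) : B w.1 (jj a) = 0 := congrArg Prod.fst (o.lam a)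

theorem b' (hB : HF B) (hw : B w.1 w.1 = 0) (c d : K4) (a b : C4) :
    B (c • w.1 + jj a) (d • w.1 + jj b) = b4 a b := by
  have : B (jj a) w.1 = 0 := by rw [← hB.symm, o.u, map_zero]
  simp only [LinearMap.add_apply, map_add, b_smul_left, b_smul_right, hw, o.u, this, o.b, mul_zero, zero_add]

theorem inj (hB : HF B) (hw : B w.1 w.1 = 0) {c d : K4} {a b : C4}
    (e : c • w.1 + jj a = d • w.1 + jj b) : a = b := by
  refine sub_eq_zero.1 (hf4.nd _ fun s => show b4 _ _ = 0 from ?_)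
  rw [sub_eq_add_neg, ← neg_eq_iff_add_eq_zero.2 (c4_two b), neg_neg, b4_addl, ← o.b' hB hw c 0 a s, e,
    o.b' hB hw, k2]

end CO

/-- canonical lifts -/
structure QV (h : FT Q N M L z B χ φ) (x : H) (q : V → H) : Prop where
  m : ∀ v, q v ∈ Q
  chi : ∀ v, χ (q v) = v
  pp : ∀ v, PP x (q v) = 1

theorem FT.sw (h : FT Q N M L z B χ φ) (ha : a ∈ Q) (hb : b ∈ Q) :
    a * b = b * a * z ^ (B (χ a) (χ b)).im.val := by
  have h1 := h.comm ha hb
  rw [← h.S.hB.symm (χ a), s4_eq] at h1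
  generalize B (χ a) (χ b) = p at h1 ⊢
  rcases (by decide +kernel : ∀ p : K4, p + ⟨p.re + p.im, p.im⟩ = 0 ∧ p.im.val = 0 ∨
    p + ⟨p.re + p.im, p.im⟩ ≠ 0 ∧ p.im.val = 1) p with e | e <;> rw [e.2]
  · rw [(h1.2 e.1).eq, pow_zero, mul_one]
  · rw [pow_one, mul_assoc, (h.c a).eq, ← mul_assoc, ← h.l.conj_eq ha hb fun e' => e.1 (h1.1 e'),
      inv_mul_cancel_right]

namespace XS
variable (X : XS h x w4)
include X

theorem pp (ha : a ∈ Q) : PP x a = 1 ∨ PP x a = z := by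
  have h4 := h.nQ.conj_mem a ha x
  have h5 := h.nQ.conj_mem _ h4 x
  refine (h.zero _ (mul_mem (mul_mem ha h4) h5)).1 ?_
  rw [h.mul _ (mul_mem ha h4) _ h5, h.mul _ ha _ h4, X.a _ h4, X.a _ ha, ← one_smul K4 (χ a),
    smul_smul, smul_smul, ← add_smul, ← add_smul,
    show 1 + w4 * 1 + w4 * (w4 * 1) = 0 by decide, zero_smul]

theorem pp_mul (ha : a ∈ Q) (hb : b ∈ Q) :
    PP x (a * b) = PP x a * PP x b * z ^ ((B (χ a) (χ b)).re + (B (χ a) (χ b)).im).val := by
  have a1 := h.nQ.conj_mem a ha x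
  have a2 := h.nQ.conj_mem _ a1 x
  have b1 := h.nQ.conj_mem b hb x
  have e1 := h.sw hb a1
  have e2 := h.sw (mul_mem hb b1) a2
  rw [X.a _ ha] at e1
  rw [X.a _ a1, X.a _ ha, h.mul _ hb _ b1, X.a _ hb] at e2
  have e3 : (B (χ a) (χ b)).re + (B (χ a) (χ b)).im =
      (B (χ b + w4 • χ b) (w4 • w4 • χ a)).im + (B (χ b) (w4 • χ a)).im := by
    simp only [b_add_left, b_smul_left, b_smul_right, ← h.S.hB.symm (χ a) (χ b), s4_eq]
    generalize B (χ a) (χ b) = p
    revert p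
    decide
  rw [e3, zpow_add2 h.l.zsq, PP, PP, PP, ← conj_mul, ← conj_mul]
  generalize x * (x * a * x⁻¹) * x⁻¹ = a'' at *
  generalize x * (x * b * x⁻¹) * x⁻¹ = b'' at *
  generalize x * a * x⁻¹ = a' at *
  generalize x * b * x⁻¹ = b' at *
  generalize (B (χ b + w4 • χ b) (w4 • w4 • χ a)).im.val = k at *
  generalize (B (χ b) (w4 • χ a)).im.val = l at *
  calc _ = a * (b * a') * (b' * (a'' * b'')) := by group
    _ = a * a' * (b * b' * a'') * b'' * z ^ l := by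
      rw [e1, ← mul_assoc a, mul_assoc _ (z ^ l), ← ((h.c _).pow_right l).eq]; group
    _ = _ := by
      rw [e2, ← mul_assoc (a * a'), mul_assoc _ (z ^ k), ← ((h.c _).pow_right k).eq]; group

theorem pp_z : PP x z = z := by
  rw [PP, (h.c x).mul_inv_cancel, (h.c x).mul_inv_cancel, h.l.zsq, one_mul]

theorem pp_mz (ha : a ∈ Q) : PP x (a * z) = PP x a * z := by
  rw [X.pp_mul ha h.l.mem, X.pp_z, (h.zero z h.l.mem).2 (.inr rfl), map_zero]
  simp

theorem exists_qv : ∃ q, QV h x q := by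
  have : ∀ v, ∃ a, a ∈ Q ∧ χ a = v ∧ PP x a = 1 := fun v => by
    obtain ⟨a, ha, e⟩ := h.surj v
    rcases X.pp ha with e1 | e1
    exacts [⟨a, ha, e, e1⟩, ⟨a * z, mul_mem ha h.l.mem, (h.mul_z ha).trans e, by
      rw [X.pp_mz ha, e1, h.l.zsq]⟩]
  choose q h1 h2 h3 using this
  exact ⟨q, h1, h2, h3⟩

end XS

namespace QV
variable (k : QV h x q) (X : XS h x w4)
include k X

theorem ext {v : V} {e : ZMod 2} (ha : a ∈ Q) (h1 : χ a = v) (h2 : PP x a = z ^ e.val) :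
    a = q v * z ^ e.val := by
  rcases h.eq_of (k.m v) ha (h1.trans (k.chi v).symm) with e1 | e1 <;>
    rcases (by decide : ∀ e : ZMod 2, e.val = 0 ∨ e.val = 1) e with e2 | e2 <;> rw [e2] at h2 ⊢ <;>
    rw [e1] at h2 ⊢
  · simp
  · exact absurd (by simpa [k.pp] using h2.symm) h.l.ne
  · exact absurd (by simpa [X.pp_mz (k.m v), k.pp] using h2) h.l.ne
  · simp

theorem all (ha : a ∈ Q) : ∃ e : ZMod 2, a = q (χ a) * z ^ e.val := by
  rcases X.pp ha with e | e
  exacts [⟨0, k.ext X ha rfl (by simpa using e)⟩, ⟨1, k.ext X ha rfl (e.trans (pow_one z).symm)⟩]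

theorem mul (u v : V) : q u * q v = q (u + v) * z ^ ((B u v).re + (B u v).im).val :=
  k.ext X (mul_mem (k.m u) (k.m v)) (by rw [h.mul _ (k.m u) _ (k.m v), k.chi, k.chi]) (by
    rw [X.pp_mul (k.m u) (k.m v), k.pp, k.pp, k.chi, k.chi, one_mul, one_mul])

theorem conj {g : H} (e : Commute g x) (v : V) : g * q v * g⁻¹ = q (χ (g * q v * g⁻¹)) := by
  simpa using k.ext X (e := 0) (h.nQ.conj_mem _ (k.m v) g) rfl (by rw [PP_conj e, k.pp]; simp)

end QV

end Cfsg.Agent.LF
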