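import Cfsg.Agent.Fischer.NA

/-! The action of the centraliser of the four-group on the space of dimension four. -/

set_option autoImplicit false
set_option linter.unusedSectionVars false
set_option linter.unusedVariables false
set_option synthInstance.maxSize 2048

namespace Cfsg.Agent.LF
open Subgroup Module Cfsg.Agent.Comp Cfsg.Agent.FiC Cfsg.Agent.Herm Cfsg.Agent.Fischer.U6
  Cfsg.Agent.Fischer

theorem top_of_simple {C Y : Type*} [Group C] [Group Y] [IsSimpleGroup Y] (f : C →* Y)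
    (hf : Function.Surjective f) {z : C} (hk : ∀ g, f g = 1 → g = 1 ∨ g = z) (P : Subgroup C) (hP : P.Normal)
    (h1 : z ∈ P) {a : C} (h2 : a ∈ P) (h3 : a ≠ 1) (h4 : a ≠ z) : P = ⊤ := by
  rcases (hP.map f hf).eq_bot_or_eq_top with e | e
  · exact absurd (hk a (e.le (mem_map_of_mem f h2))) (not_or.2 ⟨h3, h4⟩)
  refine eq_top_iff.2 fun g _ => ?_
  obtain ⟨p, hp, e1⟩ := e.ge (mem_top (f g))
  refine (mul_mem_cancel_left (inv_mem hp)).1 ?_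
  rcases hk (p⁻¹ * g) (by rw [map_mul, map_inv, e1, inv_mul_cancel]) with e2 | e2 <;> rw [e2]
  exacts [one_mem _, h1]

theorem onto_aux {H X : Type*} [Group H] [Finite H] [Group X] {L C D : Subgroup H} (ψ : L →* X)
    (hl : C ≤ L) (le : C ≤ D) {Y : Subgroup X} (e : (D.subgroupOf L).map ψ = Y)
    (e' : ∀ g : L, g.1 ∈ D → ∃ m : C, ψ ⟨m, hl m.2⟩ = ψ g) :
    ∃ f : C →* Y, Function.Surjective f ∧ ∀ g, f g = 1 ↔ ψ ⟨g, hl g.2⟩ = 1 := by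
  obtain ⟨f, f1, f2⟩ := exists_onto ψ hl ((le_antisymm (map_mono (comap_mono le)) (by
    rintro _ ⟨g, hg, rfl⟩
    obtain ⟨m, hm⟩ := e' g hg
    exact ⟨_, m.2, hm⟩)).trans e)
  exact ⟨f, f1, fun g => by rw [← f2, Subtype.ext_iff]; rfl⟩

theorem sug_of_sq {g : UG B4} (e : g * g = 1) : g ∈ SUG B4 :=
  mem_SUG.2 ((by decide : ∀ d : K4, d * d = 1 → d = 1) _ (by
    rw [← Units.val_mul, ← map_mul, e, map_one, Units.val_one]))

theorem sug_t4 {p : C4} (hp : b4 p p = 0) : ∃ g ∈ SUG B4, ∀ v, g.1 v = t4 p v := by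
  obtain ⟨g, e⟩ : ∃ g : UG B4, ∀ v, g.1 v = t4 p v :=
    ⟨hf4.ofLin ⟨⟨t4 p, t4_add p⟩, fun c v => t4_smul p v c⟩ (t4_b hp), fun _ => rfl⟩
  exact ⟨g, sug_of_sq (Subtype.ext (LinearEquiv.ext fun v => by
    rw [coe_mul, LinearEquiv.mul_apply, e, e, t4_t4 hp]; rfl)), e⟩

variable {H : Type*} [Group H] [Finite H] {Q N M L A : Subgroup H} {z a b g x : H}
  {V : Type*} [AddCommGroup V] [Module K4 V] [FiniteDimensional K4 V]
  {B : V →ₛₗ[s4] V →ₗ[K4] K4} {χ : H → V} {φ : L →* SUG B} {w : V × V × V} {i j : Fin 6}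
  {h : FT Q N M L z B χ φ} {R : C3 × ZMod 2 → H} {jj : C4 →ₗ[K4] V} {q : V → H}

theorem mem_K0 : g ∈ K0 R ↔ ∀ c : K4, Commute g (R (c • hcv 0, 0)) :=
  ⟨fun e c => (e _ ⟨c, rfl⟩).symm, by rintro e _ ⟨c, rfl⟩; exact (e c).symm⟩

theorem L3_h0 (c : K4) : L3 w (c • hcv 0) = c • w.1 := by simp [L3_apply, hcv]

/-- the complement -/
abbrev C0 (R : C3 × ZMod 2 → H) (x : H) : Subgroup H := K0 R ⊓ centralizer {x}

theorem C0_k (m : C0 R x) : m.1 ∈ K0 R := m.2.1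

theorem C0_c (m : C0 R x) : Commute m.1 x := mem_centralizer_singleton_iff.1 m.2.2

namespace RM
variable (r : RM h A w x R)
include r

theorem chi0 (c : K4) : χ (R (c • hcv 0, 0)) = c • w.1 := (r.chi _).trans (L3_h0 c)

theorem ww : B w.1 w.1 = 0 := by
  have := congrArg Prod.fst (r.iso ((1 : K4) • hcv 0))
  rwa [L3_h0, one_smul] at this

theorem AK (ha : a ∈ A) : a ∈ K0 R := mem_K0.2 fun c => r.com ha (r.mA _)

theorem iv0 : Iv Q z (R ((1 : K4) • hcv 0, 0)) :=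
  ⟨r.mQ _, r.sq _ (r.mA _), fun e => absurd (r.eq_zero e) (by decide), fun e => absurd
    (r.eq_zero (s := ((1 : K4) • hcv 0, 1)) ((r.mz (_, 0)).symm.trans (by
      rw [e, h.l.zsq]))) (by decide)⟩

theorem kL (hg : g ∈ K0 R) : g ∈ L := by
  by_contra e
  have := (h.semi g e _ (r.mQ ((1 : K4) • hcv 0, 0)) _ (r.mQ (w4 • hcv 0, 0))).1 w4 (by
    rw [r.chi0, r.chi0, one_smul])
  rw [(mem_K0.1 hg _).mul_inv_cancel, (mem_K0.1 hg _).mul_inv_cancel, r.chi0, r.chi0, one_smul,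
    ← sub_eq_zero, ← sub_smul, s4_eq, ← L3_h0] at this
  exact absurd (r.inj _ this) (by decide)

theorem k0_of (hg : g ∈ L) (e : Commute g x)
    (e' : χ (g * R ((1 : K4) • hcv 0, 0) * g⁻¹) = w.1) : g ∈ K0 R :=
  mem_K0.2 fun c => Inv.commute_iff_conj.2 (r.ext (h.nQ.conj_mem _ (r.mQ _) g) (by
    have := h.lin ⟨g, hg⟩ _ (r.mQ ((1 : K4) • hcv 0, 0))
    rw [e', r.chi0, one_smul] at this
    rw [h.lin ⟨g, hg⟩ _ (r.mQ _), r.chi0, map_smul, ← this, L3_h0]) (by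
    rw [PP_conj e, r.pp]; simp))

theorem dec0 (hg : g ∈ L) (e : Commute g (R ((1 : K4) • hcv 0, 0))) :
    ∃ p ∈ Q, ∃ m : C0 R x, g = p * m := by
  obtain ⟨p, hp, e1⟩ := r.toXS.dec hg
  refine ⟨p, hp, ⟨p⁻¹ * g, r.k0_of (mul_mem (inv_mem (h.ML (h.NM (h.QN hp)))) hg) e1 ?_,
    mem_centralizer_singleton_iff.2 e1⟩, by simp⟩
  rw [show ∀ t, p⁻¹ * g * t * (p⁻¹ * g)⁻¹ = p⁻¹ * (g * t * g⁻¹) * p⁻¹⁻¹ from fun t => by group,
    e.mul_inv_cancel, h.conj_Q (inv_mem hp) (r.mQ _), r.chi0, one_smul]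

theorem rq (k : QV h x q) (s : C3 × ZMod 2) : R s = q (L3 w s.1) * z ^ s.2.val :=
  k.ext r.toXS (r.mQ s) (r.chi s) (r.pp s)

theorem qa (k : QV h x q) (o : CO B w jj) (c : K4) (v : C4) :
    q (c • w.1 + jj v) = R (c • hcv 0, 0) * q (jj v) := by
  rw [r.rq k, L3_h0, ZMod.val_zero, pow_zero, mul_one, k.mul r.toXS, b_smul_left, o.u]
  simp

theorem qK (k : QV h x q) (o : CO B w jj) (v : C4) : q (jj v) ∈ K0 R :=
  mem_K0.2 fun c => Inv.commute_iff_conj.2 (by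
    rw [r.cq (k.m _), k.chi, o.lam]
    simp [bp, hcv, cj_zero])

theorem dec (k : QV h x q) (o : CO B w jj) (hg : g ∈ K0 R) :
    ∃ (c : K4) (v : C4) (e : ZMod 2) (m : C0 R x), g = R (c • hcv 0, 0) * (q (jj v) * z ^ e.val * m) := by
  obtain ⟨p, hp, m, rfl⟩ := r.dec0 (r.kL hg) (mem_K0.1 hg 1)
  have h1 := fun c => (h.comm (r.mQ _) hp).1 (mem_K0.1 ((mul_mem_cancel_right (C0_k m)).1 hg) c).symm
  have h2 := h1 1
  have h3 := h1 w4
  rw [← h.S.hB.symm (χ (R _)), r.chi0, b_smul_left, s4_eq, s4_eq] at h2 h3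
  obtain ⟨c, v, e1⟩ := o.sp (χ p) (by
    generalize B w.1 (χ p) = t at h2 h3
    revert t
    decide)
  obtain ⟨e, e2⟩ := k.all r.toXS hp
  exact ⟨c, v, e, m, by rw [← mul_assoc, ← mul_assoc, ← r.qa k o, ← e1, ← e2]⟩

theorem exists_rho (k : QV h x q) (o : CO B w jj) : ∃ ρ : C0 R x →* UG B4, ∀ (m : C0 R x) v, ∃ c : K4,
    χ (m * q (jj v) * m.1⁻¹) = c • w.1 + jj ((ρ m).1 v) := by
  let π : V →ₗ[K4] C4 := (B (jj (0, 0, 1, 0))).prod ((B (jj (0, 0, 0, 1))).prod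
    ((B (jj (1, 0, 0, 0))).prod (B (jj (0, 1, 0, 0)))))
  have h1 : ∀ v, B w.1 v = 0 → ∃ c : K4, v = c • w.1 + jj (π v) := fun v hv => by
    obtain ⟨c, a, rfl⟩ := o.sp v hv
    have := fun s => o.b' h.S.hB r.ww 0 c s a
    simp only [zero_smul, zero_add] at this
    refine ⟨c, congrArg (c • w.1 + ·) ?_⟩
    refine congrArg jj (Prod.ext ((this _).trans ?_) (Prod.ext ((this _).trans ?_)
      (Prod.ext ((this _).trans ?_) ((this _).trans ?_)))).symm <;> simp [b4, cj_zero, cj_one]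
  have h2 : ∀ m : C0 R x, (φ ⟨m, r.kL (C0_k m)⟩).1.1 w.1 = w.1 := fun m => by
    have := h.lin ⟨m, r.kL (C0_k m)⟩ _ (r.mQ ((1 : K4) • hcv 0, 0))
    rw [(mem_K0.1 (C0_k m) _).mul_inv_cancel, r.chi0, one_smul] at this
    exact this.symm
  have h3 : ∀ m : C0 R x, ∃ g : UG B4, ∀ v, ∃ c : K4,
      (φ ⟨m, r.kL (C0_k m)⟩).1.1 (jj v) = c • w.1 + jj (g.1 v) := fun m => by
    have h4 := fun v => h1 ((φ ⟨m, r.kL (C0_k m)⟩).1.1 (jj v)) (by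
      rw [← h2 m, (φ _).1.2, o.u])
    refine ⟨hf4.ofLin (π ∘ₗ (φ ⟨m, r.kL (C0_k m)⟩).1.1.toLinearMap ∘ₗ jj) fun u v => ?_, h4⟩
    obtain ⟨c, e⟩ := h4 u
    obtain ⟨d, e'⟩ := h4 v
    exact (o.b' h.S.hB r.ww c d _ _).symm.trans ((congrArg₂ (B · ·) e e').symm.trans
      (((φ _).1.2 _ _).trans (o.b u v)))
  choose ρ hρ using h3
  have h5 : ∀ (m : C0 R x) v, ∃ c : K4, χ (m * q (jj v) * m.1⁻¹) = c • w.1 + jj ((ρ m).1 v) := fun m v => by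
    rw [h.lin ⟨m, r.kL (C0_k m)⟩ _ (k.m _), k.chi]
    exact hρ m v
  refine ⟨MonoidHom.mk' ρ fun m n => Subtype.ext (LinearEquiv.ext fun v => ?_), h5⟩
  obtain ⟨c1, e1⟩ := h5 (m * n) v
  obtain ⟨c2, e2⟩ := h5 n v
  obtain ⟨c3, e3⟩ := hρ m ((ρ n).1 v)
  refine o.inj h.S.hB r.ww (c := c1) (d := c2 + c3) (b := (ρ m).1 ((ρ n).1 v)) (e1.symm.trans ?_)
  rw [show (m * n : C0 R x).1 * q (jj v) * (m * n : C0 R x).1⁻¹ = m * (n * q (jj v) * n.1⁻¹) * m.1⁻¹ by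
    rw [coe_mul]; group, h.lin ⟨m, r.kL (C0_k m)⟩ _ (h.nQ.conj_mem _ (k.m _) _), e2, map_add, map_smul, h2,
    e3, add_smul, add_assoc]

theorem exists_ff (hL : L ≤ M) : (∀ P : Subgroup (C0 R x), P.Normal → (∀ m, m.1 = z → m ∈ P) →
    ∀ a ∈ P, a.1 ≠ 1 → a.1 ≠ z → P = ⊤) ∧
    ∀ ρ : C0 R x →* UG B4, (∀ m, ρ m = 1 ↔ m.1 = 1 ∨ m.1 = z) → Nat.card ρ.range = 25920 := by
  obtain ⟨s, hs⟩ : ∃ s, R ((1 : K4) • hcv 0, 0) = s := ⟨_, rfl⟩
  have := h.fin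
  have iv : Iv Q z s := hs ▸ r.iv0
  have c1 : ∀ {g}, g ∈ K0 R → Commute g s := fun hg => hs ▸ mem_K0.1 hg 1
  have c2 : ∀ g : L, Commute g.1 s → ∃ m : C0 R x, ps φ ⟨m, r.kL (C0_k m)⟩ = ps φ g := fun g e => by
    obtain ⟨p, hp, m, e⟩ := r.dec0 g.2 (hs ▸ e)
    have := h.nN.conj_mem' _ (h.QN hp) m
    rw [mul_assoc, ← e] at this
    exact ⟨m, (h.ps_eq _ _).2 this⟩
  have c3 : χ s = L3 w ((1 : K4) • hcv 0) := hs ▸ r.chi _
  have pu : PU (TV h.S.hB) (im φ M) (tp h.S.hB (χ s)) :=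
    ((split h.tv_conj h.kf).2.2.1 _ (h.pt_mem iv)).resolve_right fun e =>
      (r.pv ((1 : K4) • hcv 0) (by decide)).1 (c3 ▸ e) (by decide)
  clear hs c3
  have le : C0 R x ≤ M ⊓ centralizer {s} := fun m hm =>
    ⟨hL (r.kL hm.1), mem_centralizer_singleton_iff.2 (c1 hm.1)⟩
  have := simple_o6p
  refine (onto_aux (C := C0 R x) (ps φ) (fun m hm => r.kL hm.1) le (h.im_cen iv) fun g hg =>
    c2 g (mem_centralizer_singleton_iff.1 hg.2)).elim fun f hf => ?_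
  have f3 : ∀ g, f g = 1 ↔ g.1 = 1 ∨ g.1 = z := fun g => ((hf.2 g).trans (h.ker _)).trans
    ⟨fun e => r.toXS.fix (h.memQ iv e (c1 (C0_k g))) (C0_c g), fun e => e.elim
      (fun e => show g.1 ∈ N from e ▸ one_mem _) fun e => show g.1 ∈ N from e ▸ h.QN h.l.mem⟩
  have := pu.1.elim fun e => e.isSimpleGroup
  exact ⟨fun P h1 h2 a h3 h4 h5 => top_of_simple f hf.1
    (z := ⟨z, r.AK r.zA, mem_centralizer_singleton_iff.2 (h.c x).symm⟩)
    (fun g e => ((f3 g).1 e).imp Subtype.ext Subtype.ext) P h1 (h2 _ rfl) h3 (fun e => h4 (congrArg _ e))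
    fun e => h5 (congrArg _ e), fun ρ ker =>
      (equiv_of_ker f ρ.rangeRestrict hf.1 ρ.rangeRestrict_surjective fun m => ((f3 m).trans (ker m).symm).trans
        ⟨fun e => Subtype.ext e, fun e => congrArg Subtype.val e⟩).elim fun e =>
          (Nat.card_congr e.toEquiv).symm.trans pu.card⟩

end RM

/-- the whole structure -/
structure CT (h : FT Q N M L z B χ φ) (A : Subgroup H) (w : V × V × V) (x : H) (R : C3 × ZMod 2 → H)
    (jj : C4 →ₗ[K4] V) (q : V → H) (ρ : C0 R x →* UG B4) : Prop where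
  r : RM h A w x R
  o : CO B w jj
  k : QV h x q
  act : ∀ (m : C0 R x) v, ∃ c : K4, χ (m * q (jj v) * m.1⁻¹) = c • w.1 + jj ((ρ m).1 v)
  ker : ∀ m, ρ m = 1 ↔ m.1 = 1 ∨ m.1 = z
  sur : ∀ p, b4 p p = 0 → ∃ m, ∀ v, (ρ m).1 v = t4 p v
  top : ∀ P : Subgroup (C0 R x), P.Normal → (∀ m, m.1 = z → m ∈ P) → ∀ a ∈ P, ρ a ≠ 1 → P = ⊤
  ov : ∀ (m : C0 R x) i j, Ov h w m i j → ∀ v,
    (ρ m).1 v = v + ((tm3 i j (0, v.2.2)).2.1, (tm3 i j (0, v.2.2)).2.2, 0, 0)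

theorem RM.exists_ct (r : RM h A w x R) (hL : L ≤ M) : ∃ jj q ρ, CT h A w x R jj q ρ := by
  obtain ⟨jj, o⟩ := r.exists_co
  obtain ⟨q, k⟩ := r.toXS.exists_qv
  obtain ⟨ρ, act⟩ := r.exists_rho k o
  obtain ⟨tp, cd⟩ := r.exists_ff hL
  let z0 : C0 R x := ⟨z, r.AK r.zA, mem_centralizer_singleton_iff.2 (h.c x).symm⟩
  have ov : ∀ (m : C0 R x) i j, Ov h w m i j → ∀ v,
      (ρ m).1 v = v + ((tm3 i j (0, v.2.2)).2.1, (tm3 i j (0, v.2.2)).2.2, 0, 0) := fun m i j e v => by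
    obtain ⟨c, e1⟩ := act m v
    rw [e _ (k.m _), k.chi, o.lam] at e1
    refine o.inj h.S.hB r.ww (c := c) (d := (tm3 i j (0, v.2.2)).1) (e1.symm.trans ?_)
    rw [map_add, o.jw]
    simp only [L3_apply]
    module
  have hz : ρ z0 = 1 := Subtype.ext (LinearEquiv.ext fun v => by
    obtain ⟨c, e1⟩ := act z0 v
    rw [show z0.1 = z from rfl, (h.c _).symm.mul_inv_cancel, k.chi] at e1
    exact o.inj h.S.hB r.ww (c := c) (d := 0) (e1.symm.trans (by rw [zero_smul, zero_add]; rfl)))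
  obtain ⟨a, ha, ax, e⟩ := r.exists_x r.toXS 0 1
  let a0 : C0 R x := ⟨a, r.AK ha, mem_centralizer_singleton_iff.2 ax⟩
  have h1 : ρ a0 ≠ 1 := fun e' => by
    have := ov a0 0 1 e (0, 0, 1, 0)
    rw [e'] at this
    exact absurd this (by decide : ¬ ((0, 0, 1, 0) : C4) = _)
  have k1 : ∀ m : C0 R x, m.1 = 1 ∨ m.1 = z → ρ m = 1 := fun m e => e.elim
    (fun e => by rw [show m = 1 from Subtype.ext e, map_one]) fun e => by
      rw [show m = z0 from Subtype.ext e, hz]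
  have ker : ∀ m, ρ m = 1 ↔ m.1 = 1 ∨ m.1 = z := fun m => ⟨fun e => by
    by_contra! hn
    exact h1 ((tp ρ.ker inferInstance (fun m e => k1 m (.inr e)) m e hn.1 hn.2).ge (mem_top a0)), k1 m⟩
  have top : ∀ P : Subgroup (C0 R x), P.Normal → (∀ m, m.1 = z → m ∈ P) → ∀ a ∈ P, ρ a ≠ 1 → P = ⊤ :=
    fun P h2 h3 a h4 h5 => tp P h2 h3 a h4 (fun e => h5 (k1 a (.inl e))) fun e => h5 (k1 a (.inr e))
  have h2 := top ((SUG B4).comap ρ) inferInstance (fun m e => by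
    rw [mem_comap, (ker m).2 (.inr e)]; exact one_mem _) a0 (sug_of_sq (by
      rw [← map_mul, show a0 * a0 = 1 from Subtype.ext (r.sq a ha), map_one])) h1
  have : Finite (SUG B4) := Nat.finite_of_card_ne_zero (by rw [card_su4]; norm_num)
  have h3 : ρ.range = SUG B4 := eq_of_le_of_card_ge (by
    rintro _ ⟨m, rfl⟩
    exact h2.ge (mem_top m)) (by rw [card_su4, cd ρ ker])
  refine ⟨jj, q, ρ, r, o, k, act, ker, fun p hp => ?_, top, ov⟩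
  obtain ⟨g, g1, g2⟩ := sug_t4 hp
  obtain ⟨m, rfl⟩ := h3.ge g1
  exact ⟨m, g2⟩

end Cfsg.Agent.LF
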