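import Cfsg.Agent.Fischer.NB

/-! Moving involutions into the elementary abelian subgroup of order `2^11`. -/

set_option autoImplicit false
set_option linter.unusedSectionVars false
set_option linter.unusedVariables false
set_option synthInstance.maxSize 2048

namespace Cfsg.Agent.LF
open Subgroup Module Cfsg.Agent.Comp Cfsg.Agent.FiC Cfsg.Agent.Herm Cfsg.Agent.Fischer.U6
  Cfsg.Agent.Fischer

theorem c4_eta {v : C4} (e : v.2.2 = 0) : v = (v.1, v.2.1, 0, 0) := Prod.ext rfl (Prod.ext rfl e)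

theorem mv4 (T : Set C4) (hT : ∀ a ∈ T, ∀ b ∈ T, b4 a b = 0) :
    ∃ p p', b4 p p = 0 ∧ b4 p' p' = 0 ∧ ∀ v ∈ T, (t4 p' (t4 p v)).2.2 = 0 := by
  by_cases h0 : ∀ v ∈ T, v = 0
  · exact ⟨0, 0, b4_zl _, b4_zl _, fun v hv => by rw [h0 v hv, t4_zero, t4_zero]; rfl⟩
  obtain ⟨v, hv⟩ := not_forall.1 h0
  obtain ⟨hv, v0⟩ := Classical.not_imp.1 hv
  have iv : I4 v := ⟨v0, hT v hv v hv⟩
  obtain ⟨p, hp, e⟩ := l1 v iv
  have e1 := c4_eta e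
  have n1 : ((t4 p v).1, (t4 p v).2.1) ≠ 0 := fun k => (iv.t hp).1 (by
    rw [Prod.mk_eq_zero] at k
    rw [e1, k.1, k.2]; rfl)
  by_cases h1 : ∀ u ∈ T, (t4 p u).2.2 = 0
  · exact ⟨p, 0, hp, b4_zl _, fun u hu => by rw [t4_of (b4_zl _), h1 u hu]⟩
  obtain ⟨u, hu⟩ := not_forall.1 h1
  obtain ⟨hu, u0⟩ := Classical.not_imp.1 hu
  have iu : I4 (t4 p u) := ⟨fun k => u0 (by rw [k]; rfl), by rw [t4_b hp, hT u hu u hu]⟩
  obtain ⟨p', hp', k1, k2⟩ := (l2 _ _ _ iu (by rw [← e1, t4_b hp, hT v hv u hu])).resolve_left n1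
  rw [← e1] at k1
  refine ⟨p, p', hp, hp', fun s hs => ?_⟩
  have k3 : b4 (t4 p' (t4 p v)) (t4 p' (t4 p s)) = 0 := by rw [t4_b hp', t4_b hp, hT v hv s hs]
  have k4 : b4 (t4 p' (t4 p u)) (t4 p' (t4 p s)) = 0 := by rw [t4_b hp', t4_b hp, hT u hu s hs]
  have e2 := c4_eta k2
  rw [t4_of k1, e1] at k3
  rw [e2] at k4
  refine ((l3 _ _ (t4 p' (t4 p u)).1 (t4 p' (t4 p u)).2.1 (t4 p' (t4 p s)).2.2.1
    (t4 p' (t4 p s)).2.2.2 (by simpa [b4, cj_zero] using k3)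
    (by simpa [b4, cj_zero] using k4)).resolve_left n1).resolve_left fun ⟨k, e3⟩ => u0 ?_
  have : t4 p' (t4 p u) = k • t4 p v := by
    rw [Prod.ext_iff] at e3
    rw [e2, e1]
    exact Prod.ext e3.1 (Prod.ext e3.2 (by simp))
  rw [← t4_t4 hp' (t4 p u), this, t4_smul, t4_of k1, e1]
  simp

theorem herm3 : ∀ p q r s : K4, p + cj4 p = 0 → s + cj4 s = 0 → r + cj4 q = 0 → ∃ i j, ∀ l m : K4,
    (tm3 i j (0, l, m)).2 = (l * p + m * r, l * q + m * s) := by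
  decide +kernel

theorem herm4 (g : UG B4) (e : ∀ v, (g.1 v + v).2.2 = 0) : ∃ i j, ∀ v,
    g.1 v = v + ((tm3 i j (0, v.2.2)).2.1, (tm3 i j (0, v.2.2)).2.2, 0, 0) := by
  have k : ∀ v, ∃ a b, g.1 v = v + (a, b, 0, 0) := fun v => ⟨_, _, by
    rw [← c4_eta (e v), add_left_comm, c4_two, add_zero]⟩
  have hb : ∀ u v, b4 (g.1 u) (g.1 v) = b4 u v := g.2
  obtain ⟨a1, b1, e1⟩ := k (1, 0, 0, 0)
  obtain ⟨a2, b2, e2⟩ := k (0, 1, 0, 0)
  obtain ⟨p, q, e3⟩ := k (0, 0, 1, 0)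
  obtain ⟨r, s, e4⟩ := k (0, 0, 0, 1)
  have h1 := hb (0, 0, 1, 0) (1, 0, 0, 0)
  have h2 := hb (0, 0, 0, 1) (1, 0, 0, 0)
  have h3 := hb (0, 0, 1, 0) (0, 1, 0, 0)
  have h4 := hb (0, 0, 0, 1) (0, 1, 0, 0)
  have h5 := hb (0, 0, 1, 0) (0, 0, 1, 0)
  have h6 := hb (0, 0, 0, 1) (0, 0, 0, 1)
  have h7 := hb (0, 0, 1, 0) (0, 0, 0, 1)
  simp [e1, e2, e3, e4, b4, cj_zero, cj_one] at h1 h2 h3 h4 h5 h6 h7
  obtain ⟨i, j, h8⟩ := herm3 p q r s (by rw [add_comm, h5]) (by rw [add_comm, h6]) (by rw [add_comm, h7])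
  refine ⟨i, j, fun v => ?_⟩
  rw [show ((0 : K4), v.2.2) = (0, v.2.2.1, v.2.2.2) from rfl, h8]
  conv_lhs => rw [show v = v.1 • (1, 0, 0, 0) + v.2.1 • (0, 1, 0, 0) + v.2.2.1 • (0, 0, 1, 0) +
    v.2.2.2 • (0, 0, 0, 1) by simp]
  rw [map_add, map_add, map_add, map_smul, map_smul, map_smul, map_smul, e1, e2, e3, e4, h1, h2, h3, h4]
  ext : 1
  · simp; ring
  ext : 1
  · simp; ring
  · simp

/-- the images of the hyperoval vectors -/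
def hb4 (j : Fin 6) : C4 := ((hcv j).2.1, (hcv j).2.2, 0, 0)

theorem hb4_t : ∀ j, j ≠ 0 → ∀ v : C4,
    v + ((tm3 0 j (0, v.2.2)).2.1, (tm3 0 j (0, v.2.2)).2.2, 0, 0) = t4 (hb4 j) v := by
  decide +kernel

theorem hb4_all : ∀ a b : K4, ((a, b, 0, 0) : C4) ≠ 0 → ∃ j, j ≠ 0 ∧ ∃ c : K4, c ≠ 0 ∧
    (a, b, 0, 0) = c • hb4 j := by
  decide +kernel

theorem hb4_i : ∀ j, j ≠ 0 → I4 (hb4 j) := by decide +kernel

theorem fin0 : ∀ s : C3, ¬ Hy s → (∀ c : K4, c ≠ 0 → Hy (s + c • hcv 0)) → s = 0 := by decide +kernel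

theorem fin1 : ∀ i j, i ≠ j → ∀ s, (∀ c : K4, c ≠ 0 → sg3 i j (s + (c • hcv 0, 0))) → ¬ sg3 i j s →
    (i = 0 ∧ ∃ d : K4, s = (d • hcv j, 1 + nm4 d)) ∨ (j = 0 ∧ ∃ d : K4, s = (d • hcv i, 1 + nm4 d)) := by
  decide +kernel

theorem fin2 : ∀ j, j ≠ 0 → ∀ d : K4, ¬ sg3 0 j (d • hcv j, 1 + nm4 d) ∧
    ∀ c : K4, c ≠ 0 → sg3 0 j ((d • hcv j, 1 + nm4 d) + (c • hcv 0, 0)) := by
  decide +kernel

variable {H : Type*} [Group H] [Finite H] {Q N M L A : Subgroup H} {z a b g x : H}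
  {V : Type*} [AddCommGroup V] [Module K4 V] [FiniteDimensional K4 V]
  {B : V →ₛₗ[s4] V →ₗ[K4] K4} {χ : H → V} {φ : L →* SUG B} {w : V × V × V} {i j : Fin 6}
  {h : FT Q N M L z B χ φ} {R : C3 × ZMod 2 → H} {jj : C4 →ₗ[K4] V} {q : V → H}
  {G : Type*} [Group G] {ι : H →* G} {ρ : C0 R x →* UG B4}

theorem DD.symm {r : RM h A w x R} (D : DD r ι a i j) : DD r ι a j i :=
  have : ∀ i j s, sg3 i j s → sg3 j i s := fun i j s ⟨c, d, e⟩ =>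
    ⟨d, c, by rw [e, add_comm, add_comm (nm4 c)]⟩
  ⟨D.m, D.c, fun b hb => (funext fun _ => add_comm .. : tm3 i j = tm3 j i) ▸ D.o b hb, D.k,
    fun s => (D.d s).trans ⟨this _ _ _, this _ _ _⟩⟩

theorem RM.five (r : RM h A w x R) (F : FZ h A ι) {a : Fin 6 → H} (D : ∀ j, j ≠ 0 → DD r ι (a j) 0 j) :
    a 2 * z * (a 3 * z) * (a 5 * z) * (a 4 * z) = a 1 * z := by
  let : CommGroup A := { (inferInstance : Group A) with
    mul_comm := fun a b => Subtype.ext (r.com a.2 b.2) }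
  have k : AX (fun a : Additive A => Dl ι z a.toMul.1)
      (AddMonoidHom.mk' (fun s => Additive.ofMul (⟨R s, r.mA s⟩ : A)) fun s t => Subtype.ext (r.add s t))
      (fun a f => Commute a.toMul.1 x ∧ Ac h w a.toMul.1 f) :=
    ⟨fun a => Subtype.ext (r.sq _ a.2), fun s e => r.eq_zero (congrArg Subtype.val e), fun s => r.dr F s,
      fun a e => (r.toXS.fix e.2.memQ e.1).imp Subtype.ext fun e => Subtype.ext (e.trans r.rz.symm),
      fun e e' => ⟨e.1.mul_left e'.1, r.ac_mul e.2 e'.2⟩,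
      fun e hij s e' => r.notQ e.2 hij ((mul_mem_cancel_right (r.mQ s)).1
        ((congrArg (· ∈ Q) (congrArg Subtype.val e')).mpr (one_mem _))),
      fun i j hij => (r.exists_dd F hij).elim fun a D => ⟨Additive.ofMul ⟨a, D.m⟩, ⟨D.c, D.o⟩, D.d⟩,
      fun a => (em (a.toMul.1 ∈ Q)).imp (fun e => (r.sur a.2 e).imp fun _ => Subtype.ext) fun e =>
        (r.ex_ov a.2 e).imp fun i => Exists.imp fun j e => ⟨e.1, fun b e' =>
          (r.ovr b.2 a.2 e'.2 e.2).imp fun _ => Subtype.ext⟩,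
      fun y a b c h1 h2 a1 a2 b1 b2 e => (r.tet F y.2 (fun e => h1 (Subtype.ext e)) h2 a.2 b.2 c.2 a1 a2 b1 b2 e).imp
        id fun e c1 c2 c3 => (e c1 c2 c3).imp id (Or.imp Subtype.ext Subtype.ext)⟩
  have d := fun j hj => (show DX _ _ _ (Additive.ofMul (⟨a j, (D j hj).m⟩ : A)) 0 j from
    ⟨⟨(D j hj).c, (D j hj).o⟩, (D j hj).d⟩ : DX (fun a : Additive A => Dl ι z a.toMul.1)
      (AddMonoidHom.mk' (fun s => Additive.ofMul (⟨R s, r.mA s⟩ : A)) fun s t => Subtype.ext (r.add s t))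
      (fun a f => Commute a.toMul.1 x ∧ Ac h w a.toMul.1 f) _ _ _)
  obtain ⟨b, hb⟩ := k.ex 2 3 (by decide)
  obtain ⟨c, hc⟩ := k.ex 4 5 (by decide)
  have e1 := k.tau (d 2 (by decide)).symm (d 3 (by decide)) hb (by decide) (by decide) (by decide)
  have e2 := k.tau (d 4 (by decide)).symm (d 5 (by decide)) hc (by decide) (by decide) (by decide)
  have e3 := k.eta (d 1 (by decide)) hb hc
  rw [← e1, ← e2] at e3
  have := (fun (a1 a2 a3 a4 a5 y : Additive A) (e : a1 + (a2 + a3) + (a4 + a5) = y) =>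
    (by linear_combination (norm := abel) e + k.two y + k.two y - k.two a1 :
      a2 + y + (a3 + y) + (a5 + y) + (a4 + y) = a1 + y)) _ _ _ _ _ _ e3
  rw [← r.rz]
  exact congrArg (fun a : Additive A => a.toMul.1) this

namespace CT
variable (c : CT h A w x R jj q ρ)
include c

theorem eqz {m n : C0 R x} (e : ∀ v, (ρ m).1 v = (ρ n).1 v) : n.1 = m.1 ∨ n.1 = m.1 * z := by
  have := (c.ker (m⁻¹ * n)).1 (by
    rw [map_mul, map_inv, show ρ m = ρ n from Subtype.ext (LinearEquiv.ext e), inv_mul_cancel])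
  rwa [coe_mul, coe_inv, inv_mul_eq_one, inv_mul_eq_iff_eq_mul, eq_comm] at this

theorem inA (m : C0 R x) (e : ∀ v, ((ρ m).1 v + v).2.2 = 0) : m.1 ∈ A := by
  obtain ⟨i, j, e⟩ := herm4 _ e
  obtain ⟨a, ha, ax, o⟩ := c.r.exists_x c.r.toXS i j
  rcases c.eqz (m := ⟨a, c.r.AK ha, mem_centralizer_singleton_iff.2 ax⟩) (n := m)
    fun v => (c.ov _ i j o v).trans (e v).symm with e | e <;> rw [e]
  exacts [ha, mul_mem ha c.r.zA]

theorem toA (m : C0 R x) (v : C4) (h0 : ρ (m * m) = 1) (h1 : (ρ m).1 v = v) (h2 : b4 v v = 0) :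
    ∃ n : C0 R x, (n * m * n⁻¹).1 ∈ A ∧ ((ρ n).1 v).2.2 = 0 := by
  have hb : ∀ u v, b4 ((ρ m).1 u) ((ρ m).1 v) = b4 u v := (ρ m).2
  have h3 : ∀ u, (ρ m).1 ((ρ m).1 u) = u := fun u => by
    rw [← LinearEquiv.mul_apply, ← coe_mul, ← map_mul, h0]; rfl
  have h4 : ∀ u s, (ρ m).1 s = s → b4 s ((ρ m).1 u + u) = 0 := fun u s e => by
    rw [b4_addr, ← hb s u, e, k2]
  obtain ⟨p, p', hp, hp', e⟩ := mv4 (insert v (Set.range fun u => (ρ m).1 u + u)) (by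
    rintro _ (rfl | ⟨s, rfl⟩) _ (rfl | ⟨u, rfl⟩)
    exacts [h2, h4 _ _ h1, b4_symm (h4 _ _ h1), h4 _ _ (by rw [map_add, h3, add_comm])])
  obtain ⟨n, hn⟩ := c.sur p hp
  obtain ⟨n', hn'⟩ := c.sur p' hp'
  have h5 : ∀ u, (ρ (n' * n)).1 u = t4 p' (t4 p u) := fun u => by
    rw [map_mul, coe_mul, LinearEquiv.mul_apply, hn, hn']
  refine ⟨n' * n, c.inA _ fun u => ?_, (h5 v).symm ▸ e v (.inl rfl)⟩
  obtain ⟨u, rfl⟩ := (ρ (n' * n)).1.surjective u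
  rw [← LinearEquiv.mul_apply, ← coe_mul, ← map_mul, inv_mul_cancel_right, map_mul, coe_mul,
    LinearEquiv.mul_apply, ← map_add, h5]
  exact e _ (.inr ⟨u, rfl⟩)

theorem qA (n : C0 R x) {v : C4} (e : ((ρ n).1 v).2.2 = 0) : n * q (jj v) * n.1⁻¹ ∈ A := by
  obtain ⟨d, e1⟩ := c.act n v
  refine (c.r.AQ _ (h.nQ.conj_mem _ (c.k.m _) _)).2 ⟨(d, ((ρ n).1 v).1, ((ρ n).1 v).2.1), ?_⟩
  rw [e1, c4_eta e, c.o.jw]
  simp only [L3_apply]
  module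

end CT

end Cfsg.Agent.LF
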