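import Cfsg.Agent.Fischer.NC

/-! The quotient of the centraliser of the four-group is `U₆(2)`. -/

set_option autoImplicit false
set_option linter.unusedSectionVars false
set_option linter.unusedVariables false
set_option synthInstance.maxSize 2048

namespace Cfsg.Agent.LF
open Subgroup Module Cfsg.Agent.Comp Cfsg.Agent.FiC Cfsg.Agent.Herm Cfsg.Agent.Fischer.U6
  Cfsg.Agent.Fischer

variable {H : Type*} [Group H] [Finite H] {Q N M L A : Subgroup H} {z a b g x : H}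
  {V : Type*} [AddCommGroup V] [Module K4 V] [FiniteDimensional K4 V]
  {B : V →ₛₗ[s4] V →ₗ[K4] K4} {χ : H → V} {φ : L →* SUG B} {w : V × V × V} {i j : Fin 6}
  {h : FT Q N M L z B χ φ} {R : C3 × ZMod 2 → H} {jj : C4 →ₗ[K4] V} {q : V → H}
  {G : Type*} [Group G] {ι : H →* G} {ρ : C0 R x →* UG B4} {X : Type*} [Group X] {σ : H → X}
  {u v : C4} {m n : C0 R x}

/-- the lifts of the transvections -/
def GM (ι : H →* G) (z : H) (ρ : C0 R x →* UG B4) (m : C0 R x) (v : C4) : Prop :=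
  (∀ u, (ρ m).1 u = t4 v u) ∧ IsConj (ι z) (ι m) ∧ ¬ IsConj (ι z) (ι (m * z))

/-- the image of the extraspecial group -/
def SS (σ : H → X) (q : V → H) (jj : C4 →ₗ[K4] V) (z : H) (a : C4) (e : ZMod 2) : X :=
  σ (q (jj a) * z ^ e.val)

theorem ug_t4 (g : UG B4) (v u : C4) : g.1 (t4 v u) = t4 (g.1 v) (g.1 u) := by
  rw [t4, t4, map_add, map_smul, show b4 (g.1 v) (g.1 u) = b4 v u from g.2 v u]

theorem ug_i4 (g : UG B4) (hv : I4 v) : I4 (g.1 v) :=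
  ⟨fun e => hv.1 (g.1.map_eq_zero_iff.1 e), (g.2 v v).trans hv.2⟩

theorem FZ.sq (F : FZ h A ι) (e : IsConj (ι z) (ι a)) : a * a = 1 := by
  obtain ⟨g, e⟩ := isConj_iff.1 e
  exact F.inj (by rw [map_mul, ← e, conj_mul, ← map_mul, h.l.zsq, map_one, mul_one, mul_inv_cancel])

theorem QT.one (t : QT ι z A R σ) : σ 1 = 1 := by
  simpa using t.mul 1 (one_mem _) 1 (one_mem _)

theorem QT.inv (t : QT ι z A R σ) (ha : a ∈ K0 R) : σ a⁻¹ = (σ a)⁻¹ :=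
  eq_inv_of_mul_eq_one_left (by rw [← t.mul _ (inv_mem ha) _ ha, inv_mul_cancel, t.one])

theorem QT.cj (t : QT ι z A R σ) (ha : a ∈ K0 R) (hb : b ∈ K0 R) : σ (a * b * a⁻¹) = σ a * σ b * (σ a)⁻¹ := by
  rw [t.mul _ (mul_mem ha hb) _ (inv_mem ha), t.mul _ ha _ hb, t.inv ha]

namespace CT
variable (c : CT h A w x R jj q ρ)
include c

theorem zK : z ∈ K0 R := c.r.AK c.r.zA

theorem sK (a : C4) (e : ZMod 2) : q (jj a) * z ^ e.val ∈ K0 R :=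
  mul_mem (c.r.qK c.k c.o a) (pow_mem c.zK _)

theorem gm_uniq (e : GM ι z ρ m u) (e' : GM ι z ρ n v) (k : ∀ s, t4 u s = t4 v s) : n = m :=
  Subtype.ext ((c.eqz fun s => by rw [e.1, e'.1, k]).resolve_right fun e1 => e.2.2 (e1 ▸ e'.2.1))

theorem gm_conj (e : GM ι z ρ m v) (n : C0 R x) : GM ι z ρ (n * m * n⁻¹) ((ρ n).1 v) := by
  refine ⟨fun u => ?_, e.2.1.trans (cj_h ι n m), fun e' => e.2.2 (e'.trans ?_)⟩
  · obtain ⟨u, rfl⟩ := (ρ n).1.surjective u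
    rw [← LinearEquiv.mul_apply, ← coe_mul, ← map_mul, inv_mul_cancel_right, map_mul, coe_mul,
      LinearEquiv.mul_apply, e.1, ug_t4]
  · have := (cj_h ι n (m * z)).symm
    rwa [← conj_mul, (h.c _).mul_inv_cancel] at this

theorem gm_base (D : DD c.r ι a 0 j) (hj : j ≠ 0) : ∃ m : C0 R x, m.1 = a * z ∧ GM ι z ρ m (hb4 j) := by
  refine ⟨⟨a * z, mul_mem (c.r.AK D.m) c.zK, mem_centralizer_singleton_iff.2 (D.c.mul_left (h.c x).symm)⟩, rfl,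
    fun u => (c.ov _ 0 j (fun b hb => ?_) u).trans (hb4_t j hj u), ?_, ?_⟩
  · rw [← D.o b hb, show a * z * b * (a * z)⁻¹ = a * (z * b * z⁻¹) * a⁻¹ by group,
      (h.c b).symm.mul_inv_cancel]
  · have := mt (D.d (0, 1)).1 (sgA 0 j hj.symm).1
    rw [c.r.rz] at this
    exact not_not.1 (not_and.1 this fun e => c.r.notQ D.o hj.symm
      (by rw [eq_inv_of_mul_eq_one_left e]; exact inv_mem h.l.mem))
  · have := ((D.d 0).2 (sgA 0 j hj.symm).2.2.1).2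
    rwa [c.r.zero, ← h.l.zsq, ← mul_assoc] at this

theorem red (hv : I4 v) : ∃ (n : C0 R x) (j : Fin 6) (d : K4), j ≠ 0 ∧ d ≠ 0 ∧ v = (ρ n).1 (d • hb4 j) := by
  obtain ⟨p, hp, e⟩ := l1 v hv
  obtain ⟨n, hn⟩ := c.sur p hp
  obtain ⟨j, hj, d, hd, e1⟩ := hb4_all _ _ (c4_eta e ▸ (hv.t hp).1)
  exact ⟨n, j, d, hj, hd, by rw [← e1, ← c4_eta e, hn, t4_t4 hp]⟩

theorem gm_ex (F : FZ h A ι) (v : C4) (hv : I4 v) : ∃ m, GM ι z ρ m v := by
  obtain ⟨n, j, d, hj, hd, rfl⟩ := c.red hv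
  obtain ⟨a, D⟩ := c.r.exists_dd F hj.symm
  obtain ⟨m, -, e⟩ := c.gm_base D hj
  exact ⟨_, c.gm_conj (v := d • hb4 j) ⟨fun u => (e.1 u).trans (t4_sm hd _ _).symm, e.2⟩ n⟩

variable (t : QT ι z A R σ)
include t

theorem sE (ha : a ∈ K0 R) (d : K4) : σ (R (d • hcv 0, 0) * a) = σ a := by
  rw [t.mul _ (c.r.AK (c.r.mA _)) _ ha, (t.ker _ (c.r.AK (c.r.mA _))).2 ⟨d, rfl⟩, one_mul]

theorem cS (m : C0 R x) (a : C4) (e : ZMod 2) :
    σ m * SS σ q jj z a e * (σ m)⁻¹ = SS σ q jj z ((ρ m).1 a) e := by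
  obtain ⟨d, e1⟩ := c.act m a
  rw [SS, ← t.cj (C0_k m) (c.sK a e), ← conj_mul, ((h.c _).pow_right _).mul_inv_cancel,
    c.k.conj c.r.toXS (C0_c m), e1, c.r.qa c.k c.o, mul_assoc, c.sE t (c.sK _ e), SS]

theorem smul (a : C4) (e : ZMod 2) (b : C4) (f : ZMod 2) :
    SS σ q jj z a e * SS σ q jj z b f = SS σ q jj z (a + b) (e + f + kp a b) := by
  rw [SS, SS, ← t.mul _ (c.sK a e) _ (c.sK b f), ((h.c _).pow_right _).symm.mul_mul_mul_comm,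
    c.k.mul c.r.toXS, c.o.b, ← map_add, SS, add_comm (e + f), zpow_add2 h.l.zsq (kp a b),
    zpow_add2 h.l.zsq e, mul_assoc, kp]

theorem sR (s : C3 × ZMod 2) : σ (R s) = SS σ q jj z (s.1.2.1, s.1.2.2, 0, 0) s.2 := by
  rw [c.r.rq c.k, show L3 w s.1 = s.1.1 • w.1 + jj (s.1.2.1, s.1.2.2, 0, 0) by
    rw [c.o.jw]; simp only [L3_apply]; module, c.r.qa c.k c.o, mul_assoc, c.sE t (c.sK _ _), SS]

theorem sone {e : ZMod 2} (k : SS σ q jj z v e * σ m = 1) : v = 0 ∧ ρ m = 1 := by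
  rw [SS, ← t.mul _ (c.sK v e) _ (C0_k m)] at k
  obtain ⟨d, k⟩ := (t.ker _ (mul_mem (c.sK v e) (C0_k m))).1 k
  have h1 := mul_mem (c.k.m (jj v)) (pow_mem h.l.mem e.val)
  have h2 : m.1 ∈ Q := (mul_mem_cancel_left h1).1 (k ▸ c.r.mQ _)
  have h3 := c.r.toXS.fix h2 (C0_c m)
  refine ⟨c.o.inj h.S.hB c.r.ww (c := 0) (d := d) ?_, (c.ker m).2 h3⟩
  rw [← c.r.chi0 d, ← k, h.mul _ h1 _ h2, h.mul _ (c.k.m _) _ (pow_mem h.l.mem _), c.k.chi,
    (h.zero _ h2).2 h3, (h.zero _ (pow_mem h.l.mem _)).2 (by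
      rcases (by decide : ∀ e : ZMod 2, e.val = 0 ∨ e.val = 1) e with e | e <;> simp [e])]
  simp

theorem d1 : σ z ≠ 1 := fun e => by
  obtain ⟨d, e⟩ := (t.ker _ c.zK).1 e
  have := c.r.eq_zero (s := (d • hcv 0, 0 + 1)) (by rw [← c.r.mz (_, 0), ← e, h.l.zsq])
  exact absurd (congrArg Prod.snd this) (by decide : ¬ (0 + 1 : ZMod 2) = 0)

theorem s0 (e : ZMod 2) : SS σ q jj z 0 e = σ (z ^ e.val) := by
  have := c.r.rq c.k 0
  rw [c.r.zero, Prod.fst_zero, map_zero, Prod.snd_zero, ZMod.val_zero, pow_zero, mul_one] at this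
  rw [SS, map_zero, ← this, one_mul]

theorem dec (ha : a ∈ K0 R) : ∃ v e, ∃ m : C0 R x, σ a = SS σ q jj z v e * σ m := by
  obtain ⟨d, v, e, m, rfl⟩ := c.r.dec c.k c.o ha
  exact ⟨v, e, m, by rw [c.sE t (mul_mem (c.sK v e) (C0_k m)), t.mul _ (c.sK v e) _ (C0_k m), SS]⟩

theorem intoA (F : FZ h A ι) (hb : b ∈ K0 R) (e : b * b = 1) : ∃ n : C0 R x, n * b * n.1⁻¹ ∈ A := by
  obtain ⟨d, v, f, m, rfl⟩ := c.r.dec c.k c.o hb
  have k1 := congrArg σ e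
  rw [t.mul _ hb _ hb, c.sE t (mul_mem (c.sK v f) (C0_k m)), t.mul _ (c.sK v f) _ (C0_k m), t.one] at k1
  change SS σ q jj z v f * σ m * (SS σ q jj z v f * σ m) = 1 at k1
  rw [show ∀ s y : X, s * y * (s * y) = s * (y * s * y⁻¹) * (y * y) from fun s y => by group, c.cS t,
    c.smul t, ← t.mul _ (C0_k m) _ (C0_k m)] at k1
  obtain ⟨k2, k3⟩ := c.sone t (m := m * m) k1
  have k4 : (ρ m).1 v = v := add_left_cancel (k2.trans (c4_two v).symm)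
  obtain ⟨n, k5, -⟩ := c.toA m 0 k3 (map_zero _) (b4_zl _)
  have k6 : m.1 * m.1 = 1 := by simpa [conj_mul] using c.r.sq _ k5
  rw [k2, k6, t.one, mul_one, c.s0 t, k4] at k1
  obtain ⟨n, k7, k8⟩ := c.toA m v k3 k4 ((by decide : ∀ (p : K4) (f : ZMod 2), cj4 p = p →
    (f + f + (p.re + p.im)).val ≠ 1 → p = 0) _ f (b4_cj v v) fun e => c.d1 t (by rwa [kp, e, pow_one] at k1))
  refine ⟨n, ?_⟩
  rw [← conj_mul, ← conj_mul, ← conj_mul, (mem_K0.1 (C0_k n) d).mul_inv_cancel,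
    ((h.c _).pow_right _).mul_inv_cancel]
  exact mul_mem (c.r.mA _) (mul_mem (mul_mem (c.qA n k8) (pow_mem c.r.zA _)) k7)

variable {Γ : C4 → C0 R x} (hΓ : ∀ v, I4 v → GM ι z ρ (Γ v) v)
include hΓ

theorem cP (n : C0 R x) (hv : I4 v) (k : K4) :
    σ n * PT (SS σ q jj z) (fun v => σ (Γ v)) v k * (σ n)⁻¹ =
      PT (SS σ q jj z) (fun v => σ (Γ v)) ((ρ n).1 v) k := by
  rw [PT, PT, ← conj_mul, c.cS t, map_smul, ← t.cj (C0_k n) (C0_k _),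
    c.gm_uniq (c.gm_conj (hΓ v hv) n) (hΓ _ (ug_i4 _ hv)) fun _ => rfl]
  rfl

theorem gsm (hv : I4 v) {d : K4} (hd : d ≠ 0) : Γ (d • v) = Γ v :=
  c.gm_uniq (hΓ v hv) (hΓ _ (hv.smul hd)) fun s => (t4_sm hd _ _).symm

theorem gb (D : DD c.r ι a 0 j) (hj : j ≠ 0) : (Γ (hb4 j)).1 = a * z := by
  obtain ⟨m, e, e'⟩ := c.gm_base D hj
  rw [c.gm_uniq e' (hΓ _ (hb4_i j hj)) fun _ => rfl, e]

theorem ptA (D : DD c.r ι a 0 j) (hj : j ≠ 0) (d : K4) : σ (a * R (d • hcv j, 1 + nm4 d)) =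
    PT (SS σ q jj z) (fun v => σ (Γ v)) (hb4 j) (cj4 d) := by
  rw [PT, cj_cj, (by decide : ∀ d, nm4 (cj4 d) = nm4 d), c.gb t hΓ D hj, add_comm, ← c.r.mz (_, nm4 d),
    ← mul_assoc, (c.r.com D.m (c.r.mA _)).eq, mul_assoc,
    t.mul _ (c.r.AK (c.r.mA _)) _ (mul_mem (c.r.AK D.m) c.zK), c.sR t]
  exact congrArg (SS σ q jj z · _ * _) (by simp [hb4])

theorem loc1 (F : FZ h A ι) (hb : b ∈ A) (e : Ta ι z R b) (e' : σ b ≠ σ z) :
    ∃ j k, j ≠ 0 ∧ σ b = PT (SS σ q jj z) (fun v => σ (Γ v)) (hb4 j) k := by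
  by_cases hq : b ∈ Q
  · obtain ⟨⟨s, f⟩, rfl⟩ := c.r.sur hb hq
    obtain rfl := fin0 s (fun k => ((c.r.dr F _).2 k).2 e.1) fun d hd => by
      have := e.2 d hd
      rw [← c.r.add] at this
      exact (c.r.dr F _).1 this
    rcases (by decide : ∀ f : ZMod 2, f = 0 ∨ f = 1) f with rfl | rfl
    · have := e.1
      rw [show R (0, 0) = 1 from c.r.zero, map_one, isConj_one_left, map_eq_one_iff ι F.inj] at this
      exact absurd this h.l.ne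
    · exact absurd (congrArg σ c.r.rz) e'
  obtain ⟨i, j, hij, o⟩ := c.r.ex_ov hb hq
  obtain ⟨a, D⟩ := c.r.exists_dd F hij
  obtain ⟨s, rfl⟩ := c.r.ovr D.m hb D.o o
  rcases fin1 i j hij s (fun d hd => (D.d _).1 (by rw [c.r.add, ← mul_assoc]; exact e.2 d hd))
    fun k => ((D.d s).2 k).2 e.1 with ⟨rfl, d, rfl⟩ | ⟨rfl, d, rfl⟩
  exacts [⟨j, _, hij.symm, c.ptA t hΓ D hij.symm d⟩, ⟨i, _, hij, c.ptA t hΓ D.symm hij d⟩]

theorem hs (F : FZ h A ι) : HS (conjugatesOf (σ z)) (σ z) (SS σ q jj z) fun v => σ (Γ v) := by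
  have g2 : ∀ v, I4 v → (Γ v).1 * Γ v = 1 := fun v hv => F.sq (hΓ v hv).2.1
  have gi : ∀ v, I4 v → σ (Γ v) = (σ (Γ v))⁻¹ := fun v hv => eq_inv_of_mul_eq_one_left (by
    rw [← t.mul _ (C0_k _) _ (C0_k _), g2 v hv, t.one])
  have cz : ∀ a ∈ K0 R, Commute (σ z) (σ a) := fun a ha =>
    show _ = _ by rw [← t.mul _ c.zK _ ha, ← t.mul _ ha _ c.zK, (h.c a).eq]
  refine ⟨c.d1 t, (c.s0 t 1).trans (congrArg σ (pow_one z)), c.smul t, fun v hv => by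
    rw [← t.mul _ (C0_k _) _ (C0_k _), g2 v hv, t.one], fun v hv d hd => by rw [c.gsm t hΓ hv hd],
    fun v hv a e => ?_, fun v hv u hu => ?_, ?_, fun y => ⟨fun ⟨y1, y2, y3⟩ => ?_, ?_⟩⟩
  · rw [← (hΓ v hv).1, ← c.cS t, ← gi v hv]
  · rw [← (hΓ v hv).1, c.gm_uniq (c.gm_conj (hΓ u hu) (Γ v)) (hΓ _ (ug_i4 _ hu)) fun _ => rfl]
    exact Eq.trans (by rw [← gi v hv]) (t.cj (C0_k (Γ v)) (C0_k (Γ u))).symm
  · have : ∀ j, ∃ a, j ≠ 0 → DD c.r ι a 0 j := fun j => by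
      by_cases hj : j = 0
      exacts [⟨1, fun k => absurd hj k⟩, (c.r.exists_dd F (Ne.symm hj)).imp fun _ e _ => e]
    choose a D using this
    have k := fun j hj => c.gb t hΓ (D j hj) hj
    rw [show ((0, 1, 0, 0) : C4) = hb4 2 from rfl, show ((1, 1, 0, 0) : C4) = hb4 3 from rfl,
      show ((w4, 1, 0, 0) : C4) = (w4 + 1) • hb4 5 by decide, show ((w4 + 1, 1, 0, 0) : C4) = w4 • hb4 4 by decide,
      show ((1, 0, 0, 0) : C4) = hb4 1 from rfl, c.gsm t hΓ (hb4_i 5 (by decide)) (by decide),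
      c.gsm t hΓ (hb4_i 4 (by decide)) (by decide), ← t.mul _ (C0_k _) _ (C0_k _),
      ← t.mul _ (mul_mem (C0_k _) (C0_k _)) _ (C0_k _),
      ← t.mul _ (mul_mem (mul_mem (C0_k _) (C0_k _)) (C0_k _)) _ (C0_k _), k 1 (by decide), k 2 (by decide),
      k 3 (by decide), k 4 (by decide), k 5 (by decide), c.r.five F D]
  · obtain ⟨a, ha, rfl⟩ := t.cen y y3.symm
    obtain ⟨b, hb, e, k⟩ := t.cl a ha y1
    obtain ⟨n, hn⟩ := c.intoA t F hb (F.sq k.1)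
    obtain ⟨j, l, hj, e1⟩ := c.loc1 t hΓ F hn ⟨k.1.trans (cj_h ι n b), fun d hd => by
      rw [← (mem_K0.1 (C0_k n) d).mul_inv_cancel, conj_mul, ← F.dl (cj_h ι n _)]
      exact k.2 d hd⟩ fun e1 => y2 (by
        rw [t.cj (C0_k n) hb, mul_inv_eq_iff_eq_mul, (cz _ (C0_k n)).eq, mul_right_inj] at e1
        exact e.trans e1)
    refine ⟨_, l, ug_i4 (ρ n⁻¹) (hb4_i j hj), ?_⟩
    rw [← c.cP t hΓ _ (hb4_i j hj), ← e1, t.cj (C0_k n) hb, coe_inv, t.inv (C0_k n), e]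
    group
  · rintro ⟨v, k, hv, rfl⟩
    obtain ⟨n, j, d, hj, hd, rfl⟩ := c.red hv
    obtain ⟨a, D⟩ := c.r.exists_dd F hj.symm
    have e1 : PT (SS σ q jj z) (fun v => σ (Γ v)) (d • hb4 j) k =
        σ (a * R ((cj4 k * d) • hcv j, 1 + nm4 (cj4 k * d))) := by
      rw [c.ptA t hΓ D hj, PT, PT, c.gsm t hΓ (hb4_i j hj) hd, cj_cj, smul_smul,
        (by decide : ∀ k d : K4, d ≠ 0 → nm4 (cj4 (cj4 k * d)) = nm4 k) k d hd]
    have m1 := mul_mem D.m (c.r.mA ((cj4 k * d) • hcv j, 1 + nm4 (cj4 k * d)))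
    have nq : a * R ((cj4 k * d) • hcv j, 1 + nm4 (cj4 k * d)) ∉ Q := fun e =>
      c.r.notQ D.o hj.symm ((mul_mem_cancel_right (c.r.mQ _)).1 e)
    rw [← c.cP t hΓ n ((hb4_i j hj).smul hd), e1]
    refine ⟨(t.cl' _ m1 ⟨not_not.1 (not_and.1 (mt (D.d _).1 (fin2 j hj _).1) fun e => nq (e ▸ one_mem _)),
      fun d hd => by rw [mul_assoc, ← c.r.add]; exact (D.d _).2 ((fin2 j hj _).2 d hd)⟩).trans
      (isConj_iff.2 ⟨_, rfl⟩), fun e => nq ?_, ((cz _ (C0_k n)).mul_right (cz _ (c.r.AK m1))).mul_right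
        (cz _ (C0_k n)).inv_right⟩
    rw [mul_inv_eq_iff_eq_mul, (cz _ (C0_k n)).eq, mul_right_inj] at e
    obtain ⟨d, e2⟩ := (t.ker _ (mul_mem (c.r.AK m1) (inv_mem c.zK))).1 (by
      rw [t.mul _ (c.r.AK m1) _ (inv_mem c.zK), t.inv c.zK, e, mul_inv_cancel])
    exact (mul_mem_cancel_right (inv_mem h.l.mem)).1 (e2 ▸ c.r.mQ _)

end CT

theorem RM.iso6 (r : RM h A w x R) (F : FZ h A ι) (hL : L ≤ M) [Finite X] (t : QT ι z A R σ) :
    Nonempty (X ≃* PSU 6 K4 2) := by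
  obtain ⟨jj, q, ρ, c⟩ := r.exists_ct hL
  choose! Γ hΓ using c.gm_ex F
  have k := c.hs t hΓ F
  refine k.iso (fun g hg => ?_) fun y hy hc => ?_
  · obtain ⟨a, ha, rfl⟩ := t.cen g hg
    obtain ⟨v, e, m, e1⟩ := c.dec t ha
    refine ⟨v, e, _, ?_, e1⟩
    let f : C0 R x →* X := MonoidHom.mk' (fun m => σ m) fun m n => t.mul _ (C0_k m) _ (C0_k n)
    have i1 : I4 (1, 0, 0, 0) := by decide
    refine (c.top ((closure (insert (σ z) ((fun v => σ (Γ v)) '' {v | I4 v}))).comap f) ⟨fun m hm n => ?_⟩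
      (fun m e => subset_closure (.inl (congrArg σ e))) (Γ (1, 0, 0, 0))
      (subset_closure (.inr ⟨_, i1, rfl⟩)) fun e => ?_).ge (mem_top m)
    · rw [mem_comap, map_mul, map_mul, map_inv]
      refine (closure_le ((Subgroup.closure _).comap (MulAut.conj (f n)).toMonoidHom)).2 ?_ hm
      rintro _ (rfl | ⟨v, hv, rfl⟩)
      · refine subset_closure (.inl ?_)
        exact (t.cj (C0_k n) c.zK).symm.trans (congrArg σ (h.c _).mul_inv_cancel)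
      · refine subset_closure (.inr ⟨_, ug_i4 (ρ n) hv, ?_⟩)
        exact (k.p0.symm.trans (c.cP t hΓ n hv 0).symm).trans (by rw [k.p0]; rfl)
    · have := (hΓ _ i1).1 (0, 0, 1, 0)
      rw [e] at this
      exact absurd this (by decide : ¬ ((0, 0, 1, 0) : C4) = _)
  · obtain ⟨a, ha, rfl⟩ := t.cen y hy
    obtain ⟨v, e, m, e1⟩ := c.dec t ha
    have k1 : ∀ b, (ρ m).1 b = b ∧ kp v ((ρ m).1 b) = kp b v := fun b => by
      have := (hc _ (k.cS (a := b) (e := 0)).symm).eq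
      rw [e1, ← mul_assoc, mul_assoc, ← inv_mul_cancel_right (σ m * _) (σ m), c.cS t, ← mul_assoc,
        mul_left_inj, k.mul, k.mul] at this
      have := k.sinj this
      exact ⟨add_left_cancel (this.1.trans (add_comm ..)), add_left_cancel (this.2.trans (by rw [add_comm e]))⟩
    have k2 : v = 0 := hf4.nd _ fun b => by
      have h1 := (k1 b).2
      have h2 := (k1 (w4 • b)).2
      rw [(k1 _).1, kp, kp, ← b4_cj v] at h1 h2
      rw [b4_smr] at h2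
      exact (by decide : ∀ p : K4, p.re + p.im = (cj4 p).re + (cj4 p).im →
        (w4 * p).re + (w4 * p).im = (cj4 (w4 * p)).re + (cj4 (w4 * p)).im → p = 0) _ h1 h2
    rw [e1, k2]
    rcases (c.ker m).1 (Subtype.ext (LinearEquiv.ext fun b => (k1 b).1)) with e2 | e2 <;>
      rcases (by decide : ∀ f : ZMod 2, f = 0 ∨ f = 1) e with rfl | rfl <;> rw [e2]
    · exact .inl (by rw [k.s00, t.one, mul_one])
    · exact .inr (by rw [k.s0, t.one, mul_one])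
    · exact .inr (by rw [k.s00, one_mul])
    · exact .inl (by rw [k.s0, k.d2])

end Cfsg.Agent.LF
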