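import Cfsg.Agent.Fischer.ND
import Cfsg.Agent.Fischer.MA
import Cfsg.Agent.S5394

/-! Squares in the centraliser of the four-group. -/

set_option autoImplicit false
set_option linter.unusedSectionVars false
set_option linter.unusedVariables false
set_option synthInstance.maxSize 2048

namespace Cfsg.Agent.LF
open Subgroup Module Cfsg.Agent.Comp Cfsg.Agent.FiC Cfsg.Agent.Herm Cfsg.Agent.Fischer.U6
  Cfsg.Agent.Fischer Cfsg.Agent.LocalEven Cfsg.Agent.Golay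

section
universe u
variable {H : Type*} [Group H] [Finite H] {Q N M L A : Subgroup H} {z a b x : H}
  {V : Type*} [AddCommGroup V] [Module K4 V] [FiniteDimensional K4 V]
  {B : V →ₛₗ[s4] V →ₗ[K4] K4} {χ : H → V} {φ : L →* SUG B} {w : V × V × V}
  {h : FT Q N M L z B χ φ} {R : C3 × ZMod 2 → H} {G : Type u} [Group G] [Finite G] {ι : H →* G}
  {jj : C4 →ₗ[K4] V} {q : V → H} {ρ : C0 R x →* UG B4} {X : Type*} [Group X] {σ : H → X}

theorem CT.intoA2 (c : CT h A w x R jj q ρ) (t : QT ι z A R σ) (hb : b ∈ K0 R) (k1 : σ (b * b) = 1) :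
    ∃ n : C0 R x, n * b * n.1⁻¹ ∈ A := by
  obtain ⟨d, v, f, m, rfl⟩ := c.r.dec c.k c.o hb
  rw [t.mul _ hb _ hb, c.sE t (mul_mem (c.sK v f) (C0_k m)), t.mul _ (c.sK v f) _ (C0_k m)] at k1
  change SS σ q jj z v f * σ m * (SS σ q jj z v f * σ m) = 1 at k1
  rw [show ∀ s y : X, s * y * (s * y) = s * (y * s * y⁻¹) * (y * y) from fun s y => by group, c.cS t,
    c.smul t, ← t.mul _ (C0_k m) _ (C0_k m)] at k1
  obtain ⟨k2, k3⟩ := c.sone t (m := m * m) k1
  have k4 : (ρ m).1 v = v := add_left_cancel (k2.trans (c4_two v).symm)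
  obtain ⟨n, k5, -⟩ := c.toA m 0 k3 (map_zero _) (b4_zl _)
  have k6 : m.1 * m.1 = 1 := by simpa [conj_mul] using c.r.sq _ k5
  rw [k2, k6, t.one, mul_one, c.s0 t, k4] at k1
  obtain ⟨n, k7, k8⟩ := c.toA m v k3 k4 ((by decide : ∀ (p : K4) (f : ZMod 2), cj4 p = p →
    (f + f + (p.re + p.im)).val ≠ 1 → p = 0) _ f (b4_cj v v) fun e => c.d1 t (by rwa [kp, e, pow_one] at k1))
  refine ⟨n, ?_⟩
  rw [← conj_mul, ← conj_mul, ← conj_mul, (mem_K0.1 (C0_k n) d).mul_inv_cancel,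
    ((h.c _).pow_right _).mul_inv_cancel]
  exact mul_mem (c.r.mA _) (mul_mem (mul_mem (c.qA n k8) (pow_mem c.r.zA _)) k7)

theorem CT.nsq (c : CT h A w x R jj q ρ) (t : QT ι z A R σ) (hb : b ∈ K0 R) :
    b * b ≠ R ((1 : K4) • hcv 0, 0) := fun e => by
  obtain ⟨n, hn⟩ := c.intoA2 t hb (e ▸ (t.ker _ (c.r.AK (c.r.mA _))).2 ⟨1, rfl⟩)
  have := c.r.sq _ hn
  rw [conj_mul, conj_eq_one_iff, e] at this
  exact c.r.iv0.2.2.1 this

namespace RM
variable (r : RM h A w x R) (F : FZ h A ι)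
include r F

theorem ex_u : ∃ u ∈ normalizer (A : Set H), ∃ a ∈ A, Dl ι z a ∧ u * u = R ((1 : K4) • hcv 0, 0) ∧
    u * a * u⁻¹ = a * R ((1 : K4) • hcv 0, 1) := by
  obtain ⟨a, D⟩ := r.exists_dd F (i := 0) (j := 1) (by decide)
  obtain ⟨v, hv, h1⟩ : ∃ v, lam3 B w v = (1, 0, 0) ∧ B v v ≠ 0 := by
    obtain ⟨v, hv⟩ := r.dual (1, 0, 0)
    by_cases e : B v v = 0
    · refine ⟨v + L3 w (w4, 0, 0), by rw [map_add, r.iso, add_zero, hv], ?_⟩
      rw [b_add_left, map_add, e, ← h.S.hB.symm (L3 w _) v, b_L3, b_L3, map_add, r.iso, hv, s4_eq]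
      decide
    · exact ⟨v, hv, e⟩
  obtain ⟨q, hq, rfl⟩ := h.surj v
  have h2 : q * q = z := ((h.zero _ (mul_mem hq hq)).1 (by
    rw [h.mul _ hq _ hq, h.S.add_self])).resolve_left (mt (h.sq q hq).1 h1)
  have h3 := r.ca D.m D.c D.o hq 0
  rw [hv, r.zero, mul_one, show mv3 0 1 (1, 0, 0) 0 = ((1 : K4) • hcv 0, 1) by decide] at h3
  refine ⟨q * a, mul_mem (r.nN (h.QN hq)) (le_normalizer D.m), a, D.m, by
    simpa [r.zero] using (D.d 0).2 (by decide), ?_, by rw [← h3]; group⟩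
  rw [show q * a * (q * a) = q * a * q⁻¹ * (q * q) * a by group, h3, h2, mul_assoc a, r.mz,
    (r.com D.m (r.mA _)).eq, mul_assoc, r.sq a D.m, mul_one]
  rfl

theorem four2 (hL : L ≤ M) (hc : ∀ g, Commute g (ι z) → g ∈ ι.range)
    (tr : ∀ a ∈ A, Ta ι z R a → ∃ n, (∀ c : K4, Commute n (ι (R (c • hcv 0, 0)))) ∧ n * ι z * n⁻¹ = ι a) :
    (∀ b ∈ K0 R, b * b ≠ R ((1 : K4) • hcv 0, 0)) ∧
    ∃ E : Subgroup G, (∀ g, g ∈ E ↔ ∃ c : K4, g = ι (R (c • hcv 0, 0))) ∧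
      Group.IsPerfect ↥(centralizer (E : Set G)) ∧ ι (R ((1 : K4) • hcv 0, 0)) ∈
        (_root_.commutator (centralizer (E : Set G))).map (Subgroup.subtype _) ∧
      ∃ π : centralizer (E : Set G) →* PSU 6 K4 2, Function.Surjective π ∧ ∀ g, π g = 1 ↔ g.1 ∈ E := by
  classical
  obtain ⟨E, hE, cE⟩ : ∃ E : Subgroup G, (∀ g, g ∈ E ↔ ∃ c : K4, g = ι (R (c • hcv 0, 0))) ∧
      Nat.card E = 4 := by
    let f : Multiplicative K4 →* G := MonoidHom.mk' (fun c => ι (R (c.toAdd • hcv 0, 0))) fun c d => by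
      rw [toAdd_mul, r.ad0, map_mul]
    have hf : Function.Injective f := (injective_iff_map_eq_one f).2 fun c e =>
      (smul_eq_zero.1 (congrArg Prod.fst (r.eq_zero ((map_eq_one_iff ι F.inj).1 e)))).resolve_right
        (hcv_ne 0)
    refine ⟨f.range, fun g => ⟨fun ⟨c, e⟩ => ⟨c.toAdd, e.symm⟩, fun ⟨c, e⟩ => ⟨.ofAdd c, e.symm⟩⟩, ?_⟩
    rw [← Nat.card_congr (MonoidHom.ofInjective hf).toEquiv, Nat.card_congr Multiplicative.toAdd,
      Nat.card_eq_fintype_card, card_K4]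
  have mE : ∀ c : K4, ι (R (c • hcv 0, 0)) ∈ E := fun c => (hE _).2 ⟨c, rfl⟩
  have hK : ∀ g, (∀ c : K4, Commute g (ι (R (c • hcv 0, 0)))) → g ∈ centralizer (E : Set G) :=
    fun g e a ha => by
      obtain ⟨c, rfl⟩ := (hE a).1 ha
      exact (e c).symm
  have hK0 : ∀ a, a ∈ K0 R ↔ ι a ∈ centralizer (E : Set G) := fun a =>
    ⟨fun e => hK _ fun c => Commute.map (Commute.symm (e _ ⟨c, rfl⟩)) ι, fun e => by
      rintro _ ⟨c, rfl⟩
      exact F.inj (by rw [map_mul, map_mul]; exact e _ (mE c))⟩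
  have cenE : E.subgroupOf (centralizer (E : Set G)) ≤ center _ := fun a ha =>
    mem_center_iff.2 fun g => Subtype.ext (g.2 a ha).symm
  have nE : (E.subgroupOf (centralizer (E : Set G))).Normal :=
    ⟨fun a ha g => by rwa [mem_center_iff.1 (cenE ha) g, mul_inv_cancel_right]⟩
  have Z := r.zT F
  have zK := (hK0 _).1 (r.aK r.zA)
  have zE : ι z ∉ E := fun e => by
    obtain ⟨c, e⟩ := (hE _).1 e
    have := r.eq_zero (s := (c • hcv 0, 0) + (0, 1)) (by rw [r.add, ← F.inj e, r.rz, h.l.zsq])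
    exact absurd (congrArg Prod.snd this) (by decide : (0 : ZMod 2) + 1 ≠ 0)
  obtain ⟨σ, hσ⟩ : ∃ σ : H → centralizer (E : Set G) ⧸ E.subgroupOf (centralizer (E : Set G)),
      ∀ a (ha : ι a ∈ centralizer (E : Set G)), σ a = QuotientGroup.mk ⟨ι a, ha⟩ :=
    ⟨fun a => if ha : ι a ∈ centralizer (E : Set G) then QuotientGroup.mk ⟨ι a, ha⟩ else 1,
      fun a ha => dif_pos ha⟩
  have k1 : ∀ (g : centralizer (E : Set G)) (a : H) (ha : ι a ∈ centralizer (E : Set G)),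
      QuotientGroup.mk g * σ z * (QuotientGroup.mk g)⁻¹ = σ a →
      ∃ c : K4, g.1 * ι z * g.1⁻¹ = ι (a * R (c • hcv 0, 0)) := fun g a ha e => by
    rw [hσ z zK, hσ a ha, ← QuotientGroup.mk_inv, ← QuotientGroup.mk_mul, ← QuotientGroup.mk_mul] at e
    obtain ⟨c, e⟩ := (hE _).1 (mem_subgroupOf.1 (QuotientGroup.eq.1 e.symm))
    exact ⟨c, by rw [map_mul, ← e]; simp⟩
  have t : QT ι z A R σ := ⟨fun a ha b hb => by
      rw [hσ a ((hK0 a).1 ha), hσ b ((hK0 b).1 hb), hσ _ ((hK0 _).1 (mul_mem ha hb)),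
        ← QuotientGroup.mk_mul]
      exact congrArg _ (Subtype.ext (map_mul ..)),
    fun a ha => by
      rw [hσ a ((hK0 a).1 ha), QuotientGroup.eq_one_iff, mem_subgroupOf, hE]
      exact exists_congr fun c => F.inj.eq_iff,
    fun y hy => by
      obtain ⟨g, rfl⟩ := QuotientGroup.mk_surjective y
      obtain ⟨c, e⟩ := k1 g z zK hy.mul_inv_cancel
      by_cases c0 : c = 0
      · rw [c0, r.z0, mul_one] at e
        obtain ⟨a, ha⟩ := hc g.1 (Inv.commute_iff_conj.2 e)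
        have : ι a ∈ centralizer (E : Set G) := ha ▸ g.2
        exact ⟨a, (hK0 a).2 this, by rw [hσ a this]; exact congrArg _ (Subtype.ext ha.symm)⟩
      · exact ((Z.2 c c0).2 (isConj_iff.2 ⟨_, e⟩)).elim,
    fun a ha e => by
      obtain ⟨y, e⟩ := isConj_iff.1 e
      obtain ⟨g, rfl⟩ := QuotientGroup.mk_surjective y
      obtain ⟨c, e⟩ := k1 g a ((hK0 a).1 ha) e
      have hb := mul_mem ha (r.aK (r.mA (c • hcv 0, 0)))
      refine ⟨_, hb, ?_, isConj_iff.2 ⟨_, e⟩, fun d hd => (F.dl (isConj_iff.2 ⟨g.1, ?_⟩)).1 (Z.2 d hd)⟩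
      · rw [hσ a ((hK0 a).1 ha), hσ _ ((hK0 _).1 hb)]
        exact QuotientGroup.eq.2 (mem_subgroupOf.2 (by simpa using mE c))
      · rw [map_mul, map_mul ι _ (R (d • hcv 0, 0)), ← e, ← conj_mul,
          (Commute.symm (g.2 _ (mE d))).mul_inv_cancel],
    fun a ha T => by
      obtain ⟨n, n1, n2⟩ := tr a ha T
      refine isConj_iff.2 ⟨QuotientGroup.mk ⟨n, hK n n1⟩, ?_⟩
      rw [hσ z zK, hσ a ((hK0 a).1 (r.aK ha)), ← QuotientGroup.mk_inv, ← QuotientGroup.mk_mul,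
        ← QuotientGroup.mk_mul]
      exact congrArg _ (Subtype.ext n2)⟩
  obtain ⟨e⟩ := r.iso6 F hL t
  obtain ⟨jj, q, ρ, c⟩ := r.exists_ct hL
  have := S0283.result (F := K4) (q := 2) card_K4 6 (by norm_num) (by norm_num)
  have := e.isSimpleGroup
  obtain ⟨c1, c2⟩ := r.cm (((_root_.commutator (centralizer (E : Set G))).map (Subgroup.subtype _)).comap ι)
    fun a ha b hb => ⟨_, commutator_mem_commutator
      (mem_top (⟨ι a, (hK0 a).1 ha⟩ : centralizer (E : Set G))) (mem_top ⟨ι b, (hK0 b).1 hb⟩),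
      by simp [commutatorElement_def]⟩
  have c3 : ∀ g : centralizer (E : Set G), g.1 ∈ (_root_.commutator (centralizer (E : Set G))).map
      (Subgroup.subtype _) → g ∈ _root_.commutator (centralizer (E : Set G)) := fun g ⟨k, hk, e⟩ =>
    (show k = g from Subtype.ext e) ▸ hk
  refine ⟨fun b hb => c.nsq t hb, E, hE, (quasi_of_ma _ cenE (fun g hg => c3 g ?_) (c3 ⟨_, zK⟩ c1) zE).1,
    c2 1, e.toMonoidHom.comp (QuotientGroup.mk' _), e.surjective.comp (QuotientGroup.mk'_surjective _),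
    fun g => (map_eq_one_iff _ e.injective).trans (QuotientGroup.eq_one_iff _)⟩
  obtain ⟨c, e1⟩ := (hE _).1 (mem_subgroupOf.1 hg)
  rw [e1]
  exact c2 c

end RM
end

theorem m24_4 {a b c d a' b' c' d' : GolayPt} (h1 : [a, b, c, d].Nodup) (h2 : [a', b', c', d'].Nodup) :
    ∃ g ∈ M24, g a = a' ∧ g b = b' ∧ g c = c' ∧ g d = d' := by
  have k : ∀ l : List GolayPt, l.length = 4 → ∃ y, y ∉ l := fun l hl => by
    by_contra! e
    have := (List.toFinset_card_le l).trans' (Finset.card_le_card (s := Finset.univ) fun y _ =>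
      List.mem_toFinset.2 (e y))
    rw [hl] at this
    exact absurd this (by decide)
  obtain ⟨y, hy⟩ := k [a, b, c, d] rfl
  obtain ⟨y', hy'⟩ := k [a', b', c', d'] rfl
  obtain ⟨g, hg, e⟩ := five_trans ⟨_, List.nodup_iff_injective_get.1 (List.nodup_cons.2 ⟨hy, h1⟩)⟩
    ⟨_, List.nodup_iff_injective_get.1 (List.nodup_cons.2 ⟨hy', h2⟩)⟩
  exact ⟨g, hg, e 1, e 2, e 3, e 4⟩

theorem ex_out (S : Finset GolayPt) (l : List GolayPt) (h : l.length < S.card) : ∃ y ∈ S, y ∉ l := by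
  by_contra! e
  exact absurd ((List.toFinset_card_le l).trans' (Finset.card_le_card fun y hy =>
    List.mem_toFinset.2 (e y hy))) (not_le.2 h)

theorem m24_fix {g : Equiv.Perm GolayPt} (hg : g ∈ M24) (e : g * g = 1) {p q : GolayPt} (h : p ≠ q)
    (h1 : g p = p) : ∃ y y', [p, q, y, y'].Nodup ∧ g y = y ∧ g y' = y' := by
  have : 4 ≤ (Finset.univ.filter fun p => g p = p).card := by
    by_cases e' : g = 1
    · simp [e']
    · have : Fact (Nat.Prime 2) := ⟨Nat.prime_two⟩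
      obtain ⟨-, k⟩ := (S5394.result.1 g hg (orderOf_eq_prime ((pow_two g).trans e) e')).resolve_right
        fun k => k p h1
      omega
  obtain ⟨y, y1, y2⟩ := ex_out _ [p, q] (by simp only [List.length]; omega : _ < (Finset.univ.filter fun p => g p = p).card)
  obtain ⟨y', y3, y4⟩ := ex_out _ [p, q, y] (by simp only [List.length]; omega : _ < (Finset.univ.filter fun p => g p = p).card)
  simp only [List.mem_cons, List.not_mem_nil, or_false, not_or, Finset.mem_filter, Finset.mem_univ, true_and] at *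
  exact ⟨y, y', by simp [h, Ne.symm y2.1, Ne.symm y2.2, Ne.symm y4.1, Ne.symm y4.2.1, Ne.symm y4.2.2], y1, y3⟩

theorem dw_of {c d p : GolayPt} (h : c ≠ d) (e : dw c d p ≠ 0) : ∃ s, p ≠ s ∧ dw c d = dw p s := by
  rcases dw_ne e with rfl | rfl
  exacts [⟨d, h, rfl⟩, ⟨c, h.symm, dw_comm ..⟩]

namespace GI
variable {G : Type*} [Group G] [Finite G] {J : Subgroup G} {D : G → Prop} {E : (GolayPt → ZMod 2) → G}
  (k : GI J D E) {a b : G} {p q r c d : GolayPt}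
include k

theorem sq2 (u : GolayPt → ZMod 2) : E u * E u = 1 := by rw [← k.add, add_self₂, k.zero]

theorem nd (h1 : ¬ D a) (h2 : a ≠ 1) (h3 : c ≠ d) (e : a * E (dw p q) = E (dw c d)) : dw c d p = 0 := by
  by_contra e'
  obtain ⟨s, -, e1⟩ := dw_of h3 e'
  have : a = E (dw s q) := by rw [← dw_add p, k.add, ← e1, ← e, mul_assoc, k.sq2, mul_one]
  by_cases h : s = q
  · exact h2 (by rw [this, h, dw_self, k.zero])
  · exact h1 ((k.du _ (this ▸ k.mem _)).2 ⟨s, q, h, this⟩)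

theorem tri (ha : a ∈ J) (hb : b ∈ J) (h1 : D a) (h2 : D b) (h3 : D (a * b)) :
    ∃ p q r, [p, q, r].Nodup ∧ a = E (dw p q) ∧ b = E (dw q r) := by
  obtain ⟨p, q, hp, rfl⟩ := (k.du _ ha).1 h1
  obtain ⟨c, d, hc, rfl⟩ := (k.du _ hb).1 h2
  obtain ⟨s, t, hs, e⟩ := (k.du _ (mul_mem ha hb)).1 h3
  have e1 := k.eq3 e
  have : ∀ p q r : GolayPt, p ≠ q → q ≠ r → dw p q + dw q r = dw s t → [p, q, r].Nodup := fun p q r h1 h2 e => by
    have : p ≠ r := fun e' => by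
      rw [e', dw_comm, add_self₂] at e
      exact zero_ne_one ((congrFun e s).trans (dw_left hs))
    simp [h1, h2, this]
  rcases dw_meet hp hc e1 with rfl | rfl | rfl | rfl
  · exact ⟨q, p, d, this _ _ _ hp.symm hc (by rwa [dw_comm q]), by rw [dw_comm], rfl⟩
  · exact ⟨q, p, c, this _ _ _ hp.symm hc.symm (by rwa [dw_comm q, dw_comm p c]), by rw [dw_comm], by rw [dw_comm]⟩
  · exact ⟨p, q, d, this _ _ _ hp hc e1, rfl, rfl⟩
  · exact ⟨p, q, c, this _ _ _ hp hc.symm (by rwa [dw_comm q c]), rfl, by rw [dw_comm]⟩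

theorem tet4 (h : [p, q, r].Nodup) (ha : a ∈ J) (h1 : ¬ D a) (h2 : a ≠ 1) (h3 : D (a * E (dw p q)))
    (h4 : D (a * E (dw q r))) : ∃ s, [p, q, r, s].Nodup ∧ a = E (dw r s) * E (dw p q) := by
  obtain ⟨c, d, hc, e⟩ := (k.du _ (mul_mem ha (k.mem _))).1 h3
  obtain ⟨c', d', hc', e'⟩ := (k.du _ (mul_mem ha (k.mem _))).1 h4
  have k1 := k.nd h1 h2 hc e
  have k2 := k.nd h1 h2 hc (dw_comm p q ▸ e)
  have k3 := k.nd h1 h2 hc' (dw_comm q r ▸ e')
  simp only [List.nodup_cons, List.mem_cons, List.not_mem_nil, or_false, not_or] at h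
  have k4 : dw c d + dw c' d' = dw r p := k.eq3 (by
    obtain ⟨u, -, rfl⟩ := k.sur a ha
    rw [← e, ← e', ← k.add, ← k.add, ← k.add, add_add_add_comm, add_self₂, zero_add, dw_comm p, dw_add, dw_comm])
  obtain ⟨s, hs, e1⟩ := dw_of (p := r) hc (by
    have := congrFun k4 r
    rw [Pi.add_apply, k3, add_zero, dw_left (Ne.symm h.1.2)] at this
    exact this ▸ one_ne_zero)
  refine ⟨s, ?_, by rw [← e1, ← e, mul_assoc, k.sq2, mul_one]⟩
  have : ∀ y, dw c d y = 0 → y ≠ s := fun y e2 e3 => by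
    rw [e1, e3, dw_comm, dw_left hs.symm] at e2
    exact one_ne_zero e2
  simp [h.1.1, h.1.2, h.2.1, hs, this p k1, this q k2]

end GI

end Cfsg.Agent.LF
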