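import Cfsg.Agent.Fischer.NE
import Cfsg.Agent.Fischer.JM
import Cfsg.Agent.Fischer.QD
import Cfsg.Agent.Comp.Fi22.Out
import Cfsg.Agent.Fischer.PX
import Cfsg.Agent.Fischer.PY

/-! The centraliser of a non-central involution of the extraspecial group. -/

set_option autoImplicit false
set_option linter.unusedSectionVars false
set_option linter.unusedVariables false
set_option synthInstance.maxSize 2048

namespace Cfsg.Agent.LF
open Subgroup Module Cfsg.Agent.Comp Cfsg.Agent.FiC Cfsg.Agent.Herm Cfsg.Agent.Fischer.U6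
  Cfsg.Agent.Fischer Cfsg.Agent.LocalEven Cfsg.Agent.Golay

variable {G : Type*} [Group G] [Finite G]

/-- the double cover of the Fischer group in the centraliser -/
def Res (t : G) : Prop := ∃ C : Subgroup G, C ≤ centralizer {t} ∧ C.relIndex (centralizer {t}) = 2 ∧
  t ∈ C ∧ t ∈ ⁅C, C⁆ ∧ centralizer (C : Set G) ≤ C ∧
    ∃ π : C →* Spor.Fi22, Function.Surjective π ∧ ∀ g, π g = 1 ↔ g.1 ∈ zpowers t

theorem Res.conj {t : G} (h : Res t) (g : G) : Res (g * t * g⁻¹) := by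
  obtain ⟨C, h1, h2, h3, h4, h5, π, h6, h7⟩ := h
  let e := MulAut.conj g
  have e1 : (centralizer {t}).map e.toMonoidHom = centralizer {g * t * g⁻¹} := by
    ext y
    rw [mem_map_equiv, mem_centralizer_singleton_iff, mem_centralizer_singleton_iff, ← e.injective.eq_iff,
      map_mul, map_mul, MulEquiv.apply_symm_apply]
    rfl
  refine ⟨C.map e.toMonoidHom, e1 ▸ map_mono h1, by
    rw [← e1, relIndex_map_map_of_injective _ _ e.injective, h2], ⟨t, h3, rfl⟩, by
    rw [← map_commutator]; exact ⟨t, h4, rfl⟩, fun y hy => mem_map_equiv.2 (h5 fun c hc => e.injective (by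
      rw [map_mul, map_mul, MulEquiv.apply_symm_apply]; exact hy _ ⟨c, hc, rfl⟩)),
    π.comp (e.subgroupMap C).symm.toMonoidHom, h6.comp (e.subgroupMap C).symm.surjective, fun y => ?_⟩
  refine (h7 _).trans ?_
  rw [show g * t * g⁻¹ = e.toMonoidHom t from rfl, ← MonoidHom.map_zpowers, mem_map_equiv]
  rfl

theorem res_of {J K : Subgroup G} {D : G → Prop} {E : (GolayPt → ZMod 2) → G} (k : GI J D E) (w : WC 2 J)
    (Θ : normalizer (J : Set G) →* Equiv.Perm GolayPt) (h1 : Θ.range = M24)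
    (h2 : ∀ g p q, g.1 * E (dw p q) * g.1⁻¹ = E (dw (Θ g p) (Θ g q))) (h3 : ∀ g, Θ g = 1 ↔ g.1 ∈ J)
    {p q r s : GolayPt} (nd : [p, q, r, s].Nodup)
    (hK : ∀ g, g ∈ K ↔ Commute g (E (dw p q)) ∧ Commute g (E (dw q r))) (hp : Group.IsPerfect K)
    (hc : E (dw p q) ∈ ⁅K, K⁆) (π : K →* PSU 6 K4 2) (hπ : Function.Surjective π)
    (hk : ∀ g, π g = 1 ↔ g.1 ∈ closure ({E (dw p q), E (dw q r)} : Set G))
    (nsq : ∀ v ∈ K, Commute v (E (dw r s)) → v * v ≠ E (dw p q))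
    (u : normalizer (J : Set G)) (hu : u.1 * u.1 = E (dw p q)) {y : GolayPt} (hy : Θ u y = y) :
    Res (E (dw p q)) := by
  have nd' := nd
  simp only [List.nodup_cons, List.mem_cons, List.not_mem_nil, or_false, not_or] at nd'
  have pq : p ≠ q := nd'.1.1
  have cJ : ∀ u v, Commute (E u) (E v) := fun u v => show _ = _ by rw [← k.add, ← k.add, add_comm]
  have n1 : ∀ {a b}, a ≠ b → E (dw a b) ≠ 1 := fun {a b} h e => by
    have := congrFun (k.eq2 (c := a) (d := a) (e.trans (by rw [dw_self, k.zero]))) a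
    rw [dw_left h, dw_self] at this
    exact one_ne_zero this
  have cf : ∀ (n : normalizer (J : Set G)) {a b}, Θ n a = a → Θ n b = b → Commute n.1 (E (dw a b)) :=
    fun n a b e e' => Inv.commute_iff_conj.2 (by rw [h2, e, e'])
  have lift : ∀ {a b c d a' b' c' d'}, [a, b, c, d].Nodup → [a', b', c', d'].Nodup →
      ∃ n, Θ n a = a' ∧ Θ n b = b' ∧ Θ n c = c' ∧ Θ n d = d' := fun e e' => by
    obtain ⟨g, hg, e⟩ := m24_4 e e'
    obtain ⟨n, rfl⟩ := h1.ge hg
    exact ⟨n, e⟩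
  have cjf : ∀ (n v : normalizer (J : Set G)) {a b a' b'}, Θ n a = a' → Θ n b = b' → Θ v a = b →
      Θ (n * v * n⁻¹) a' = b' := fun n v a b a' b' e1 e2 e3 => by
    rw [← e1, map_mul, map_mul, map_inv]
    simp [e2, e3]
  have sw : ∀ n : normalizer (J : Set G), Commute n.1 (E (dw p q)) →
      Θ n p = p ∧ Θ n q = q ∨ Θ n p = q ∧ Θ n q = p := fun n e =>
    Set.pair_eq_pair_iff.1 ((dw_pair pq).1 (k.eq2 ((h2 n p q).symm.trans e.mul_inv_cancel)))
  have ns : ∀ v : normalizer (J : Set G), Θ v p = p → Θ v q = q → v.1 * v.1 ≠ E (dw p q) := fun v e1 e2 e => by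
    obtain ⟨y, y', n2, e3, e4⟩ := m24_fix (h1.le ⟨v, rfl⟩) (by
      rw [← map_mul, h3, coe_mul, e]; exact k.mem _) pq e1
    obtain ⟨n, g1, g2, g3, g4⟩ := lift n2 nd
    refine nsq (n * v * n⁻¹ : normalizer _) ((hK _).2 ⟨cf _ (cjf n v g1 g1 e1) (cjf n v g2 g2 e2),
      cf _ (cjf n v g2 g2 e2) (cjf n v g3 g3 e3)⟩) (cf _ (cjf n v g3 g3 e3) (cjf n v g4 g4 e4)) ?_
    rw [coe_mul, coe_mul, coe_inv, conj_mul, e, h2, g1, g2]
  have uc : Commute u.1 (E (dw p q)) := hu ▸ (Commute.refl _).mul_right (Commute.refl _)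
  obtain ⟨u1, u2⟩ := (sw u uc).resolve_left fun e => ns u e.1 e.2 hu
  have yp : y ≠ p := fun e => pq (by rw [← u1, ← e, hy])
  have yq : y ≠ q := fun e => pq (by rw [← u2, ← e, hy])
  obtain ⟨y', -, hy'⟩ := ex_out Finset.univ [p, q, y] (by simp)
  obtain ⟨n, g1, g2, g3, -⟩ := lift (a := p) (b := q) (c := y) (d := y') (by
    simp only [List.mem_cons, List.not_mem_nil, or_false, not_or] at hy'
    simp [pq, yp.symm, yq.symm, Ne.symm hy'.1, Ne.symm hy'.2.1, Ne.symm hy'.2.2]) nd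
  have JC : J ≤ centralizer {E (dw p q)} := fun a ha => by
    obtain ⟨v, -, rfl⟩ := k.sur a ha
    exact mem_centralizer_singleton_iff.2 (cJ _ _)
  obtain ⟨T, hT⟩ := (w.pgrp.comap_subtype (K := centralizer {E (dw p q)})).exists_le_sylow
  have TN := (w.subgroupOf JC).le_norm T.isPGroup' hT
  have TN' : ∀ a : centralizer {E (dw p q)}, a ∈ (T : Subgroup _) → a.1 ∈ normalizer (J : Set G) := fun a ha => by
    have := le_normalizer_map (centralizer {E (dw p q)}).subtype ⟨a, TN ha, rfl⟩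
    rwa [subgroupOf_map_subtype, inf_of_le_left JC] at this
  let U : normalizer (J : Set G) := n * u * n⁻¹
  have U0 : U.1 * U.1 = E (dw p q) := by
    simp only [U]
    rw [coe_mul, coe_mul, coe_inv, conj_mul, hu, h2, g1, g2]
  have UC : U.1 ∈ centralizer {E (dw p q)} := mem_centralizer_singleton_iff.2
    (U0 ▸ (Commute.refl _).mul_right (Commute.refl _))
  let S := ((MulAction.stabilizer (Equiv.Perm GolayPt) p).comap Θ).map (normalizer (J : Set G)).subtype
  have mS : ∀ a : normalizer (J : Set G), a.1 ∈ S ↔ Θ a p = p := fun a =>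
    ⟨fun ⟨b, hb, e⟩ => (show b = a from Subtype.ext e) ▸ hb, fun e => ⟨a, e, rfl⟩⟩
  obtain ⟨C1, c1, c2, c3⟩ := idx2 (t := ⟨E (dw p q), JC (k.mem _)⟩) (u := ⟨U, UC⟩)
    (fun g => Subtype.ext (mem_centralizer_singleton_iff.1 g.2)) (Subtype.ext (k.sq2 _)) (Subtype.ext U0) T
    ((T : Subgroup _) ⊓ S.subgroupOf _) inf_le_left (fun a ha b hb a1 b1 => ⟨mul_mem ha hb, by
      have a2 := (sw ⟨a, TN' a ha⟩ (mem_centralizer_singleton_iff.1 a.2)).resolve_left fun e =>
        a1 ⟨ha, (mS ⟨a, TN' a ha⟩).2 e.1⟩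
      have b2 := (sw ⟨b, TN' b hb⟩ (mem_centralizer_singleton_iff.1 b.2)).resolve_left fun e =>
        b1 ⟨hb, (mS ⟨b, TN' b hb⟩).2 e.1⟩
      exact (mS (⟨a, TN' a ha⟩ * ⟨b, TN' b hb⟩)).2 (by
        rw [map_mul, Equiv.Perm.mul_apply]; exact (congrArg _ b2.1).trans a2.2)⟩)
    ⟨hT (k.mem _), (mS ⟨_, le_normalizer (k.mem _)⟩).2 (by rw [(h3 _).2 (k.mem _)]; rfl)⟩ fun v hv e => by
      have v1 := (mS ⟨v, TN' v hv.1⟩).1 hv.2
      exact ns ⟨v, TN' v hv.1⟩ v1 (((sw _ (mem_centralizer_singleton_iff.1 v.2)).resolve_right fun e =>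
        pq (v1.symm.trans e.1)).2) (congrArg Subtype.val e)
  let C := C1.map (centralizer {E (dw p q)}).subtype
  have mC : ∀ a : centralizer {E (dw p q)}, a.1 ∈ C ↔ a ∈ C1 := fun a =>
    ⟨fun ⟨b, hb, e⟩ => (show b = a from Subtype.ext e) ▸ hb, fun e => ⟨a, e, rfl⟩⟩
  have C2 : C.relIndex (centralizer {E (dw p q)}) = 2 := by
    rw [relIndex, show C.subgroupOf _ = C1 from Subgroup.ext mC, c1]
  have CC : C ≤ centralizer {E (dw p q)} := map_subtype_le _
  have nz : ((zpowers (E (dw p q))).subgroupOf C).Normal := ⟨fun a ha g => by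
    obtain ⟨i, hi⟩ := ha
    refine ⟨i, hi.trans ?_⟩
    rw [coe_subtype, coe_mul, coe_mul, coe_inv, show a.1 = _ from hi.symm]
    exact ((show Commute g.1 _ from mem_centralizer_singleton_iff.1 (CC g.2)).zpow_right i).mul_inv_cancel.symm⟩
  have o2 : ∀ {a b}, a ≠ b → orderOf (E (dw a b)) = 2 := fun h =>
    orderOf_eq_prime ((pow_two _).trans (k.sq2 _)) (n1 h)
  have := S0283.result (F := K4) (q := 2) card_K4 6 (by norm_num) (by norm_num)
  obtain ⟨KC, hs, d1, d2, _, ⟨e⟩⟩ := cen22 (o2 pq) (o2 nd'.2.1.1) (fun e => by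
      have := congrFun (k.eq2 e) r
      simp [dw, Ne.symm nd'.1.2.1, Ne.symm nd'.2.1.1] at this) (cJ _ _) hK hp _ π hπ hk CC C2 UC
    (mt (mC ⟨U, UC⟩).1 c3) (by
      rw [h2, cjf n u g2 g1 u2, cjf n u g3 g3 hy, ← k.add, dw_comm p q, dw_add, dw_comm])
  have JK : J ≤ K := fun a ha => by
    obtain ⟨v, -, rfl⟩ := k.sur a ha
    exact (hK _).2 ⟨cJ _ _, cJ _ _⟩
  obtain ⟨s', -, hs'⟩ := ex_out Finset.univ [p, q, r, s] (by simp)
  simp only [List.mem_cons, List.not_mem_nil, or_false, not_or] at hs'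
  obtain ⟨m, m1, m2, m3, m4⟩ := lift (a' := p) (b' := q) (c' := s) (d' := s') nd (by
    simp [pq, nd'.1.2.2, nd'.2.1.2, Ne.symm hs'.1, Ne.symm hs'.2.1, Ne.symm hs'.2.2.2])
  have mm : (m * m).1 ∈ C := (mC (⟨m, mem_centralizer_singleton_iff.2 (cf m m1 m2)⟩ *
    ⟨m, mem_centralizer_singleton_iff.2 (cf m m1 m2)⟩)).2 (mul_self_mem_of_index_two c1 _)
  have e2 : (⟨_, mm⟩ : C) * ⟨_, hs⟩ * ⟨_, mm⟩⁻¹ = ⟨E (dw q s'), KC (JK (k.mem _))⟩ := Subtype.ext (by
    have := h2 (m * m) q r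
    rwa [map_mul, Equiv.Perm.mul_apply, Equiv.Perm.mul_apply, m2, m2, m3, m4] at this)
  obtain ⟨f, -⟩ := F22.main d1 d2 card_K4 e ⟨QuotientGroup.mk ⟨_, mm⟩, by
    rw [← QuotientGroup.mk_inv, ← QuotientGroup.mk_mul, ← QuotientGroup.mk_mul, e2]
    refine ⟨mem_centralizer_singleton_iff.2 (congrArg QuotientGroup.mk (Subtype.ext (cJ _ _))), fun e => ?_⟩
    have e3 : E (dw s' r) ∈ zpowers (E (dw p q)) := by
      have := mem_subgroupOf.1 (QuotientGroup.eq.1 e)
      rwa [coe_mul, coe_inv, inv_eq_of_mul_eq_one_right (k.sq2 _), ← k.add, dw_add] at this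
    rcases py_z (o2 pq) e3 with e3 | e3
    · exact n1 hs'.2.2.1 e3
    · have := congrFun (k.eq2 e3) r
      simp [dw, Ne.symm nd'.1.2.1, Ne.symm nd'.2.1.1, Ne.symm hs'.2.2.1] at this⟩
  refine ⟨C, CC, C2, KC (JK (k.mem _)), commutator_mono KC KC hc, fun g hg => KC (JK ((h3 ⟨g,
    centralizer_le_normalizer _ fun a ha => hg a (KC (JK ha))⟩).1 ?_)),
    f.symm.toMonoidHom.comp (QuotientGroup.mk' _), f.symm.surjective.comp (QuotientGroup.mk'_surjective _),
    fun g => (map_eq_one_iff _ f.symm.injective).trans (QuotientGroup.eq_one_iff _)⟩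
  refine dw_uniq fun a b => k.eq2 ((h2 _ a b).symm.trans ?_)
  exact (show Commute g _ from (hg _ (KC (JK (k.mem _)))).symm).mul_inv_cancel

theorem res_t {z : G} {Q : Subgroup (centralizer ({z} : Set G))} [Q.Normal]
    (hF : IsOfLargeFischerTypeAt z Q) {t : centralizer ({z} : Set G)} (h0 : t ∈ Q) (ht2 : orderOf t.1 = 2)
    (ht : ¬ IsConj z t) : Res t.1 := by
  obtain ⟨T, N, M, L, V, _, _, _, B, χ, φ, h, A, w, x, R, r, F, hL, hJ⟩ := exists_setup_ma hF
  obtain ⟨-, -, E, k, Θ, h1, h2, h3⟩ := exists_m24 hF T hJ.symm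
  have wc : WC 2 (A.map (centralizer ({z} : Set G)).subtype) := hJ ▸ wc_of_sylow (isSylowIn_top T)
    (Transfer.thompsonSubgroupOf_le _) fun g => Transfer.conj_smul_thompsonSubgroupOf_eq_of_le
  obtain ⟨nsq, E4, hE, hp, hc, π, hπ, hk⟩ := r.four2 F hL
    (fun g e => ⟨⟨g, mem_centralizer_singleton_iff.2 e⟩, rfl⟩) fun a ha T => r.trT F k Θ h1 h2 ha T
  have d : ∀ {a}, Dl (centralizer ({z} : Set G)).subtype (zz z) a → a.1 ≠ 1 ∧ ¬ IsConj z a.1 := fun e =>
    ⟨fun e' => e.1 (Subtype.ext e'), e.2⟩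
  have mJ : ∀ {a}, a ∈ A → a.1 ∈ A.map (centralizer ({z} : Set G)).subtype := fun ha => ⟨_, ha, rfl⟩
  have ad : R ((1 : K4) • hcv 0, 0) * R (w4 • hcv 0, 0) = R ((1 + w4) • hcv 0, 0) := (r.ad0 _ _).symm
  obtain ⟨p, q, s, nd, e1, e2⟩ := k.tri (mJ (r.mA ((1 : K4) • hcv 0, 0))) (mJ (r.mA (w4 • hcv 0, 0)))
    (d ((r.dr F _).2 (by decide))) (d ((r.dr F _).2 (by decide)))
    (by rw [← coe_mul, ad]; exact d ((r.dr F _).2 (by decide)))
  have Z := r.zT F
  obtain ⟨y, n1, e3⟩ := k.tet4 nd (mJ r.zA) (fun e => e.2 (IsConj.refl _)) (fun e => h.l.ne (Subtype.ext e))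
    (e1 ▸ d (Z.2 1 one_ne_zero)) (e2 ▸ d (Z.2 w4 (by decide)))
  have c4 : ∀ g : G, Commute g (E (dw p q)) → Commute g (E (dw q s)) → ∀ c : K4,
      Commute g (R (c • hcv 0, 0)).1 := fun g c1 c2 c => by
    rcases (by decide : ∀ c : K4, c = 0 ∨ c = 1 ∨ c = w4 ∨ c = 1 + w4) c with rfl | rfl | rfl | rfl
    · rw [r.z0]; exact Commute.one_right _
    · exact e1 ▸ c1
    · exact e2 ▸ c2
    · rw [← ad, coe_mul, e1, e2]; exact c1.mul_right c2
  have hK : ∀ g, g ∈ centralizer (E4 : Set G) ↔ Commute g (E (dw p q)) ∧ Commute g (E (dw q s)) := fun g =>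
    ⟨fun e => ⟨(e _ ((hE _).2 ⟨1, e1.symm⟩)).symm, (e _ ((hE _).2 ⟨w4, e2.symm⟩)).symm⟩, fun e a ha => by
      obtain ⟨c, rfl⟩ := (hE a).1 ha
      exact (c4 g e.1 e.2 c).symm⟩
  obtain ⟨u, hu, a, ha, a1, u1, u2⟩ := r.ex_u F
  let U : normalizer (A.map (centralizer ({z} : Set G)).subtype : Set G) :=
    ⟨u, le_normalizer_map _ ⟨u, hu, rfl⟩⟩
  have U1 : U.1 * U.1 = E (dw p q) := (congrArg Subtype.val u1).trans e1
  obtain ⟨y', hy'⟩ : ∃ y', Θ U y' = y' := by
    obtain ⟨c, c', hc, e4⟩ := (k.du _ (mJ ha)).1 (d a1)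
    obtain ⟨b, b', hb, e5⟩ := (k.du _ (mJ (r.mA ((1 : K4) • hcv 0, 1)))).1 (d ((r.dr F _).2 (by decide)))
    have e6 := h2 U c c'
    rw [← e4, show U.1 * a.1 * U.1⁻¹ = _ from congrArg Subtype.val u2, coe_mul, e4, e5] at e6
    have e7 := k.eq3 (a := c) (b := c') (c := Θ U c) (d := Θ U c') (e := b) (f := b') (by
      rw [← e6, ← mul_assoc, k.sq2, one_mul])
    have e8 : ∀ y, Θ U (Θ U y) = y := fun y => by
      rw [← Equiv.Perm.mul_apply, ← map_mul, (h3 _).2 (by rw [coe_mul, U1]; exact k.mem _)]; rfl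
    have e9 : Θ U c ≠ c' := fun e => by
      rw [← e, e8, dw_comm, add_self₂] at e7
      exact zero_ne_one ((congrFun e7 b).trans (dw_left hb))
    rcases dw_meet hc ((Θ U).injective.ne hc) e7 with e | e | e | e
    exacts [⟨_, e.symm⟩, absurd (by rw [e, e8]) e9, absurd e.symm e9, ⟨_, e.symm⟩]
  have R0 := res_of k wc Θ h1 h2 h3 n1 hK hp (by
    rw [← e1, _root_.commutator_def, map_commutator, ← MonoidHom.range_eq_map, range_subtype] at *; exact hc)
    π hπ (fun g => (hk g).trans (SetLike.ext_iff.1 (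
      show E4 = closure {E (dw p q), E (dw q s)} from le_antisymm (fun a ha => by
        obtain ⟨c, rfl⟩ := (hE a).1 ha
        have m1 : E (dw p q) ∈ closure ({E (dw p q), E (dw q s)} : Set G) := subset_closure (.inl rfl)
        have m2 : E (dw q s) ∈ closure ({E (dw p q), E (dw q s)} : Set G) := subset_closure (.inr rfl)
        rcases (by decide : ∀ c : K4, c = 0 ∨ c = 1 ∨ c = w4 ∨ c = 1 + w4) c with rfl | rfl | rfl | rfl
        · rw [r.z0]; exact one_mem _
        · exact e1 ▸ m1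
        · exact e2 ▸ m2
        · rw [← ad, map_mul]; exact mul_mem (e1 ▸ m1) (e2 ▸ m2)) ((closure_le _).2 (by
          rintro _ (rfl | rfl)
          exacts [(hE _).2 ⟨1, e1.symm⟩, (hE _).2 ⟨w4, e2.symm⟩]))) _))
    (fun v hv c e => nsq ⟨v, mem_centralizer_singleton_iff.2 (show Commute v z from
      (show z = _ from e3) ▸ c.mul_right ((hK v).1 hv).1)⟩ (mem_K0.2 fun c' => Subtype.ext
        (c4 v ((hK v).1 hv).1 ((hK v).1 hv).2 c')) (Subtype.ext (e.trans e1.symm))) U U1 hy'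
  have iv : Iv Q (zz z) t := iv_of h0 (by rw [← ht2]; exact (orderOf_coe _).symm) fun e => ht (by rw [e])
  obtain ⟨m, -, rfl⟩ := h.mconj r.iv0 iv (iff_of_false (mt (F.zp _ r.iv0).2
    ((r.dr F _).2 (by decide)).2) (mt (F.zp _ iv).2 ht))
  exact (e1 ▸ R0).conj m.1

theorem Res.fin {t : G} (h : Res t) (ht : orderOf t = 2) (K : Subgroup (centralizer ({t} : Set G)))
    (hK : K = generalizedFittingSubgroup (centralizer ({t} : Set G)))
    [((zpowers t).subgroupOf (centralizer ({t} : Set G))).Normal] : IsQuasisimple K ∧ K.index = 2 ∧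
      (∃ htc : t ∈ centralizer ({t} : Set G), (⟨t, htc⟩ : centralizer ({t} : Set G)) ∈ K) ∧
      Nonempty (centralizer ({t} : Set G) ⧸ (zpowers t).subgroupOf (centralizer ({t} : Set G)) ≃*
        MulAut Spor.Fi22) := by
  obtain ⟨C, h1, h2, h3, h4, h5, π, h6, h7⟩ := h
  have := normal_of_index_eq_two h2
  have := Fi22.simple
  have hz : center Spor.Fi22 = ⊥ := Fischer.F22.pm.center
  have k1 : π.ker ≤ center C := fun a ha => mem_center_iff.2 fun g => Subtype.ext (by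
    obtain ⟨i, hi⟩ := (h7 a).1 ha
    rw [coe_mul, coe_mul, ← hi]
    exact (show Commute g.1 t from mem_centralizer_singleton_iff.1 (h1 g.2)).zpow_right i)
  have k2 : center C = π.ker := le_antisymm (fun a ha => hz.le (mem_center_iff.2 fun b => by
    obtain ⟨b, rfl⟩ := h6 b
    rw [← map_mul, ← map_mul, mem_center_iff.1 ha b])) k1
  have k3 : π.ker ≤ _root_.commutator C := fun a ha => by
    have : a.1 ∈ (_root_.commutator C).map C.subtype := by
      rw [_root_.commutator_def, map_commutator, ← MonoidHom.range_eq_map, range_subtype]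
      exact (zpowers_le.2 h4) ((h7 a).1 ha)
    obtain ⟨b, hb, e⟩ := this
    exact (show b = a from Subtype.ext e) ▸ hb
  have hp : Group.IsPerfect C := ⟨by
    have h8 : (_root_.commutator C).map π = ⊤ := by
      rw [_root_.commutator_def, map_commutator, map_top_of_surjective _ h6]
      exact (Normal.eq_bot_or_eq_top inferInstance).resolve_left fun e => by
        rw [commutator_eq_bot_iff_le_centralizer, coe_top, centralizer_univ, hz] at e
        exact top_ne_bot (le_bot_iff.1 e)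
    refine eq_top_iff.2 fun g _ => ?_
    obtain ⟨b, hb, e⟩ := h8.ge (mem_top (π g))
    exact (mul_mem_cancel_left (inv_mem hb)).1 (k3 (by rw [MonoidHom.mem_ker, map_mul, map_inv, e, inv_mul_cancel]))⟩
  let q' := (QuotientGroup.quotientMulEquivOfEq k2).trans (QuotientGroup.quotientKerEquivOfSurjective π h6)
  have hq : IsQuasisimple C := ⟨hp, q'.isSimpleGroup⟩
  have hce : centralizer {t} ⊓ centralizer (C : Set G) ≤ C := inf_le_right.trans h5
  have e : K = C.subgroupOf _ := by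
    rw [hK, ← fstar_qs h1 hq hce, subgroupOf, comap_map_eq_self_of_injective (subtype_injective _)]
  have hZ : (center C).map C.subtype = zpowers t := by
    rw [k2]
    exact le_antisymm (by rintro _ ⟨a, ha, rfl⟩; exact (h7 a).1 ha) fun a ha =>
      ⟨⟨a, zpowers_le.2 h3 ha⟩, (h7 _).2 ha, rfl⟩
  subst e
  refine ⟨(Comp2.quasisimple_subgroupOf_iff h1).2 hq, h2, ⟨h1 h3, h3⟩, quot_aut h1 hp hce hZ q' ?_⟩
  have := Fi22.card.1
  have c1 := (C.subgroupOf (centralizer {t})).card_mul_index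
  have c2 := (center C).card_mul_index
  rw [show (C.subgroupOf (centralizer {t})).index = 2 from h2, Nat.card_congr (subgroupOfEquivOfLe h1).toEquiv] at c1
  rw [index_eq_card, Nat.card_congr q'.toEquiv, ← card_map_of_injective (subtype_injective C), hZ] at c2
  rw [← c1, ← c2, card_aut_eq Fischer.F22.pm.center, Fi22.out]
  exact le_of_eq (by ring)

end Cfsg.Agent.LF
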