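import Cfsg.Agent.Fischer.NF
import Cfsg.Agent.Fischer.PT

/-! Outer automorphisms of groups of large Fischer type. -/

set_option autoImplicit false
set_option linter.unusedSectionVars false
set_option linter.unusedVariables false
set_option synthInstance.maxSize 2048

namespace Cfsg.Agent.LF
open Subgroup Module Cfsg.Agent.Comp Cfsg.Agent.FiC Cfsg.Agent.Herm Cfsg.Agent.Fischer.U6
  Cfsg.Agent.Fischer Cfsg.Agent.LocalEven Cfsg.Agent.Golay

variable {G : Type*} [Group G] [Finite G]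

/-- the data at an involution -/
def Res2 (t : G) (C : Subgroup G) (n : G) (N : Subgroup G) : Prop :=
  C ≤ centralizer {t} ∧ C.relIndex (centralizer {t}) = 2 ∧ t ∈ C ∧ t ∈ ⁅C, C⁆ ∧ centralizer (C : Set G) ≤ C ∧
    (∃ π : C →* Spor.Fi22, Function.Surjective π ∧ ∀ g, π g = 1 ↔ g.1 ∈ zpowers t) ∧
    (∃ _ : ((zpowers t).subgroupOf C).Normal, MT22 (C ⧸ (zpowers t).subgroupOf C)) ∧
    (n * t * n⁻¹ ∈ centralizer {t} ∧ n * t * n⁻¹ ≠ t) ∧
    (∀ α : G ≃* G, (∀ c ∈ C, α c = c) → α n = n ∨ t * α n * t⁻¹ = n) ∧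
    ∀ S : Subgroup G, centralizer {t} ≤ S → n ∈ S → N ≤ S

theorem RM.cenR {H : Type*} [Group H] [Finite H] {Q N M L A : Subgroup H} {z a x : H}
    {V : Type*} [AddCommGroup V] [Module K4 V] [FiniteDimensional K4 V]
    {B : V →ₛₗ[s4] V →ₗ[K4] K4} {χ : H → V} {φ : L →* SUG B} {w : V × V × V}
    {h : FT Q N M L z B χ φ} {R : C3 × ZMod 2 → H} (r : RM h A w x R) (ha : a ∈ Q)
    (e : ∀ s, Commute a (R s)) : a ∈ A := by
  have h1 : lam3 B w (χ a) = 0 := (by decide +kernel : ∀ l : C3, (∀ c, (bp c l).im = 0) → l = 0) _ fun c => by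
    have := r.cq ha (c, 0)
    rw [(e _).mul_inv_cancel, zero_add] at this
    have := r.eq_zero (s := (c, 0) + (c, (bp c (lam3 B w (χ a))).im)) (by rw [r.add, ← this, r.sq _ (r.mA _)])
    simpa using congrArg Prod.snd this
  obtain ⟨jj, o⟩ := r.exists_co
  obtain ⟨c, v, e1⟩ := o.sp (χ a) (congrArg Prod.fst h1)
  rw [e1, map_add, ← L3_h0, r.iso, zero_add, o.lam] at h1
  refine (r.AQ a ha).2 ⟨(c, v.1, v.2.1), ?_⟩
  rw [e1, c4_eta (congrArg Prod.snd h1), o.jw]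
  simp only [L3_apply]
  module

theorem res_q {t : G} {C : Subgroup G} (h1 : C ≤ centralizer {t}) (h4 : t ∈ ⁅C, C⁆) (π : C →* Spor.Fi22)
    (h6 : Function.Surjective π) (h7 : ∀ g, π g = 1 ↔ g.1 ∈ zpowers t) : IsQuasisimple C := by
  have := Fi22.simple
  have hz : center Spor.Fi22 = ⊥ := Fischer.F22.pm.center
  have k1 : π.ker ≤ center C := fun a ha => mem_center_iff.2 fun g => Subtype.ext (by
    obtain ⟨i, hi⟩ := (h7 a).1 ha
    rw [coe_mul, coe_mul, ← hi]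
    exact (show Commute g.1 t from mem_centralizer_singleton_iff.1 (h1 g.2)).zpow_right i)
  have k2 : center C = π.ker := le_antisymm (fun a ha => hz.le (mem_center_iff.2 fun b => by
    obtain ⟨b, rfl⟩ := h6 b
    rw [← map_mul, ← map_mul, mem_center_iff.1 ha b])) k1
  have k3 : π.ker ≤ _root_.commutator C := fun a ha => by
    have : a.1 ∈ (_root_.commutator C).map C.subtype := by
      rw [_root_.commutator_def, map_commutator, ← MonoidHom.range_eq_map, range_subtype]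
      exact (zpowers_le.2 h4) ((h7 a).1 ha)
    obtain ⟨b, hb, e⟩ := this
    exact (show b = a from Subtype.ext e) ▸ hb
  have hp : Group.IsPerfect C := ⟨by
    have h8 : (_root_.commutator C).map π = ⊤ := by
      rw [_root_.commutator_def, map_commutator, map_top_of_surjective _ h6]
      exact (Normal.eq_bot_or_eq_top inferInstance).resolve_left fun e => by
        rw [commutator_eq_bot_iff_le_centralizer, coe_top, centralizer_univ, hz] at e
        exact top_ne_bot (le_bot_iff.1 e)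
    refine eq_top_iff.2 fun g _ => ?_
    obtain ⟨b, hb, e⟩ := h8.ge (mem_top (π g))
    exact (mul_mem_cancel_left (inv_mem hb)).1 (k3 (by rw [MonoidHom.mem_ker, map_mul, map_inv, e, inv_mul_cancel]))⟩
  let q' := (QuotientGroup.quotientMulEquivOfEq k2).trans (QuotientGroup.quotientKerEquivOfSurjective π h6)
  exact ⟨hp, q'.isSimpleGroup⟩

theorem res_of2 {J K : Subgroup G} {D : G → Prop} {E : (GolayPt → ZMod 2) → G} (k : GI J D E) (w : WC 2 J)
    (Θ : normalizer (J : Set G) →* Equiv.Perm GolayPt) (h1 : Θ.range = M24)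
    (h2 : ∀ g p q, g.1 * E (dw p q) * g.1⁻¹ = E (dw (Θ g p) (Θ g q))) (h3 : ∀ g, Θ g = 1 ↔ g.1 ∈ J)
    {p q r s : GolayPt} (nd : [p, q, r, s].Nodup)
    (hK : ∀ g, g ∈ K ↔ Commute g (E (dw p q)) ∧ Commute g (E (dw q r))) (hp : Group.IsPerfect K)
    (hc : E (dw p q) ∈ ⁅K, K⁆) (π : K →* PSU 6 K4 2) (hπ : Function.Surjective π)
    (hk : ∀ g, π g = 1 ↔ g.1 ∈ closure ({E (dw p q), E (dw q r)} : Set G))
    (hk' : ∀ g, π g = 1 → g.1 = 1 ∨ g.1 = E (dw p q) ∨ g.1 = E (dw q r) ∨ g.1 = E (dw p q) * E (dw q r))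
    (nsq : ∀ v ∈ K, Commute v (E (dw r s)) → v * v ≠ E (dw p q))
    (u : normalizer (J : Set G)) (hu : u.1 * u.1 = E (dw p q)) {y : GolayPt} (hy : Θ u y = y) :
    ∃ C n, J ≤ C ∧ Res2 (E (dw p q)) C n (normalizer (J : Set G)) := by
  have nd' := nd
  simp only [List.nodup_cons, List.mem_cons, List.not_mem_nil, or_false, not_or] at nd'
  have pq : p ≠ q := nd'.1.1
  have cJ : ∀ u v, Commute (E u) (E v) := fun u v => show _ = _ by rw [← k.add, ← k.add, add_comm]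
  have n1 : ∀ {a b}, a ≠ b → E (dw a b) ≠ 1 := fun {a b} h e => by
    have := congrFun (k.eq2 (c := a) (d := a) (e.trans (by rw [dw_self, k.zero]))) a
    rw [dw_left h, dw_self] at this
    exact one_ne_zero this
  have cf : ∀ (n : normalizer (J : Set G)) {a b}, Θ n a = a → Θ n b = b → Commute n.1 (E (dw a b)) :=
    fun n a b e e' => Inv.commute_iff_conj.2 (by rw [h2, e, e'])
  have lift : ∀ {a b c d a' b' c' d'}, [a, b, c, d].Nodup → [a', b', c', d'].Nodup →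
      ∃ n, Θ n a = a' ∧ Θ n b = b' ∧ Θ n c = c' ∧ Θ n d = d' := fun e e' => by
    obtain ⟨g, hg, e⟩ := m24_4 e e'
    obtain ⟨n, rfl⟩ := h1.ge hg
    exact ⟨n, e⟩
  have cjf : ∀ (n v : normalizer (J : Set G)) {a b a' b'}, Θ n a = a' → Θ n b = b' → Θ v a = b →
      Θ (n * v * n⁻¹) a' = b' := fun n v a b a' b' e1 e2 e3 => by
    rw [← e1, map_mul, map_mul, map_inv]
    simp [e2, e3]
  have sw : ∀ n : normalizer (J : Set G), Commute n.1 (E (dw p q)) →
      Θ n p = p ∧ Θ n q = q ∨ Θ n p = q ∧ Θ n q = p := fun n e =>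
    Set.pair_eq_pair_iff.1 ((dw_pair pq).1 (k.eq2 ((h2 n p q).symm.trans e.mul_inv_cancel)))
  have ns : ∀ v : normalizer (J : Set G), Θ v p = p → Θ v q = q → v.1 * v.1 ≠ E (dw p q) := fun v e1 e2 e => by
    obtain ⟨y, y', n2, e3, e4⟩ := m24_fix (h1.le ⟨v, rfl⟩) (by
      rw [← map_mul, h3, coe_mul, e]; exact k.mem _) pq e1
    obtain ⟨n, g1, g2, g3, g4⟩ := lift n2 nd
    refine nsq (n * v * n⁻¹ : normalizer _) ((hK _).2 ⟨cf _ (cjf n v g1 g1 e1) (cjf n v g2 g2 e2),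
      cf _ (cjf n v g2 g2 e2) (cjf n v g3 g3 e3)⟩) (cf _ (cjf n v g3 g3 e3) (cjf n v g4 g4 e4)) ?_
    rw [coe_mul, coe_mul, coe_inv, conj_mul, e, h2, g1, g2]
  have uc : Commute u.1 (E (dw p q)) := hu ▸ (Commute.refl _).mul_right (Commute.refl _)
  obtain ⟨u1, u2⟩ := (sw u uc).resolve_left fun e => ns u e.1 e.2 hu
  have yp : y ≠ p := fun e => pq (by rw [← u1, ← e, hy])
  have yq : y ≠ q := fun e => pq (by rw [← u2, ← e, hy])
  obtain ⟨y', -, hy'⟩ := ex_out Finset.univ [p, q, y] (by simp)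
  obtain ⟨n, g1, g2, g3, -⟩ := lift (a := p) (b := q) (c := y) (d := y') (by
    simp only [List.mem_cons, List.not_mem_nil, or_false, not_or] at hy'
    simp [pq, yp.symm, yq.symm, Ne.symm hy'.1, Ne.symm hy'.2.1, Ne.symm hy'.2.2]) nd
  have JC : J ≤ centralizer {E (dw p q)} := fun a ha => by
    obtain ⟨v, -, rfl⟩ := k.sur a ha
    exact mem_centralizer_singleton_iff.2 (cJ _ _)
  obtain ⟨T, hT⟩ := (w.pgrp.comap_subtype (K := centralizer {E (dw p q)})).exists_le_sylow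
  have TN := (w.subgroupOf JC).le_norm T.isPGroup' hT
  have TN' : ∀ a : centralizer {E (dw p q)}, a ∈ (T : Subgroup _) → a.1 ∈ normalizer (J : Set G) := fun a ha => by
    have := le_normalizer_map (centralizer {E (dw p q)}).subtype ⟨a, TN ha, rfl⟩
    rwa [subgroupOf_map_subtype, inf_of_le_left JC] at this
  let U : normalizer (J : Set G) := n * u * n⁻¹
  have U0 : U.1 * U.1 = E (dw p q) := by
    simp only [U]
    rw [coe_mul, coe_mul, coe_inv, conj_mul, hu, h2, g1, g2]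
  have UC : U.1 ∈ centralizer {E (dw p q)} := mem_centralizer_singleton_iff.2
    (U0 ▸ (Commute.refl _).mul_right (Commute.refl _))
  let S := ((MulAction.stabilizer (Equiv.Perm GolayPt) p).comap Θ).map (normalizer (J : Set G)).subtype
  have mS : ∀ a : normalizer (J : Set G), a.1 ∈ S ↔ Θ a p = p := fun a =>
    ⟨fun ⟨b, hb, e⟩ => (show b = a from Subtype.ext e) ▸ hb, fun e => ⟨a, e, rfl⟩⟩
  obtain ⟨C1, c1, c2, c3⟩ := idx2 (t := ⟨E (dw p q), JC (k.mem _)⟩) (u := ⟨U, UC⟩)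
    (fun g => Subtype.ext (mem_centralizer_singleton_iff.1 g.2)) (Subtype.ext (k.sq2 _)) (Subtype.ext U0) T
    ((T : Subgroup _) ⊓ S.subgroupOf _) inf_le_left (fun a ha b hb a1 b1 => ⟨mul_mem ha hb, by
      have a2 := (sw ⟨a, TN' a ha⟩ (mem_centralizer_singleton_iff.1 a.2)).resolve_left fun e =>
        a1 ⟨ha, (mS ⟨a, TN' a ha⟩).2 e.1⟩
      have b2 := (sw ⟨b, TN' b hb⟩ (mem_centralizer_singleton_iff.1 b.2)).resolve_left fun e =>
        b1 ⟨hb, (mS ⟨b, TN' b hb⟩).2 e.1⟩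
      exact (mS (⟨a, TN' a ha⟩ * ⟨b, TN' b hb⟩)).2 (by
        rw [map_mul, Equiv.Perm.mul_apply]; exact (congrArg _ b2.1).trans a2.2)⟩)
    ⟨hT (k.mem _), (mS ⟨_, le_normalizer (k.mem _)⟩).2 (by rw [(h3 _).2 (k.mem _)]; rfl)⟩ fun v hv e => by
      have v1 := (mS ⟨v, TN' v hv.1⟩).1 hv.2
      exact ns ⟨v, TN' v hv.1⟩ v1 (((sw _ (mem_centralizer_singleton_iff.1 v.2)).resolve_right fun e =>
        pq (v1.symm.trans e.1)).2) (congrArg Subtype.val e)
  let C := C1.map (centralizer {E (dw p q)}).subtype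
  have mC : ∀ a : centralizer {E (dw p q)}, a.1 ∈ C ↔ a ∈ C1 := fun a =>
    ⟨fun ⟨b, hb, e⟩ => (show b = a from Subtype.ext e) ▸ hb, fun e => ⟨a, e, rfl⟩⟩
  have C2 : C.relIndex (centralizer {E (dw p q)}) = 2 := by
    rw [relIndex, show C.subgroupOf _ = C1 from Subgroup.ext mC, c1]
  have CC : C ≤ centralizer {E (dw p q)} := map_subtype_le _
  have nz : ((zpowers (E (dw p q))).subgroupOf C).Normal := ⟨fun a ha g => by
    obtain ⟨i, hi⟩ := ha
    refine ⟨i, hi.trans ?_⟩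
    rw [coe_subtype, coe_mul, coe_mul, coe_inv, show a.1 = _ from hi.symm]
    exact ((show Commute g.1 _ from mem_centralizer_singleton_iff.1 (CC g.2)).zpow_right i).mul_inv_cancel.symm⟩
  have o2 : ∀ {a b}, a ≠ b → orderOf (E (dw a b)) = 2 := fun h =>
    orderOf_eq_prime ((pow_two _).trans (k.sq2 _)) (n1 h)
  have := S0283.result (F := K4) (q := 2) card_K4 6 (by norm_num) (by norm_num)
  obtain ⟨KC, hs, d1, d2, _, ⟨e⟩⟩ := cen22 (o2 pq) (o2 nd'.2.1.1) (fun e => by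
      have := congrFun (k.eq2 e) r
      simp [dw, Ne.symm nd'.1.2.1, Ne.symm nd'.2.1.1] at this) (cJ _ _) hK hp _ π hπ hk CC C2 UC
    (mt (mC ⟨U, UC⟩).1 c3) (by
      rw [h2, cjf n u g2 g1 u2, cjf n u g3 g3 hy, ← k.add, dw_comm p q, dw_add, dw_comm])
  have JK : J ≤ K := fun a ha => by
    obtain ⟨v, -, rfl⟩ := k.sur a ha
    exact (hK _).2 ⟨cJ _ _, cJ _ _⟩
  obtain ⟨s', -, hs'⟩ := ex_out Finset.univ [p, q, r, s] (by simp)
  simp only [List.mem_cons, List.not_mem_nil, or_false, not_or] at hs'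
  obtain ⟨m, m1, m2, m3, m4⟩ := lift (a' := p) (b' := q) (c' := s) (d' := s') nd (by
    simp [pq, nd'.1.2.2, nd'.2.1.2, Ne.symm hs'.1, Ne.symm hs'.2.1, Ne.symm hs'.2.2.2])
  have mm : (m * m).1 ∈ C := (mC (⟨m, mem_centralizer_singleton_iff.2 (cf m m1 m2)⟩ *
    ⟨m, mem_centralizer_singleton_iff.2 (cf m m1 m2)⟩)).2 (mul_self_mem_of_index_two c1 _)
  have e2 : (⟨_, mm⟩ : C) * ⟨_, hs⟩ * ⟨_, mm⟩⁻¹ = ⟨E (dw q s'), KC (JK (k.mem _))⟩ := Subtype.ext (by
    have := h2 (m * m) q r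
    rwa [map_mul, Equiv.Perm.mul_apply, Equiv.Perm.mul_apply, m2, m2, m3, m4] at this)
  have nw : ∃ g : C ⧸ (zpowers (E (dw p q))).subgroupOf C, g * QuotientGroup.mk ⟨_, hs⟩ * g⁻¹ ∈
      centralizer {QuotientGroup.mk ⟨_, hs⟩} ∧ g * QuotientGroup.mk ⟨_, hs⟩ * g⁻¹ ≠ QuotientGroup.mk ⟨_, hs⟩ :=
    ⟨QuotientGroup.mk ⟨_, mm⟩, by
    rw [← QuotientGroup.mk_inv, ← QuotientGroup.mk_mul, ← QuotientGroup.mk_mul, e2]
    refine ⟨mem_centralizer_singleton_iff.2 (congrArg QuotientGroup.mk (Subtype.ext (cJ _ _))), fun e => ?_⟩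
    have e3 : E (dw s' r) ∈ zpowers (E (dw p q)) := by
      have := mem_subgroupOf.1 (QuotientGroup.eq.1 e)
      rwa [coe_mul, coe_inv, inv_eq_of_mul_eq_one_right (k.sq2 _), ← k.add, dw_add] at this
    rcases py_z (o2 pq) e3 with e3 | e3
    · exact n1 hs'.2.2.1 e3
    · have := congrFun (k.eq2 e3) r
      simp [dw, Ne.symm nd'.1.2.1, Ne.symm nd'.2.1.1, Ne.symm hs'.2.2.1] at this⟩
  obtain ⟨f, -⟩ := F22.main d1 d2 card_K4 e nw
  have cj : ∀ g, g ∈ centralizer (K : Set G) → g ∈ J := fun g hg => (h3 ⟨g,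
    centralizer_le_normalizer _ fun a ha => hg a (JK ha)⟩).1 (dw_uniq fun a b => k.eq2 ((h2 _ a b).symm.trans
      (show Commute g _ from (hg _ (JK (k.mem _))).symm).mul_inv_cancel))
  have zp : center (PSU 6 K4 2) = ⊥ := (Normal.eq_bot_or_eq_top inferInstance).resolve_right fun e => by
    have h8 : (_root_.commutator K).map π = ⊥ := by
      rw [_root_.commutator_def, map_commutator, commutator_eq_bot_iff_le_centralizer]
      exact fun a _ b _ => mem_center_iff.1 (e.ge (mem_top a)) b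
    rw [hp.1, map_top_of_surjective _ hπ] at h8
    exact top_ne_bot h8
  obtain ⟨N, N1, N2, N3, -⟩ := lift (a' := p) (b' := r) (c' := q) (d' := s) nd (by
    simp [pq, nd'.1.2.1, nd'.1.2.2, nd'.2.1.2, Ne.symm nd'.2.1.1, nd'.2.2.1])
  have pr : E (dw p q) * E (dw q r) = E (dw p r) := by rw [← k.add, dw_comm p q, dw_add]
  have f1 : N.1 * E (dw p q) * N.1⁻¹ = E (dw p r) := by rw [h2, N1, N2]
  have f2 : N.1 * E (dw p r) * N.1⁻¹ = E (dw p q) := by rw [h2, N1, N3]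
  have f3 : Commute N.1 (E (dw q r)) := Inv.commute_iff_conj.2 (by rw [h2, N2, N3, dw_comm])
  have f4 : E (dw p r) ≠ E (dw p q) := fun e => by
    have := congrFun (k.eq2 e) r
    simp [dw, Ne.symm nd'.1.2.1, Ne.symm nd'.2.1.1] at this
  refine ⟨C, N, fun a ha => KC (JK ha), CC, C2, KC (JK (k.mem _)), commutator_mono KC KC hc,
    fun g hg => KC (JK (cj g fun a ha => hg a (KC ha))),
    ⟨f.symm.toMonoidHom.comp (QuotientGroup.mk' _), f.symm.surjective.comp (QuotientGroup.mk'_surjective _),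
    fun g => (map_eq_one_iff _ f.symm.injective).trans (QuotientGroup.eq_one_iff _)⟩,
    ⟨nz, _, d1, d2, ⟨K4, _, _, card_K4, _, ⟨e⟩⟩, nw⟩, ⟨f1 ▸ JC (k.mem _), f1 ▸ f4⟩, fun α hα => ?_,
    fun S S1 S2 g hg => ?_⟩
  · have NK : ∀ a ∈ K, N.1⁻¹ * a * N.1 ∈ K := fun a ha => by
      have a1 := ((hK a).1 ha).1
      have a2 := ((hK a).1 ha).2
      refine (hK _).2 ⟨?_, (f3.inv_left.mul_left a2).mul_left f3⟩
      have := (a1.mul_right a2).conj N.1⁻¹
      rwa [pr, ← f1, inv_inv, show N.1⁻¹ * (N.1 * E (dw p q) * N.1⁻¹) * N.1 = E (dw p q) by group] at this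
    have e1 : α N * N.1⁻¹ ∈ centralizer (K : Set G) := fun a ha => by
      have := hα _ (KC (NK a ha))
      rw [map_mul, map_mul, map_inv, hα a (KC ha)] at this
      calc a * (α N * N.1⁻¹) = α N * ((α N)⁻¹ * a * α N) * N.1⁻¹ := by group
        _ = _ := by rw [this]; group
    have e2 : N.1 * N.1 ∈ K := (hK _).2 ⟨cf (N * N) (by simp [N1]) (by simp [N2, N3]), f3.mul_left f3⟩
    have e3 := hα _ (KC e2)
    obtain ⟨v, -, e4⟩ := k.sur _ (cj _ e1)
    have e5 : N.1 * (α N * N.1⁻¹) * N.1⁻¹ = α N * N.1⁻¹ := by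
      refine mul_left_cancel (a := α N * N.1⁻¹) ?_
      rw [show α N * N.1⁻¹ * (α N * N.1⁻¹) = 1 by rw [e4, k.sq2]]
      calc _ = α N * α N * (N.1 * N.1)⁻¹ := by group
        _ = 1 := by rw [← map_mul, e3, mul_inv_cancel]
    rcases hk' ⟨_, JK (cj _ e1)⟩ (zp.le (mem_center_iff.2 fun b => by
      obtain ⟨b, rfl⟩ := hπ b
      rw [← map_mul, ← map_mul]
      exact congrArg π (Subtype.ext (e1 b b.2)))) with e | e | e | e <;> simp only at e
    · exact .inl (mul_inv_eq_one.1 e)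
    · rw [e, f1] at e5; exact absurd e5 f4
    · refine .inr ?_
      rw [mul_inv_eq_iff_eq_mul.1 e, ← mul_assoc, pr, ← f1, inv_mul_cancel_right, mul_inv_cancel_right]
    · rw [e, pr, f2] at e5; exact absurd e5.symm f4
  · have s1 : ∀ g : normalizer (J : Set G), Θ g p = p → Θ g q = q → g.1 ∈ S := fun g e e' =>
      S1 (mem_centralizer_singleton_iff.2 (cf g e e'))
    have l3 : ∀ y, y ≠ p → y ≠ q → ∃ m : normalizer (J : Set G), Θ m p = p ∧ Θ m q = q ∧ Θ m r = y :=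
      fun y y1 y2 => by
        obtain ⟨y', -, hy'⟩ := ex_out Finset.univ [p, q, y] (by simp)
        simp only [List.mem_cons, List.not_mem_nil, or_false, not_or] at hy'
        obtain ⟨m, m1, m2, m3, -⟩ := lift (a' := p) (b' := q) (c' := y) (d' := y') nd (by
          simp [pq, y1.symm, y2.symm, Ne.symm hy'.1, Ne.symm hy'.2.1, Ne.symm hy'.2.2])
        exact ⟨m, m1, m2, m3⟩
    have inv : ∀ (m g : normalizer (J : Set G)) a, Θ m a = Θ g a → Θ (m⁻¹ * g) a = a := fun m g a e => by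
      rw [map_mul, map_inv, Equiv.Perm.mul_apply, ← e]; simp
    have s2 : ∀ y, y ≠ p → ∃ m : normalizer (J : Set G), m.1 ∈ S ∧ Θ m p = p ∧ Θ m q = y := fun y y1 => by
      by_cases y2 : y = q
      · exact ⟨1, one_mem _, by simp, by simp [y2]⟩
      obtain ⟨m, m1, m2, m3⟩ := l3 y y1 y2
      exact ⟨m * N, mul_mem (s1 m m1 m2) S2, by simp [N1, m1], by simp [N2, m3]⟩
    have s3 : ∀ g : normalizer (J : Set G), Θ g p = p → g.1 ∈ S := fun g e => by
      obtain ⟨m, m1, m2, m3⟩ := s2 (Θ g q) fun e' => pq ((Θ g).injective (e.trans e'.symm))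
      exact (mul_mem_cancel_left (inv_mem m1)).1 (s1 (m⁻¹ * g) (inv m g p (m2.trans e.symm)) (inv m g q m3))
    by_cases e : Θ ⟨g, hg⟩ p = p
    · exact s3 _ e
    obtain ⟨m, m1, m2, m3⟩ := s2 _ e
    exact (mul_mem_cancel_left (inv_mem (mul_mem m1 (S1 (mem_centralizer_singleton_iff.2 uc))))).1
      (s3 ((m * u)⁻¹ * ⟨g, hg⟩) (inv _ _ p (by rw [map_mul, Equiv.Perm.mul_apply, u1, m3])))

theorem core60 {z : G} {Q : Subgroup (centralizer ({z} : Set G))} [Q.Normal]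
    (hF : IsOfLargeFischerTypeAt z Q) : ∃ t C n N, Res2 t C n N ∧ z ∈ C ∧ t ∈ Q.map (Subgroup.subtype _) ∧
      orderOf t = 2 ∧ ¬ IsConj z t ∧ Q.map (Subgroup.subtype _) ≤ N ∧
      (∀ t' ∈ Q.map (Subgroup.subtype _), orderOf t' = 2 → ¬ IsConj z t' → IsConj t t') ∧
      ∀ α : G ≃* G, (∀ c ∈ C, α c = c) → (∀ q ∈ Q.map (Subgroup.subtype _), α q ∈ Q.map (Subgroup.subtype _)) →
        ∀ q ∈ Q.map (Subgroup.subtype _), α (α q) = q := by
  obtain ⟨T, N, M, L, V, _, _, _, B, χ, φ, h, A, w, x, R, r, F, hL, hJ⟩ := exists_setup_ma hF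
  obtain ⟨-, -, E, k, Θ, h1, h2, h3⟩ := exists_m24 hF T hJ.symm
  have wc : WC 2 (A.map (centralizer ({z} : Set G)).subtype) := hJ ▸ wc_of_sylow (isSylowIn_top T)
    (Transfer.thompsonSubgroupOf_le _) fun g => Transfer.conj_smul_thompsonSubgroupOf_eq_of_le
  obtain ⟨nsq, E4, hE, hp, hc, π, hπ, hk⟩ := r.four2 F hL
    (fun g e => ⟨⟨g, mem_centralizer_singleton_iff.2 e⟩, rfl⟩) fun a ha T => r.trT F k Θ h1 h2 ha T
  have d : ∀ {a}, Dl (centralizer ({z} : Set G)).subtype (zz z) a → a.1 ≠ 1 ∧ ¬ IsConj z a.1 := fun e =>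
    ⟨fun e' => e.1 (Subtype.ext e'), e.2⟩
  have mJ : ∀ {a}, a ∈ A → a.1 ∈ A.map (centralizer ({z} : Set G)).subtype := fun ha => ⟨_, ha, rfl⟩
  have ad : R ((1 : K4) • hcv 0, 0) * R (w4 • hcv 0, 0) = R ((1 + w4) • hcv 0, 0) := (r.ad0 _ _).symm
  obtain ⟨p, q, s, nd, e1, e2⟩ := k.tri (mJ (r.mA ((1 : K4) • hcv 0, 0))) (mJ (r.mA (w4 • hcv 0, 0)))
    (d ((r.dr F _).2 (by decide))) (d ((r.dr F _).2 (by decide)))
    (by rw [← coe_mul, ad]; exact d ((r.dr F _).2 (by decide)))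
  have Z := r.zT F
  obtain ⟨y, n1, e3⟩ := k.tet4 nd (mJ r.zA) (fun e => e.2 (IsConj.refl _)) (fun e => h.l.ne (Subtype.ext e))
    (e1 ▸ d (Z.2 1 one_ne_zero)) (e2 ▸ d (Z.2 w4 (by decide)))
  have c4 : ∀ g : G, Commute g (E (dw p q)) → Commute g (E (dw q s)) → ∀ c : K4,
      Commute g (R (c • hcv 0, 0)).1 := fun g c1 c2 c => by
    rcases (by decide : ∀ c : K4, c = 0 ∨ c = 1 ∨ c = w4 ∨ c = 1 + w4) c with rfl | rfl | rfl | rfl
    · rw [r.z0]; exact Commute.one_right _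
    · exact e1 ▸ c1
    · exact e2 ▸ c2
    · rw [← ad, coe_mul, e1, e2]; exact c1.mul_right c2
  have hK : ∀ g, g ∈ centralizer (E4 : Set G) ↔ Commute g (E (dw p q)) ∧ Commute g (E (dw q s)) := fun g =>
    ⟨fun e => ⟨(e _ ((hE _).2 ⟨1, e1.symm⟩)).symm, (e _ ((hE _).2 ⟨w4, e2.symm⟩)).symm⟩, fun e a ha => by
      obtain ⟨c, rfl⟩ := (hE a).1 ha
      exact (c4 g e.1 e.2 c).symm⟩
  obtain ⟨u, hu, a, ha, a1, u1, u2⟩ := r.ex_u F
  let U : normalizer (A.map (centralizer ({z} : Set G)).subtype : Set G) :=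
    ⟨u, le_normalizer_map _ ⟨u, hu, rfl⟩⟩
  have U1 : U.1 * U.1 = E (dw p q) := (congrArg Subtype.val u1).trans e1
  obtain ⟨y', hy'⟩ : ∃ y', Θ U y' = y' := by
    obtain ⟨c, c', hc, e4⟩ := (k.du _ (mJ ha)).1 (d a1)
    obtain ⟨b, b', hb, e5⟩ := (k.du _ (mJ (r.mA ((1 : K4) • hcv 0, 1)))).1 (d ((r.dr F _).2 (by decide)))
    have e6 := h2 U c c'
    rw [← e4, show U.1 * a.1 * U.1⁻¹ = _ from congrArg Subtype.val u2, coe_mul, e4, e5] at e6
    have e7 := k.eq3 (a := c) (b := c') (c := Θ U c) (d := Θ U c') (e := b) (f := b') (by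
      rw [← e6, ← mul_assoc, k.sq2, one_mul])
    have e8 : ∀ y, Θ U (Θ U y) = y := fun y => by
      rw [← Equiv.Perm.mul_apply, ← map_mul, (h3 _).2 (by rw [coe_mul, U1]; exact k.mem _)]; rfl
    have e9 : Θ U c ≠ c' := fun e => by
      rw [← e, e8, dw_comm, add_self₂] at e7
      exact zero_ne_one ((congrFun e7 b).trans (dw_left hb))
    rcases dw_meet hc ((Θ U).injective.ne hc) e7 with e | e | e | e
    exacts [⟨_, e.symm⟩, absurd (by rw [e, e8]) e9, absurd e.symm e9, ⟨_, e.symm⟩]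
  obtain ⟨C, n, JC, R0⟩ := res_of2 k wc Θ h1 h2 h3 n1 hK hp (by
    rw [← e1, _root_.commutator_def, map_commutator, ← MonoidHom.range_eq_map, range_subtype] at *; exact hc)
    π hπ (fun g => (hk g).trans (SetLike.ext_iff.1 (
      show E4 = closure {E (dw p q), E (dw q s)} from le_antisymm (fun a ha => by
        obtain ⟨c, rfl⟩ := (hE a).1 ha
        have m1 : E (dw p q) ∈ closure ({E (dw p q), E (dw q s)} : Set G) := subset_closure (.inl rfl)
        have m2 : E (dw q s) ∈ closure ({E (dw p q), E (dw q s)} : Set G) := subset_closure (.inr rfl)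
        rcases (by decide : ∀ c : K4, c = 0 ∨ c = 1 ∨ c = w4 ∨ c = 1 + w4) c with rfl | rfl | rfl | rfl
        · rw [r.z0]; exact one_mem _
        · exact e1 ▸ m1
        · exact e2 ▸ m2
        · rw [← ad, map_mul]; exact mul_mem (e1 ▸ m1) (e2 ▸ m2)) ((closure_le _).2 (by
          rintro _ (rfl | rfl)
          exacts [(hE _).2 ⟨1, e1.symm⟩, (hE _).2 ⟨w4, e2.symm⟩]))) _))
    (fun g e => by
      obtain ⟨c, e⟩ := (hE _).1 ((hk g).1 e)
      rcases (by decide : ∀ c : K4, c = 0 ∨ c = 1 ∨ c = w4 ∨ c = 1 + w4) c with rfl | rfl | rfl | rfl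
      · exact .inl (by rw [e, r.z0]; rfl)
      · exact .inr (.inl (e.trans e1))
      · exact .inr (.inr (.inl (e.trans e2)))
      · exact .inr (.inr (.inr (by rw [e, ← ad, map_mul, ← e1, ← e2]; rfl))))
    (fun v hv c e => nsq ⟨v, mem_centralizer_singleton_iff.2 (show Commute v z from
      (show z = _ from e3) ▸ c.mul_right ((hK v).1 hv).1)⟩ (mem_K0.2 fun c' => Subtype.ext
        (c4 v ((hK v).1 hv).1 ((hK v).1 hv).2 c')) (Subtype.ext (e.trans e1.symm))) U U1 hy'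
  have d0 := d ((r.dr F ((1 : K4) • hcv 0, 0)).2 (by decide))
  refine ⟨_, C, n, _, R0, JC (mJ r.zA), e1 ▸ ⟨_, r.mQ _, rfl⟩, orderOf_eq_prime ((pow_two _).trans (k.sq2 _))
    (e1 ▸ d0.1), e1 ▸ d0.2, ?_, ?_, fun α h4 h5 => ?_⟩
  · rintro _ ⟨a, ha, rfl⟩
    exact le_normalizer_map _ ⟨a, r.nN (h.QN ha), rfl⟩
  · rintro _ ⟨t, h0, rfl⟩ ht2 ht
    have iv : Iv Q (zz z) t := iv_of h0 (by rw [← ht2]; exact (orderOf_coe _).symm) fun e =>
      ht (by rw [show (centralizer {z}).subtype t = z from e])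
    obtain ⟨m, -, rfl⟩ := h.mconj r.iv0 iv (iff_of_false (mt (F.zp _ r.iv0).2
      ((r.dr F _).2 (by decide)).2) (mt (F.zp _ iv).2 ht))
    exact e1 ▸ isConj_iff.2 ⟨m.1, rfl⟩
  · rintro _ ⟨a, ha, rfl⟩
    obtain ⟨b, hb, e⟩ := h5 _ ⟨a, ha, rfl⟩
    have m1 : a⁻¹ * b ∈ A := r.cenR (mul_mem (inv_mem ha) hb) fun s => Subtype.ext (by
      have := h4 _ (JC (mJ (r.cq ha s ▸ r.mA _ : a * R s * a⁻¹ ∈ A)))
      rw [coe_mul, coe_mul, coe_inv, map_mul, map_mul, map_inv, h4 _ (JC (mJ (r.mA s))),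
        show α a.1 = b.1 from e.symm] at this
      simp only [coe_mul, coe_inv]
      calc _ = a.1⁻¹ * (b.1 * (R s).1 * b.1⁻¹) * b.1 := by group
        _ = _ := by rw [this]; group)
    have e' : α a.1 = a.1 * (a⁻¹ * b).1 := e.symm.trans (by simp)
    change α (α a.1) = a.1
    rw [e', map_mul, e', h4 _ (JC (mJ m1)), mul_assoc, ← coe_mul, r.sq _ m1, OneMemClass.coe_one, mul_one]

end Cfsg.Agent.LF
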