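import Cfsg.Agent.Fischer.NG
import Cfsg.Agent.Fischer.PP
import Cfsg.Agent.Fischer.PQ

/-! The outer involution centralising a copy of the second Fischer group. -/

set_option autoImplicit false
set_option linter.unusedSectionVars false
set_option linter.unusedVariables false
set_option synthInstance.maxSize 2048

namespace Cfsg.Agent.LF
open Subgroup Module Cfsg.Agent.Comp Cfsg.Agent.FiC Cfsg.Agent.Herm Cfsg.Agent.Fischer.U6
  Cfsg.Agent.Fischer Cfsg.Agent.LocalEven Cfsg.Agent.Golay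

theorem s5460 {X : Type*} [Group X] [Finite X] (G₀ : Subgroup X) (hidx : G₀.index = 2) (z : G₀)
    (Q : Subgroup (centralizer ({z} : Set G₀))) [Q.Normal] (hF : IsOfLargeFischerTypeAt z Q)
    (hcentral : ∃ P : Sylow 2 G₀, z ∈ (P : Subgroup G₀) ∧ ∀ x ∈ (P : Subgroup G₀), Commute x z)
    (hFX : (generalizedFittingSubgroup (centralizer ({(z : X)} : Set X))).map (Subgroup.subtype _) =
      (Q.map (Subgroup.subtype _)).map G₀.subtype) :
    ∃ d : X, orderOf d = 2 ∧ d ∉ G₀ ∧ Commute d (z : X) ∧ ∃ t : ↥(G₀ ⊓ centralizer ({d} : Set X)),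
      orderOf t = 2 ∧ IsQuasisimple (centralizer ({t} : Set _)) ∧
      (∃ _ : ((zpowers t).subgroupOf (centralizer ({t} : Set _))).Normal,
        MT22 (centralizer ({t} : Set _) ⧸ (zpowers t).subgroupOf (centralizer ({t} : Set _)))) ∧
      ∃ g, g * t * g⁻¹ ∈ centralizer ({t} : Set _) ∧ g * t * g⁻¹ ≠ t := by
  obtain ⟨t, C, n, N, ⟨h1, h2, h3, h4, h5, ⟨π, h6, h7⟩, ⟨nz, mt⟩, ⟨n1, n2⟩, hα, hS⟩, zC, tQ, t2, tz, QN, tr, sq⟩ :=
    core60 hF
  obtain ⟨l, -⟩ := MT.ls_of_setting hF.1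
  obtain ⟨N', M', st⟩ := st_of hF
  have := normal_of_index_eq_two hidx
  have cv : ∀ (y : X) (g : G₀), (MulAut.conjNormal y g : X) = y * g * y⁻¹ := fun _ _ => rfl
  have fx : ∀ (y : X) (g : G₀), Commute y g → MulAut.conjNormal y g = g := fun y g e =>
    Subtype.ext e.mul_inv_cancel
  have nQ : ∀ y : X, Commute y z → ∀ q ∈ Q.map (Subgroup.subtype _),
      MulAut.conjNormal y q ∈ Q.map (Subgroup.subtype _) := fun y e q hq => by
    obtain ⟨f, hf, e1⟩ := hFX.ge (mem_map_of_mem _ hq)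
    obtain ⟨q', hq', e2⟩ := hFX.le (mem_map_of_mem _ (Normal.conj_mem Comp2.genFitting_normal f hf
      ⟨y, mem_centralizer_singleton_iff.2 e⟩))
    have e3 : q' = MulAut.conjNormal y q :=
      Subtype.ext (show _ = y * q * y⁻¹ from e2.trans (congrArg (y * · * y⁻¹) e1))
    exact e3 ▸ hq'
  have cQ : ∀ y : X, Commute y z → (∀ q ∈ Q.map (Subgroup.subtype _), Commute y q.1) → y ∈ G₀ := fun y e e' => by
    obtain ⟨q, -, e2⟩ := hFX.le (mem_map_of_mem _ (Comp2.centralizer_genFitting_le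
      (show (⟨y, mem_centralizer_singleton_iff.2 e⟩ : centralizer ({(z : X)} : Set X)) ∈ _ from fun f hf => by
        obtain ⟨q, hq, e1⟩ := hFX.le (mem_map_of_mem _ hf)
        exact Subtype.ext (show f.1 * y = y * f.1 from (show f.1 = q.1 from e1.symm) ▸ (e' q hq).symm.eq))))
    exact (show q.1 = y from e2) ▸ q.2
  have cz : ∀ g : G₀, (∀ q ∈ Q.map (Subgroup.subtype _), Commute g q) → g = 1 ∨ g = z := fun g e =>
    l.cent _ (l.cmem _ e) e
  obtain ⟨P, p1, p2⟩ := hcentral
  obtain ⟨y0, y1, y2⟩ := outer_z hidx (orderOf_eq_prime ((pow_two z).trans l.zsq) l.ne) P p2 p1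
    ((IsPGroup.of_card st.cQ).map _) (map_subtype_le _) (fun g hg => mem_normalizer_fintype fun q hq =>
      l.norm g (mem_centralizer_singleton_iff.1 hg) q hq) cz
  obtain ⟨g, hg⟩ := isConj_iff.1 (tr _ (nQ y0 y2 t tQ) (by rw [MulEquiv.orderOf_eq, t2]) fun e => tz (by
    simpa [(MulEquiv.symm_apply_eq _).2 (fx y0 z y2).symm] using
      (MulAut.conjNormal y0 : G₀ ≃* G₀).symm.toMonoidHom.map_isConj e))
  have hq := res_q h1 h4 π h6 h7
  have e1 : (centralizer {t}).map G₀.subtype = G₀ ⊓ centralizer {t.1} := le_antisymm (by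
    rintro _ ⟨a, ha, rfl⟩
    exact ⟨a.2, mem_centralizer_singleton_iff.2 (congrArg Subtype.val (mem_centralizer_singleton_iff.1 ha))⟩)
    fun a ha => ⟨⟨a, ha.1⟩, mem_centralizer_singleton_iff.2 (Subtype.ext (mem_centralizer_singleton_iff.1 ha.2)), rfl⟩
  let ε := C.equivMapOfInjective G₀.subtype (subtype_injective _)
  have := Fi22.card.1
  have hz : center Spor.Fi22 = ⊥ := Fischer.F22.pm.center
  obtain ⟨d0, d1, d2⟩ := outer_cent (C := C.map G₀.subtype) (t := t.1) (y := g.1⁻¹ * y0) hidx (e1 ▸ map_mono h1)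
    (by rw [← e1, relIndex_map_map_of_injective _ _ (subtype_injective _), h2]) ((orderOf_coe t).trans t2)
    ⟨t, h3, rfl⟩ (have := hq.1; Group.IsPerfect.map _)
    (fun a ha => ⟨⟨a, ha.1⟩, h5 fun c hc => Subtype.ext (ha.2 _ ⟨c, hc, rfl⟩), rfl⟩) hz
    (π.comp ε.symm.toMonoidHom) (h6.comp ε.symm.surjective) (fun a => (h7 _).trans (by
      obtain ⟨a, rfl⟩ := ε.surjective a
      rw [MulEquiv.coe_toMonoidHom, ε.symm_apply_apply]
      exact ⟨fun ⟨i, e⟩ => ⟨i, congrArg Subtype.val e⟩, fun ⟨i, e⟩ => ⟨i, Subtype.ext e⟩⟩))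
    (by rw [card_aut_eq hz, Fi22.out, mul_comm]) (fun e => y1 ((mul_mem_cancel_left (inv_mem g.2)).1 e)) (by
      have := congrArg Subtype.val hg
      rw [cv, coe_mul, coe_mul, coe_inv] at this
      refine Inv.commute_iff_conj.2 ?_
      rw [mul_assoc _ y0, mul_inv_rev, ← mul_assoc _ y0⁻¹, mul_assoc g.1⁻¹, ← this]; group)
  have d3 : ∀ c ∈ C, Commute d0 c.1 := fun c hc => (d2 _ ⟨c, hc, rfl⟩).symm
  have d4 : d0 * d0 = 1 := by
    rcases cz ⟨_, mul_self_mem_of_index_two hidx d0⟩ (fun q hq => Inv.commute_iff_conj.2 (Subtype.ext (by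
      have := congrArg Subtype.val (sq _ (fun c hc => fx d0 c (d3 c hc)) (nQ d0 (d3 z zC)) q hq)
      rw [cv, cv] at this
      rw [← this]; simp [mul_assoc]))) with e | e
    · exact congrArg Subtype.val e
    · rcases py_z t2 ((h7 ⟨z, zC⟩).1 (hz.le (mem_center_iff.2 fun b => by
        obtain ⟨b, rfl⟩ := h6 b
        rw [← map_mul, ← map_mul]
        exact congrArg π (Subtype.ext (Subtype.ext (show b.1.1 * z.1 = z.1 * b.1.1 from
          (show d0 * d0 = z.1 from congrArg Subtype.val e) ▸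
          ((d3 b b.2).mul_left (d3 b b.2)).symm.eq)))))) with e | e
      exacts [absurd e l.ne, absurd (by rw [← show z = t from e]) tz]
  have ct : ∀ c ∈ C, Commute t.1 c.1 := fun c hc =>
    (congrArg Subtype.val (mem_centralizer_singleton_iff.1 (h1 hc))).symm
  obtain ⟨d, d5, d6, d7, d8⟩ : ∃ d, d ∉ G₀ ∧ d * d = 1 ∧ (∀ c ∈ C, Commute d c.1) ∧ Commute d n.1 := by
    rcases hα _ fun c hc => fx d0 c (d3 c hc) with e | e
    · exact ⟨d0, d1, d4, d3, Inv.commute_iff_conj.2 (congrArg Subtype.val e)⟩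
    · refine ⟨t * d0, fun e => d1 ((mul_mem_cancel_left t.2).1 e), ?_, fun c hc => (ct c hc).mul_left (d3 c hc),
        Inv.commute_iff_conj.2 ?_⟩
      · rw [(d3 t h3).mul_mul_mul_comm, d4, mul_one, ← coe_mul, ← pow_two, ← t2, pow_orderOf_eq_one]; rfl
      · have := congrArg Subtype.val e
        rw [coe_mul, coe_mul, cv, coe_inv] at this
        exact Eq.trans (by group) this
  have key : ∀ g : G₀, Commute g t → Commute g.1 d → g ∈ C := fun g e e' => by
    by_contra hn
    refine d5 (cQ d (d7 z zC) fun q hq => (mem_centralizer_singleton_iff.1 (hS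
      ((centralizer {d}).subgroupOf G₀) (fun a ha => ?_) (mem_centralizer_singleton_iff.2 d8.symm) (QN hq))).symm)
    by_cases hc : a ∈ C
    · exact mem_centralizer_singleton_iff.2 (d7 a hc).symm
    · exact (mul_mem_cancel_right (show g ∈ (centralizer {d}).subgroupOf G₀ from
        mem_centralizer_singleton_iff.2 e')).1 (mem_centralizer_singleton_iff.2 (d7 _
          ((mul_mem_iff_of_index_two h2 (a := ⟨a, ha⟩) (b := ⟨g, mem_centralizer_singleton_iff.2 e⟩)).2
            (iff_of_false hc hn))).symm)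
  let t' : ↥(G₀ ⊓ centralizer ({d} : Set X)) := ⟨t, t.2, mem_centralizer_singleton_iff.2 (d7 t h3).symm⟩
  let κ : C ≃* centralizer ({t'} : Set _) :=
    { toFun := fun c => ⟨⟨c, c.1.2, mem_centralizer_singleton_iff.2 (d7 c c.2).symm⟩,
        mem_centralizer_singleton_iff.2 (Subtype.ext (ct c c.2).symm)⟩
      invFun := fun c => ⟨⟨c, c.1.2.1⟩, key _ (Subtype.ext (by
        have := congrArg Subtype.val (mem_centralizer_singleton_iff.1 c.2); exact this)) (mem_centralizer_singleton_iff.1 c.1.2.2)⟩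
      left_inv := fun _ => rfl
      right_inv := fun _ => rfl
      map_mul' := fun _ _ => rfl }
  have e2 : ((zpowers t).subgroupOf C).map κ.toMonoidHom = (zpowers t').subgroupOf _ := by
    ext a
    rw [mem_map_equiv]
    exact ⟨fun ⟨i, e⟩ => ⟨i, Subtype.ext (by have := congrArg Subtype.val e; exact this)⟩,
      fun ⟨i, e⟩ => ⟨i, Subtype.ext (by have := congrArg Subtype.val e; exact this)⟩⟩
  have n3 : ((zpowers t').subgroupOf (centralizer {t'})).Normal := e2 ▸ nz.map _ κ.surjective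
  exact ⟨d, orderOf_eq_prime ((pow_two d).trans d6) fun e => d5 (e ▸ one_mem _), d5, d7 z zC, t',
    (orderOf_coe t').symm.trans ((orderOf_coe t).trans t2), Comp2.quasisimple_of_mulEquiv hq κ, ⟨n3, mt.congr (QuotientGroup.congr _ _ κ e2)⟩,
    ⟨n, n.2, mem_centralizer_singleton_iff.2 d8.symm⟩, mem_centralizer_singleton_iff.2 (Subtype.ext
      (by have := congrArg Subtype.val (mem_centralizer_singleton_iff.1 n1); exact this)),
    fun e => n2 (Subtype.ext (by have := congrArg Subtype.val e; exact this))⟩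

end Cfsg.Agent.LF
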